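import Cfsg.Agent.Lib.GS.ConjPSub

/-!
Groups in which abelian subgroups of equal order are conjugate: the structure of the `p`-subgroups.
-/

set_option autoImplicit false

namespace Cfsg.Agent.Lib.GS.AbConj

open Subgroup

variable {G : Type*} [Group G] [Finite G] {p : ℕ} [hp : Fact p.Prime]

/-- Either a `p`-subgroup has a unique subgroup of order `p`, or it has exponent dividing `p`. -/
theorem unique_or_exponent
    (hB : ∀ A B : Subgroup G, IsMulCommutative ↥A → IsMulCommutative ↥B → Nat.card ↥A = Nat.card ↥B →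
      ∃ g : G, B = A.map (MulAut.conj g).toMonoidHom)
    (P : Subgroup G) (hP : IsPGroup p P) :
    (∀ H K : Subgroup P, Nat.card H = p → Nat.card K = p → H = K) ∨ (∀ x ∈ P, x ^ p = 1) := by
  classical
  refine or_iff_not_imp_left.2 fun huniq x hx => ?_
  simp only [not_forall] at huniq
  obtain ⟨H, K, hH, hK, hne⟩ := huniq
  haveI : Nontrivial P := by
    by_contra h
    rw [not_nontrivial_iff_subsingleton] at h
    exact hne (Subsingleton.elim H K)
  haveI := hP.center_nontrivial
  obtain ⟨n, hn⟩ := IsPGroup.iff_card.1 (hP.to_subgroup (center P))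
  have hn0 : n ≠ 0 := fun h => (Finite.one_lt_card (α := center P)).ne' (by rw [hn, h, pow_zero])
  obtain ⟨z, hz⟩ := exists_prime_orderOf_dvd_card' (G := center P) p (hn ▸ dvd_pow_self p hn0)
  have hzo : orderOf (z : P) = p := by rw [Subgroup.orderOf_coe, hz]
  have hw : ∃ w : P, orderOf w = p ∧ w ∉ zpowers (z : P) := by
    by_contra! h
    have hsub : ∀ L : Subgroup P, Nat.card L = p → L = zpowers (z : P) := by
      intro L hL
      refine eq_of_le_of_card_ge (fun l hl => ?_) (by rw [Nat.card_zpowers, hzo, hL])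
      rcases eq_or_ne l 1 with rfl | hl1
      · exact one_mem _
      refine h l (orderOf_eq_prime ?_ hl1)
      have := pow_card_eq_one' (x := (⟨l, hl⟩ : L))
      rw [hL] at this
      exact congrArg Subtype.val this
    exact hne ((hsub H hH).trans (hsub K hK).symm)
  obtain ⟨w, hwo, hwz⟩ := hw
  have hcz : ∀ a ∈ zpowers (z : P), ∀ b : P, Commute a b := fun a ha b =>
    (mem_center_iff.1 (zpowers_le.2 z.2 ha) b).symm
  obtain ⟨hEc, hEcard⟩ := ConjPSub.sup_zpowers_commutative (A := zpowers (z : P)) inferInstance hwo hwz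
    (fun a ha => hcz a ha w)
  set E := zpowers (z : P) ⊔ zpowers w with hE
  rw [Nat.card_zpowers, hzo] at hEcard
  have hEexp : ∀ a ∈ E, a ^ p = 1 := by
    intro a ha
    haveI : (zpowers (z : P)).Normal :=
      ⟨fun a ha g => by rw [← hcz a ha g, mul_inv_cancel_right]; exact ha⟩
    obtain ⟨b, hb, c, hc, rfl⟩ := mem_sup_of_normal_left.1 ha
    rw [(hcz b hb c).mul_pow]
    have h1 := orderOf_dvd_of_mem_zpowers hb
    have h2 := orderOf_dvd_of_mem_zpowers hc
    rw [hzo] at h1; rw [hwo] at h2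
    rw [orderOf_dvd_iff_pow_eq_one.1 h1, orderOf_dvd_iff_pow_eq_one.1 h2, one_mul]
  by_contra hxp
  obtain ⟨b, hb⟩ := IsPGroup.iff_orderOf.1 hP ⟨x, hx⟩
  rw [Subgroup.orderOf_mk] at hb
  obtain ⟨b, rfl⟩ : ∃ c, b = c + 2 := by
    refine ⟨b - 2, ?_⟩
    by_contra hlt
    have : b = 0 ∨ b = 1 := by omega
    rcases this with rfl | rfl
    · exact hxp (by rw [orderOf_eq_one_iff.1 (hb.trans (pow_zero p)), one_pow])
    · exact hxp (orderOf_dvd_iff_pow_eq_one.1 (by rw [hb, pow_one]))
  have hy : orderOf (x ^ (p ^ b)) = p ^ 2 := by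
    rw [orderOf_pow, hb, pow_add, Nat.gcd_mul_right_left,
      Nat.mul_div_cancel_left _ (pow_pos hp.out.pos b)]
  haveI := hEc
  obtain ⟨g, hg⟩ := hB (E.map P.subtype) (zpowers (x ^ (p ^ b))) inferInstance inferInstance
    (by rw [card_map_of_injective P.subtype_injective, hEcard, Nat.card_zpowers, hy, sq])
  have hmem : x ^ (p ^ b) ∈ zpowers (x ^ (p ^ b)) := mem_zpowers _
  rw [hg] at hmem
  obtain ⟨_, ⟨e, he, rfl⟩, h2⟩ := hmem
  have h1 : (x ^ (p ^ b)) ^ p = 1 := by
    rw [← h2, ← map_pow, ← map_pow, hEexp e he, map_one, map_one]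
  have h3 := orderOf_dvd_of_pow_eq_one h1
  rw [hy] at h3
  nth_rewrite 2 [← pow_one p] at h3
  exact absurd ((Nat.pow_dvd_pow_iff_le_right hp.out.one_lt).1 h3) (by omega)

end Cfsg.Agent.Lib.GS.AbConj
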