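import Cfsg.Agent.Lib.Transfer.Fusion
import Cfsg.Agent.Lib.Transfer.Hall
import Mathlib.GroupTheory.Commutator.Basic

/-!
Normal `p`-complements from a Sylow subgroup in which the overgroups of a central subgroup have
`p`-group automizers.
-/

set_option autoImplicit false
open Subgroup
open scoped Pointwise

namespace Cfsg.Agent.Lib.GS

universe u

variable {G : Type u} [Group G] [Finite G] {p : ℕ} [hp : Fact p.Prime]

/-- If every subgroup between a central subgroup `Z` of a Sylow subgroup `P` and `P` has a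
`p`-group automizer, `G` has a normal `p`-complement. -/
theorem npc_of_central_overgroups (P : Sylow p G) (Z : Subgroup G) (hZP : Z ≤ (P : Subgroup G))
    (hZ : ∀ z ∈ Z, ∀ x ∈ (P : Subgroup G), z * x = x * z)
    (h : ∀ X : Subgroup G, Z ≤ X → X ≤ (P : Subgroup G) → Transfer.AutPGroup p X) :
    Cfsg.HasNormalPComplement p G := by
  refine Transfer.frobenius_criterion fun Q hQ => ?_
  -- a Sylow subgroup containing `Q` and a Sylow subgroup of `C(Q)`
  set C := centralizer (Q : Set G) with hC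
  obtain ⟨R₀⟩ : Nonempty (Sylow p C) := inferInstance
  set R := (R₀ : Subgroup C).map C.subtype with hR
  have hRC : R ≤ C := map_subtype_le _
  have hRp : IsPGroup p R := R₀.2.map _
  have hQR : IsPGroup p (Q ⊔ R : Subgroup G) :=
    IsPGroup.to_sup_of_normal_left' hQ hRp
      (hRC.trans (centralizer_le_normalizer _))
  obtain ⟨P', hP'⟩ := hQR.exists_le_sylow
  obtain ⟨c, hc⟩ := MulAction.exists_smul_eq G P' P
  set f : MulAut G := MulAut.conj c with hf
  have hfP : ∀ x ∈ (P' : Subgroup G), f x ∈ (P : Subgroup G) := by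
    intro x hx
    rw [← hc]
    exact Transfer.mem_smul_sylow.mpr (by simpa [f, mul_assoc] using hx)
  set Q' := Q.map f.toMonoidHom with hQ'
  set R' := R.map f.toMonoidHom with hR'
  have hQ'P : Q' ≤ (P : Subgroup G) := by
    rintro _ ⟨x, hx, rfl⟩; exact hfP x (hP' (le_sup_left (a := Q) hx))
  have hR'P : R' ≤ (P : Subgroup G) := by
    rintro _ ⟨x, hx, rfl⟩; exact hfP x (hP' (le_sup_right (a := Q) hx))
  have hR'C : R' ≤ centralizer (Q' : Set G) := by
    rintro _ ⟨x, hx, rfl⟩
    refine mem_centralizer_iff.2 ?_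
    rintro _ ⟨y, hy, rfl⟩
    rw [← map_mul, ← map_mul, mem_centralizer_iff.1 (hRC hx) y hy]
  -- maximality of `R'` among `p`-subgroups of `C(Q')`
  have hmax : ∀ S : Subgroup G, IsPGroup p S → S ≤ centralizer (Q' : Set G) → R' ≤ S → S = R' := by
    intro S hS hSC hle
    refine (eq_of_le_of_card_ge hle ?_).symm
    set S' := S.map (f.symm : MulAut G).toMonoidHom with hS'
    have hS'C : S' ≤ C := by
      rintro _ ⟨x, hx, rfl⟩
      refine mem_centralizer_iff.2 fun y hy => ?_
      have := congrArg f.symm (mem_centralizer_iff.1 (hSC hx) (f y) ⟨y, hy, rfl⟩)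
      simpa using this
    have hle' : (R₀ : Subgroup C) ≤ S'.subgroupOf C := by
      intro x hx
      exact ⟨f x, hle ⟨x, ⟨x, hx, rfl⟩, rfl⟩, by simp⟩
    have he := R₀.is_maximal' ((hS.map _).comap_subtype (K := C)) hle'
    have hS'R : S' ≤ R := fun x hx => ⟨⟨x, hS'C hx⟩, he ▸ (mem_subgroupOf.2 hx), rfl⟩
    calc Nat.card S = Nat.card S' := (card_map_of_injective (f.symm : MulAut G).injective).symm
      _ ≤ Nat.card R := Nat.le_of_dvd Nat.card_pos (card_dvd_of_le hS'R)
      _ = Nat.card R' := (card_map_of_injective f.injective).symm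
  have hZR : Z ≤ R' := by
    have hZC : Z ≤ centralizer (Q' : Set G) := fun z hz =>
      mem_centralizer_iff.2 fun y hy => (hZ z hz y (hQ'P hy)).symm
    rw [← hmax (Z ⊔ R') (P.2.to_le (sup_le hZP hR'P)) (sup_le hZC hR'C) le_sup_right]
    exact le_sup_left
  -- the automizer of `Q'`
  have key : Transfer.AutPGroup p Q' := by
    intro g hg hgo
    set C' := centralizer (Q' : Set G) with hC'
    -- `R'` is a Sylow subgroup of `C'`
    have hR'p : IsPGroup p R' := P.2.to_le hR'P
    obtain ⟨T, hT⟩ := (hR'p.comap_subtype (K := C')).exists_le_sylow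
    have hTeq : ((T : Subgroup C').map C'.subtype) = R' := hmax _ (T.2.map _) (map_subtype_le _)
      fun x hx => ⟨⟨x, hR'C hx⟩, hT (mem_subgroupOf.2 hx), rfl⟩
    -- the conjugate of `T` by `g`
    have hgC : ∀ x ∈ C', g * x * g⁻¹ ∈ C' := by
      intro x hx
      refine mem_centralizer_iff.2 fun y hy => ?_
      have hy' : g⁻¹ * y * g ∈ Q' := by
        have := (Subgroup.mem_normalizer_iff.1 (inv_mem hg) y).1 hy
        simpa using this
      have e := mem_centralizer_iff.1 hx _ hy'
      calc y * (g * x * g⁻¹) = g * ((g⁻¹ * y * g) * x) * g⁻¹ := by group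
        _ = g * (x * (g⁻¹ * y * g)) * g⁻¹ := by rw [e]
        _ = g * x * g⁻¹ * y := by group
    set gT := ((R'.map (MulAut.conj g).toMonoidHom)).subgroupOf C' with hgT
    have hgTC : R'.map (MulAut.conj g).toMonoidHom ≤ C' := by
      rintro _ ⟨x, hx, rfl⟩; exact hgC x (hR'C hx)
    obtain ⟨U, hU⟩ := (((hR'p.map _)).comap_subtype (K := C') :
      IsPGroup p gT).exists_le_sylow
    obtain ⟨d, hd⟩ := MulAction.exists_smul_eq C' U T
    -- `n = d * g` normalizes both `Q'` and `R'`
    set n := (d : G) * g with hn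
    have hnQ : n ∈ normalizer (Q' : Set G) :=
      mul_mem (centralizer_le_normalizer _ d.2) hg
    have hnR : n ∈ normalizer (R' : Set G) := by
      have hle : R'.map (MulAut.conj n).toMonoidHom ≤ R' := by
        rintro _ ⟨x, hx, rfl⟩
        have h1 : (⟨g * x * g⁻¹, hgC x (hR'C hx)⟩ : C') ∈ (U : Subgroup C') :=
          hU (mem_subgroupOf.2 ⟨x, hx, rfl⟩)
        have h2 : d * ⟨g * x * g⁻¹, hgC x (hR'C hx)⟩ * d⁻¹ ∈ (T : Subgroup C') := by
          rw [← hd]
          exact Transfer.mem_smul_sylow.mpr (by simpa [mul_assoc] using h1)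
        rw [← hTeq]
        refine ⟨_, h2, ?_⟩
        simp [hn, mul_assoc]
      have he : R'.map (MulAut.conj n).toMonoidHom = R' :=
        eq_of_le_of_card_ge hle (card_map_of_injective (MulAut.conj n).injective).ge
      refine Subgroup.mem_normalizer_iff.2 fun x => ⟨fun hx => he ▸ ⟨x, hx, rfl⟩, fun hx => ?_⟩
      rw [← he] at hx
      obtain ⟨y, hy, hye⟩ := hx
      exact (MulAut.conj n).injective hye ▸ hy
    have hnX : n ∈ normalizer ((Q' ⊔ R' : Subgroup G) : Set G) := by
      have hmapQ : Q'.map (MulAut.conj n).toMonoidHom ≤ Q' := by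
        rintro _ ⟨x, hx, rfl⟩; exact (Subgroup.mem_normalizer_iff.1 hnQ x).1 hx
      have hmapR : R'.map (MulAut.conj n).toMonoidHom ≤ R' := by
        rintro _ ⟨x, hx, rfl⟩; exact (Subgroup.mem_normalizer_iff.1 hnR x).1 hx
      have he : (Q' ⊔ R').map (MulAut.conj n).toMonoidHom = Q' ⊔ R' := by
        refine eq_of_le_of_card_ge ?_ (card_map_of_injective (MulAut.conj n).injective).ge
        rw [Subgroup.map_sup]; exact sup_le_sup hmapQ hmapR
      refine Subgroup.mem_normalizer_iff.2 fun x => ⟨fun hx => he ▸ ⟨x, hx, rfl⟩, fun hx => ?_⟩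
      rw [← he] at hx
      obtain ⟨y, hy, hye⟩ := hx
      exact (MulAut.conj n).injective hye ▸ hy
    -- the `p'`-part of `n`
    set k := (orderOf n).factorization p with hk
    have hnk : n ^ p ^ k ∈ C' := by
      have hord : Nat.Coprime (orderOf (n ^ p ^ k)) p := by
        rw [orderOf_pow, Nat.gcd_eq_right (Nat.ordProj_dvd _ _)]
        exact (Nat.coprime_ordCompl hp.out (orderOf_pos n).ne').symm
      have := h (Q' ⊔ R') (hZR.trans le_sup_right) (sup_le hQ'P hR'P) _ (pow_mem hnX _) hord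
      exact centralizer_le (le_sup_left : Q' ≤ Q' ⊔ R') this
    set N := normalizer (Q' : Set G) with hN
    haveI hnorm : (C'.subgroupOf N).Normal := by
      refine ⟨fun x hx y => ?_⟩
      rw [mem_subgroupOf] at hx ⊢
      refine mem_centralizer_iff.2 fun z hz => ?_
      have hz' : (y : G)⁻¹ * z * y ∈ Q' := by
        have := (Subgroup.mem_normalizer_iff.1 (inv_mem y.2) z).1 hz
        simpa using this
      have e := mem_centralizer_iff.1 hx _ hz'
      push_cast
      calc z * ((y : G) * x * (y : G)⁻¹) = (y : G) * (((y : G)⁻¹ * z * y) * x) * (y : G)⁻¹ := by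
            group
        _ = (y : G) * (x * ((y : G)⁻¹ * z * y)) * (y : G)⁻¹ := by rw [e]
        _ = (y : G) * x * (y : G)⁻¹ * z := by group
    set π := QuotientGroup.mk' (C'.subgroupOf N) with hπ
    have e1 : π ⟨g, hg⟩ = π ⟨n, hnQ⟩ := by
      have : (⟨n, hnQ⟩ : N) = ⟨(d : G), centralizer_le_normalizer _ d.2⟩ * ⟨g, hg⟩ := Subtype.ext hn
      have hdker : π ⟨(d : G), centralizer_le_normalizer _ d.2⟩ = 1 :=
        (QuotientGroup.eq_one_iff _).2 d.2
      rw [this, map_mul, hdker, one_mul]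
    have e2 : π ⟨g, hg⟩ ^ p ^ k = 1 := by
      rw [e1, ← map_pow]; exact (QuotientGroup.eq_one_iff _).2 hnk
    have e3 : orderOf (π ⟨g, hg⟩) ∣ orderOf g :=
      (orderOf_map_dvd π _).trans (Subgroup.orderOf_mk g hg).dvd
    have : π ⟨g, hg⟩ = 1 := orderOf_eq_one_iff.1
      (Nat.eq_one_of_dvd_coprimes (hgo.pow_right k) e3 (orderOf_dvd_of_pow_eq_one e2))
    exact mem_subgroupOf.1 ((QuotientGroup.eq_one_iff (N := C'.subgroupOf N) (⟨g, hg⟩ : N)).1 this)
  intro g hg hgo
  have hg' : f g ∈ normalizer (Q' : Set G) := by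
    rw [hQ', ← map_equiv_normalizer_eq]
    exact mem_map_of_mem _ hg
  have := key (f g) hg' (by rwa [MulEquiv.orderOf_eq])
  rw [mem_centralizer_iff] at this ⊢
  intro x hx
  exact f.injective (by simpa using this _ (mem_map_of_mem f.toMonoidHom hx))

/-- A maximal subgroup which is nilpotent of class at most two and contains no non-identity
normal subgroup gives a normal `p`-complement for each of its prime divisors. -/
theorem npc_of_classTwo_maximal {M : Subgroup G} (hmax : IsCoatom M) (hnil : Group.IsNilpotent M)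
    (hcl : ∀ a ∈ M, ∀ b ∈ M, ∀ c ∈ M, a * b * a⁻¹ * b⁻¹ * c = c * (a * b * a⁻¹ * b⁻¹))
    (hN : ∀ N : Subgroup G, N.Normal → N ≠ ⊥ → ¬ N ≤ M)
    (P : Sylow p G) (hP0 : (P : Subgroup G) ≠ ⊥) (hPM : (P : Subgroup G) ≤ M)
    (hMP : M ≤ normalizer ((P : Subgroup G) : Set G)) :
    Cfsg.HasNormalPComplement p G := by
  set Z := (P : Subgroup G) ⊓ centralizer (M : Set G) with hZ
  have hcomm : ∀ m ∈ M, ∀ x ∈ (P : Subgroup G), m * x * m⁻¹ * x⁻¹ ∈ Z := fun m hm x hx =>
    mem_inf.2 ⟨mul_mem ((Subgroup.mem_normalizer_iff.1 (hMP hm) x).1 hx) (inv_mem hx),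
      mem_centralizer_iff.2 fun c hc => (hcl m hm x (hPM hx) c hc).symm⟩
  have hZ0 : Z ≠ ⊥ := by
    intro hb
    refine hP0 (le_bot_iff.1 (hb ▸ le_inf le_rfl fun x hx => ?_))
    refine mem_centralizer_iff.2 fun m hm => ?_
    have := hcomm m hm x hx
    rw [hb, Subgroup.mem_bot] at this
    calc m * x = m * x * m⁻¹ * x⁻¹ * (x * m) := by group
      _ = x * m := by rw [this, one_mul]
  refine npc_of_central_overgroups P Z inf_le_left (fun z hz x hx => ?_) fun X hZX hXP g hg hgo => ?_
  · exact (mem_centralizer_iff.1 (mem_inf.1 hz).2 x (hPM hx)).symm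
  · have hMX : M ≤ normalizer (X : Set G) := by
      have key : ∀ m ∈ M, ∀ x ∈ X, m * x * m⁻¹ ∈ X := fun m hm x hx => by
        have := mul_mem (hZX (hcomm m hm x (hXP hx))) hx
        simpa [mul_assoc] using this
      intro m hm
      refine Subgroup.mem_normalizer_iff.2 fun x => ⟨key m hm x, fun hx => ?_⟩
      have := key m⁻¹ (inv_mem hm) _ hx
      simpa [mul_assoc] using this
    have hX0 : X ≠ ⊥ := fun e => hZ0 (le_bot_iff.1 (e ▸ hZX))
    have hNX : normalizer (X : Set G) = M := by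
      by_contra hne
      exact hN X (normalizer_eq_top_iff.1 (hmax.2 _ (lt_of_le_of_ne hMX (Ne.symm hne)))) hX0
        (hXP.trans hPM)
    have hgM : g ∈ M := hNX ▸ hg
    haveI := hnil
    refine mem_centralizer_iff.2 fun x hx => ?_
    obtain ⟨j, hj⟩ := IsPGroup.iff_orderOf.1 P.2 ⟨x, hXP hx⟩
    rw [Subgroup.orderOf_mk] at hj
    exact congrArg Subtype.val (Transfer.commute_of_coprime_orderOf
      (x := (⟨x, hPM (hXP hx)⟩ : M)) (y := ⟨g, hgM⟩)
      (by rw [Subgroup.orderOf_mk, Subgroup.orderOf_mk, hj]; exact (hgo.pow_right j).symm)).eq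

end Cfsg.Agent.Lib.GS
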