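import Cfsg.Agent.Lib.GS.Zipper
import Cfsg.Agent.Lib.GS.JoinSubnormal

/-!
The dichotomy for a subgroup `A` with normal closure `G`: the proper overgroups generated by their
conjugates of `A` generate `G`, or `A` lies in a unique maximal subgroup.
-/

set_option autoImplicit false

namespace Cfsg.Agent.Lib.GS.NCZipper

open Subgroup Cfsg.Agent.Lib.GS

variable {G : Type*} [Group G]

/-- `H` is a proper subgroup containing `A` and with no proper normal subgroup containing `A`. -/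
def Mem (A H : Subgroup G) : Prop :=
  A ≤ H ∧ H ≠ ⊤ ∧ ∀ K : Subgroup G, K ≤ H → A ≤ K → H ≤ normalizer (K : Set G) → K = H

/-- The join of all members over `A`. -/
def Yj (A : Subgroup G) : Subgroup G := sSup {H | Mem A H}

/-- `P` contains only the trivial member over `A`. -/
def Closed (A P : Subgroup G) : Prop := ∀ H, H ≤ P → Mem A H → H = A

/-- `P` is a maximal subgroup in which `A` is not subnormal. -/
def Sp (A P : Subgroup G) : Prop := IsCoatom P ∧ A ≤ P ∧ ¬ Closed A P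

/-- The hypotheses of the dichotomy. -/
def Good (A : Subgroup G) : Prop := A ≠ ⊤ ∧ normalClosure (A : Set G) = ⊤ ∧ Yj A ≠ ⊤

theorem eq_top_of_normal {A N : Subgroup G} [N.Normal] (hA : normalClosure (A : Set G) = ⊤)
    (h : A ≤ N) : N = ⊤ :=
  top_le_iff.1 (hA ▸ normalClosure_le_normal h)

theorem mem_self {A : Subgroup G} (hA : A ≠ ⊤) : Mem A A :=
  ⟨le_rfl, hA, fun _ hK hAK _ => le_antisymm hK hAK⟩

theorem le_Yj_of_mem {A H : Subgroup G} (h : Mem A H) : H ≤ Yj A := le_sSup h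

theorem le_Yj {A : Subgroup G} (hA : A ≠ ⊤) : A ≤ Yj A := le_Yj_of_mem (mem_self hA)

theorem mem_Yj {A : Subgroup G} (hA : Good A) : Mem A (Yj A) := by
  refine ⟨le_Yj hA.1, hA.2.2, fun K hK hAK hN => le_antisymm hK (sSup_le fun H hH => ?_)⟩
  have hHY : H ≤ Yj A := le_sSup hH
  have h1 : K ⊓ H = H := by
    refine hH.2.2 _ inf_le_right (le_inf hAK hH.1) fun x hx => ?_
    rw [mem_normalizer_iff]
    intro z
    have h1 := mem_normalizer_iff.1 (hN (hHY hx)) z
    have h2 := mem_normalizer_iff.1 (le_normalizer (H := H) hx) z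
    simp only [mem_inf, h1, h2]
  exact h1 ▸ inf_le_left

theorem mem_trans {A X H : Subgroup G} (hX : Mem A X) (hH : Mem X H) : Mem A H := by
  refine ⟨hX.1.trans hH.1, hH.2.1, fun K hK hAK hN => hH.2.2 K hK ?_ hN⟩
  have h1 : K ⊓ X = X := by
    refine hX.2.2 _ inf_le_right (le_inf hAK hX.1) fun x hx => ?_
    rw [mem_normalizer_iff]
    intro z
    have h1 := mem_normalizer_iff.1 (hN (hH.1 hx)) z
    have h2 := mem_normalizer_iff.1 (le_normalizer (H := X) hx) z
    simp only [mem_inf, h1, h2]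
  exact h1 ▸ inf_le_left

variable [Finite G]

theorem subnormal_of_closed {A : Subgroup G} : ∀ (n : ℕ) (H : Subgroup G), Nat.card H = n → A ≤ H →
    H ≠ ⊤ → Closed A H → (A.subgroupOf H).IsSubnormal := by
  intro n
  induction n using Nat.strong_induction_on with
  | _ n ih => ?_
  intro H hn hAH hH hc
  by_cases hm : Mem A H
  · rw [hc H le_rfl hm, subgroupOf_self]
    exact IsSubnormal.top
  simp only [Mem, hAH, hH, ne_eq, not_false_eq_true, true_and, not_forall] at hm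
  obtain ⟨K, hKH, hAK, hN, hne⟩ := hm
  have hlt : Nat.card K < n := hn ▸ lt_of_le_of_ne (card_le_of_le hKH) fun e =>
    hne (eq_of_le_of_card_ge hKH e.ge)
  have h1 := ih _ hlt K rfl hAK (fun e => hH (top_le_iff.1 (e ▸ hKH)))
    fun L hL => hc L (hL.trans hKH)
  have h2 : ((A.subgroupOf H).subgroupOf (K.subgroupOf H)).IsSubnormal :=
    h1.comap (subgroupOfEquivOfLe hKH).toMonoidHom
  exact IsSubnormal.trans (fun x hx => hAK hx) h2
    ((normal_subgroupOf_iff_le_normalizer hKH).2 hN).isSubnormal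

theorem eq_of_mem_of_subnormal {X H : Subgroup G} (hm : Mem X H)
    (hs : (X.subgroupOf H).IsSubnormal) : H = X := by
  rcases hs.lt_normal with h | ⟨K, hK, hXK, hKtop⟩
  · exact le_antisymm (subgroupOf_eq_top.1 h) hm.1
  · exfalso
    refine hKtop.ne (map_injective H.subtype_injective ?_)
    rw [hm.2.2 (K.map H.subtype) (map_subtype_le _) ?_ ?_, ← MonoidHom.range_eq_map, range_subtype]
    · intro x hx
      exact ⟨⟨x, hm.1 hx⟩, hXK (mem_subgroupOf.2 hx), rfl⟩
    · rw [← normal_subgroupOf_iff_le_normalizer (map_subtype_le _)]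
      rwa [subgroupOf, comap_map_eq_self_of_injective H.subtype_injective]

/-! Equivariance -/

theorem cmap_inv_cmap (g : G) (A : Subgroup G) : cmap g⁻¹ (cmap g A) = A := by
  rw [cmap_cmap, inv_mul_cancel, cmap_one]

theorem cmap_cmap_inv (g : G) (A : Subgroup G) : cmap g (cmap g⁻¹ A) = A := by
  rw [cmap_cmap, mul_inv_cancel, cmap_one]

theorem cmap_top (g : G) : cmap g (⊤ : Subgroup G) = ⊤ :=
  map_top_of_surjective _ (MulAut.conj g).surjective

theorem cmap_ne_top {g : G} {A : Subgroup G} (h : A ≠ ⊤) : cmap g A ≠ ⊤ := fun e =>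
  h (by rw [← cmap_inv_cmap g A, e, cmap_top])

theorem mem_cmap_iff {g : G} {A H : Subgroup G} : Mem (cmap g A) (cmap g H) ↔ Mem A H := by
  suffices h : ∀ (g : G) (A H : Subgroup G), Mem A H → Mem (cmap g A) (cmap g H) by
    refine ⟨fun h' => ?_, h g A H⟩
    have := h g⁻¹ _ _ h'
    rwa [cmap_inv_cmap, cmap_inv_cmap] at this
  intro g A H hm
  refine ⟨cmap_mono hm.1, cmap_ne_top hm.2.1, fun K hK hAK hN => ?_⟩
  have h1 : cmap g⁻¹ K = H := by
    refine hm.2.2 _ ?_ ?_ ?_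
    · exact (cmap_mono hK).trans_eq (cmap_inv_cmap g H)
    · exact (cmap_inv_cmap g A).symm.trans_le (cmap_mono hAK)
    · intro x hx
      refine mem_normalizer_of_cmap_le ?_
      have : g * x * g⁻¹ ∈ normalizer (K : Set G) := hN ⟨x, hx, rfl⟩
      rw [cmap_cmap, show x * g⁻¹ = g⁻¹ * (g * x * g⁻¹) by group, ← cmap_cmap,
        cmap_eq_of_mem this]
  rw [← h1, cmap_cmap_inv]

theorem closed_cmap {g : G} {A P : Subgroup G} (h : Closed A P) : Closed (cmap g A) (cmap g P) := by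
  intro H hH hm
  rw [← cmap_cmap_inv g H, mem_cmap_iff] at hm
  rw [← cmap_cmap_inv g H, h _ ((cmap_mono hH).trans_eq (cmap_inv_cmap g P)) hm]

theorem sp_cmap {g : G} {A P : Subgroup G} (h : Sp A P) : Sp (cmap g A) (cmap g P) := by
  refine ⟨isCoatom_cmap h.1 g, cmap_mono h.2.1, fun hc => h.2.2 ?_⟩
  have := closed_cmap (g := g⁻¹) hc
  rwa [cmap_inv_cmap, cmap_inv_cmap] at this

theorem normalClosure_cmap {g : G} {A : Subgroup G} (h : normalClosure (A : Set G) = ⊤) :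
    normalClosure (cmap g A : Set G) = ⊤ := by
  refine eq_top_of_normal (N := normalClosure (cmap g A : Set G)) h fun a ha => ?_
  have := normalClosure_normal.conj_mem (g * a * g⁻¹)
    (le_normalClosure (show g * a * g⁻¹ ∈ cmap g A from ⟨a, ha, rfl⟩)) g⁻¹
  simpa [mul_assoc] using this

theorem good_cmap {g : G} {A : Subgroup G} (h : Good A) : Good (cmap g A) := by
  refine ⟨cmap_ne_top h.1, normalClosure_cmap h.2.1, fun e => h.2.2 ?_⟩
  have hle : Yj (cmap g A) ≤ cmap g (Yj A) := sSup_le fun H hH => by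
    rw [← cmap_cmap_inv g H] at hH ⊢
    exact cmap_mono (le_sSup (mem_cmap_iff.1 hH))
  rw [e, top_le_iff] at hle
  rw [← cmap_inv_cmap g (Yj A), hle, cmap_top]

/-- Two maximal subgroups over a good subgroup of order more than `n` coincide. -/
def Ind (G : Type*) [Group G] (n : ℕ) : Prop :=
  ∀ X : Subgroup G, n < Nat.card X → Good X → ∀ P Q, IsCoatom P → IsCoatom Q → X ≤ P → X ≤ Q → P = Q

theorem sp_unique {C P Q : Subgroup G} (hC : Good C) (ih : Ind G (Nat.card C)) (hP : Sp C P)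
    (hQ : Sp C Q) : P = Q := by
  have key : ∀ R, Sp C R → ∀ Z, IsCoatom Z → Yj C ≤ Z → R = Z := by
    intro R hR Z hZ hYZ
    simp only [Sp, Closed, not_forall] at hR
    obtain ⟨hR1, hR2, H, hHR, hH, hne⟩ := hR
    have hlt : C < H := lt_of_le_of_ne hH.1 (Ne.symm hne)
    have hcard : Nat.card C < Nat.card H := lt_of_le_of_ne (card_le_of_le hlt.le)
      fun e => hlt.ne (eq_of_le_of_card_ge hlt.le e.ge)
    have hgood : Good H := by
      refine ⟨hH.2.1, top_le_iff.1 (hC.2.1.ge.trans (normalClosure_mono hH.1)), fun e => hC.2.2 ?_⟩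
      refine top_le_iff.1 (e.ge.trans (sSup_le fun K hK => ?_))
      exact le_sSup (mem_trans hH hK)
    exact ih H hcard hgood R Z hR1 hZ hHR ((le_Yj_of_mem hH).trans hYZ)
  obtain ⟨Z, hZ, hYZ⟩ := (eq_top_or_exists_le_coatom (Yj C)).resolve_left hC.2.2
  exact (key P hP Z hZ hYZ).trans (key Q hQ Z hZ hYZ).symm

/-- Two conjugates in two maximal subgroups. -/
theorem key {C₁ C₂ P Q : Subgroup G} (h₁ : Good C₁) (ih : Ind G (Nat.card C₁))
    (hcard : Nat.card C₂ = Nat.card C₁) (hne : C₁ ≠ C₂) (hS : Sp C₁ P) (h₂P : C₂ ≤ P)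
    (hQ : IsCoatom Q) (h₁Q : C₁ ≤ Q) (h₂Q : C₂ ≤ Q) (hPQ : P ≠ Q) :
    ∃ R, R ≠ P ∧ Sp C₂ R ∧ C₁ ≤ R := by
  by_contra hno
  set X := C₁ ⊔ C₂ with hX
  have hXP : X ≤ P := sup_le hS.2.1 h₂P
  have hXtop : X ≠ ⊤ := fun e => hS.1.1 (top_le_iff.1 (e ▸ hXP))
  have hlt : Nat.card C₁ < Nat.card X := lt_of_le_of_ne (card_le_of_le le_sup_left) fun e =>
    hne (by
      have h1 : C₁ = X := eq_of_le_of_card_ge le_sup_left e.ge
      have h2 : C₂ ≤ C₁ := h1.symm ▸ le_sup_right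
      exact (eq_of_le_of_card_ge h2 hcard.ge).symm)
  have hY : Yj X ≤ P := by
    refine sSup_le fun H hH => ?_
    obtain ⟨R, hR, hHR⟩ := (eq_top_or_exists_le_coatom H).resolve_left hH.2.1
    by_cases hRP : R = P
    · exact hRP ▸ hHR
    have hc₁ : Closed C₁ H := fun K hK hm => by
      by_contra hne'
      refine hRP (sp_unique h₁ ih ⟨hR, (le_sup_left.trans hH.1).trans hHR, fun hc => ?_⟩ hS)
      exact hne' (hc K (hK.trans hHR) hm)
    have hc₂ : Closed C₂ H := fun K hK hm => by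
      by_contra hne'
      refine hno ⟨R, hRP, ⟨hR, (le_sup_right.trans hH.1).trans hHR, fun hc => ?_⟩,
        (le_sup_left.trans hH.1).trans hHR⟩
      exact hne' (hc K (hK.trans hHR) hm)
    have hs := isSubnormal_sup
      (subnormal_of_closed _ H rfl (le_sup_left.trans hH.1) hH.2.1 hc₁)
      (subnormal_of_closed _ H rfl (le_sup_right.trans hH.1) hH.2.1 hc₂)
    rw [← subgroupOf_sup (le_sup_left.trans hH.1) (le_sup_right.trans hH.1)] at hs
    exact (eq_of_mem_of_subnormal hH hs).trans_le hXP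
  exact hPQ (ih X hlt ⟨hXtop, top_le_iff.1 (h₁.2.1.ge.trans (normalClosure_mono (show
    (C₁ : Set G) ⊆ X from fun x hx => mem_sup_left hx))), fun e => hS.1.1 (top_le_iff.1 (e ▸ hY))⟩
    P Q hS.1 hQ hXP (sup_le h₁Q h₂Q))

omit [Finite G] in
theorem le_normalizer_sup {A B : Subgroup G} :
    normalizer (A : Set G) ⊓ normalizer (B : Set G) ≤ normalizer ((A ⊔ B : Subgroup G) : Set G) := by
  rintro x ⟨hA, hB⟩
  rw [mem_normalizer_iff]
  intro z
  have h : ∀ y : G, y ∈ normalizer (A : Set G) → y ∈ normalizer (B : Set G) → ∀ w ∈ A ⊔ B,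
      y * w * y⁻¹ ∈ A ⊔ B := by
    intro y hyA hyB w hw
    have : A ⊔ B ≤ (A ⊔ B).comap (MulAut.conj y).toMonoidHom :=
      sup_le (fun a ha => mem_sup_left ((mem_normalizer_iff.1 hyA a).1 ha))
        fun b hb => mem_sup_right ((mem_normalizer_iff.1 hyB b).1 hb)
    exact this hw
  refine ⟨h x hA hB z, fun hz => ?_⟩
  have := h x⁻¹ (inv_mem hA) (inv_mem hB) _ hz
  simpa [mul_assoc] using this

/-- A subnormal subgroup of `L` not normalised by `L` has a conjugate moving it inside its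
normaliser. -/
theorem exists_move {X L : Subgroup G} (hXL : X ≤ L) (hs : (X.subgroupOf L).IsSubnormal)
    (hn : ¬ L ≤ normalizer (X : Set G)) :
    ∃ x ∈ L, ¬ cmap x X ≤ X ∧ cmap x X ≤ normalizer (X : Set G) := by
  obtain ⟨x, hx, hxX⟩ := exists_conj_in_normalizer hs
    (fun h => hn ((normal_subgroupOf_iff_le_normalizer hXL).1 h))
  refine ⟨x, x.2, fun h => hx ?_, ?_⟩
  · refine mem_normalizer_fintype fun z hz => ?_
    exact h ⟨z, hz, rfl⟩
  · rintro _ ⟨a, ha, rfl⟩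
    refine mem_normalizer_fintype fun z hz => ?_
    have h1 := hxX ⟨⟨a, hXL ha⟩, ha, rfl⟩
    exact (mem_normalizer_iff.1 h1 ⟨z, hXL hz⟩).1 hz

/-- The conjugates of `A` in `P ⊓ Q`. -/
def U (A P Q : Subgroup G) : Set (Subgroup G) := {C | (∃ g, C = cmap g A) ∧ C ≤ P ⊓ Q}

omit [Finite G] in
theorem U_comm (A P Q : Subgroup G) : U A P Q = U A Q P := by simp [U, inf_comm]

section

variable {A : Subgroup G} (hA : Good A) (ih : Ind G (Nat.card A))

theorem card_eq {A C P Q : Subgroup G} (h : C ∈ U A P Q) : Nat.card C = Nat.card A := by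
  obtain ⟨⟨g, rfl⟩, -⟩ := h
  exact card_cmap g A

include hA in
theorem good_of_mem {C P Q : Subgroup G} (h : C ∈ U A P Q) : Good C := by
  obtain ⟨⟨g, rfl⟩, -⟩ := h
  exact good_cmap hA

theorem conj_of_mem {A C P Q : Subgroup G} (h : C ∈ U A P Q) (x : G) :
    ∃ g, cmap x C = cmap g A := by
  obtain ⟨⟨g, rfl⟩, -⟩ := h
  exact ⟨x * g, cmap_cmap x g A⟩

theorem cmap_le_of_mem {x : G} {C P : Subgroup G} (hx : x ∈ P) (hC : C ≤ P) : cmap x C ≤ P :=
  (cmap_mono hC).trans_eq (cmap_eq_of_mem (le_normalizer hx))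

include hA ih in
theorem unique' {C P Q R S : Subgroup G} (h : C ∈ U A P Q) (hR : Sp C R) (hS : Sp C S) : R = S :=
  sp_unique (good_of_mem hA h) (by rw [card_eq h]; exact ih) hR hS

include hA ih in
theorem key' {C₁ C₂ P Q : Subgroup G} (h₁ : C₁ ∈ U A P Q) (h₂ : C₂ ∈ U A P Q) (hne : C₁ ≠ C₂)
    (hS : Sp C₁ P) (hQ : IsCoatom Q) (hPQ : P ≠ Q) : ∃ R, R ≠ P ∧ Sp C₂ R ∧ C₁ ≤ R :=
  key (good_of_mem hA h₁) (by rw [card_eq h₁]; exact ih) ((card_eq h₂).trans (card_eq h₁).symm)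
    hne hS (h₂.2.trans inf_le_left) hQ (h₁.2.trans inf_le_right) (h₂.2.trans inf_le_right) hPQ

include hA ih in
theorem not_sp_other {a C P Q : Subgroup G} (ha : a ∈ U A P Q) (hC : C ∈ U A P Q) (hne : C ≠ a)
    (hS : Sp a P) (hQ : IsCoatom Q) (hPQ : P ≠ Q) : ¬ Sp C P := by
  intro hCP
  obtain ⟨R, hR, hSR, -⟩ := key' hA ih ha hC (Ne.symm hne) hS hQ hPQ
  exact hR (unique' hA ih hC hSR hCP)

include hA ih in
theorem inf_le_normalizer {a P Q : Subgroup G} (ha : a ∈ U A P Q) (hS : Sp a P) (hQ : IsCoatom Q)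
    (hPQ : P ≠ Q) : P ⊓ Q ≤ normalizer (a : Set G) := by
  intro x hx
  refine mem_normalizer_of_cmap_le (le_of_eq ?_)
  by_contra hne
  have hU : cmap x a ∈ U A P Q :=
    ⟨conj_of_mem ha x, le_inf (cmap_le_of_mem hx.1 hS.2.1) (cmap_le_of_mem hx.2 (ha.2.trans inf_le_right))⟩
  refine not_sp_other hA ih ha hU hne hS hQ hPQ ?_
  have := sp_cmap (g := x) hS
  rwa [cmap_eq_of_mem (le_normalizer hx.1 : x ∈ normalizer (P : Set G))] at this

include hA ih in
theorem inf_le_normalizer_rest {a P Q : Subgroup G} (ha : a ∈ U A P Q) (hS : Sp a P)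
    (hQ : IsCoatom Q) (hPQ : P ≠ Q) :
    P ⊓ Q ≤ normalizer ((sSup (U A P Q \ {a}) : Subgroup G) : Set G) := by
  intro x hx
  refine mem_normalizer_of_cmap_le ?_
  rw [cmap, map_le_iff_le_comap]
  refine sSup_le fun C hC => ?_
  rw [← map_le_iff_le_comap]
  refine le_sSup ⟨⟨conj_of_mem hC.1 x, le_inf (cmap_le_of_mem hx.1 (hC.1.2.trans inf_le_left))
    (cmap_le_of_mem hx.2 (hC.1.2.trans inf_le_right))⟩, fun e => hC.2 ?_⟩
  have h1 : cmap x a = a := cmap_eq_of_mem (inf_le_normalizer hA ih ha hS hQ hPQ hx)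
  change cmap x C = a at e
  rw [Set.mem_singleton_iff, ← cmap_inv_cmap x C, e, ← h1, cmap_inv_cmap, h1]

theorem rest_le {A a P Q : Subgroup G} : sSup (U A P Q \ {a}) ≤ P ⊓ Q :=
  sSup_le fun _ hC => hC.1.2

include hA ih in
theorem rest_subnormal {a P Q : Subgroup G} {L : Subgroup G} (hL : IsCoatom L) (hPL : P ⊓ Q ≤ L)
    (h : ∀ C ∈ U A P Q \ {a}, ¬ Sp C L) :
    ((sSup (U A P Q \ {a}) : Subgroup G).subgroupOf L).IsSubnormal := by
  clear ih
  have : ∀ S : Set (Subgroup G), S.Finite → S ⊆ U A P Q \ {a} →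
      ((sSup S : Subgroup G).subgroupOf L).IsSubnormal := by
    intro S hS
    induction S, hS using Set.Finite.induction_on with
    | empty =>
      intro _
      rw [sSup_empty, bot_subgroupOf]
      exact IsSubnormal.bot
    | @insert C T _ _ ihT =>
      intro hsub
      have hC := hsub (Set.mem_insert C T)
      have hT := ihT ((Set.subset_insert C T).trans hsub)
      have hCL : C ≤ L := hC.1.2.trans hPL
      have hTL : sSup T ≤ L := sSup_le fun D hD => (hsub (Set.mem_insert_of_mem C hD)).1.2.trans hPL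
      rw [sSup_insert, subgroupOf_sup hCL hTL]
      refine isSubnormal_sup (subnormal_of_closed _ L rfl hCL hL.1 ?_) hT
      by_contra hc
      exact h C hC ⟨hL, hCL, hc⟩
  exact this _ (Set.toFinite _) subset_rfl

/-- The pair has the largest number of conjugates. -/
def IsMax (A P Q : Subgroup G) : Prop :=
  ∀ P' Q' a', IsCoatom P' → IsCoatom Q' → P' ≠ Q' → a' ∈ U A P' Q' → Sp a' P' →
    (U A P' Q').ncard ≤ (U A P Q).ncard

theorem max_absurd {a C P Q L : Subgroup G} (hmax : IsMax A P Q) (hP : IsCoatom P) (hL : IsCoatom L)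
    (hPL : P ≠ L) (ha : a ∈ U A P L) (hS : Sp a P) (hsub : U A P Q ⊆ U A P L)
    (hC : C ∈ U A P L) (hCn : C ∉ U A P Q) : False := by
  have h1 : U A P Q ⊂ U A P L := Set.ssubset_iff_of_subset hsub |>.2 ⟨C, hC, hCn⟩
  exact absurd (Set.ncard_lt_ncard h1) (not_lt.2 (hmax P L a hP hL hPL ha hS))

include hA ih in
/-- The conjugate moved by `x` is new. -/
theorem exists_new {a P Q : Subgroup G} (ha : a ∈ U A P Q) (hS : Sp a P) (hQ : IsCoatom Q)
    (hPQ : P ≠ Q) (hn : ¬ P ≤ normalizer ((sSup (U A P Q \ {a}) : Subgroup G) : Set G)) :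
    ∃ C, (∃ g, C = cmap g A) ∧ C ≤ P ∧ C ∉ U A P Q ∧
      C ≤ normalizer ((sSup (U A P Q \ {a}) : Subgroup G) : Set G) := by
  have hns : ∀ C ∈ U A P Q \ {a}, ¬ Sp C P := fun C hC => not_sp_other hA ih ha hC.1 hC.2 hS hQ hPQ
  obtain ⟨x, hxP, hnot, hle⟩ := exists_move (rest_le.trans inf_le_left)
    (rest_subnormal hA ih hS.1 inf_le_left hns) hn
  obtain ⟨C, hC, hCnot⟩ : ∃ C ∈ U A P Q \ {a}, ¬ cmap x C ≤ sSup (U A P Q \ {a}) := by
    by_contra! h
    refine hnot ?_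
    rw [cmap, map_le_iff_le_comap]
    exact sSup_le fun C hC => map_le_iff_le_comap.1 (h C hC)
  refine ⟨cmap x C, conj_of_mem hC.1 x, cmap_le_of_mem hxP (hC.1.2.trans inf_le_left), fun hU => ?_,
    (cmap_mono (le_sSup hC)).trans hle⟩
  by_cases he : cmap x C = a
  · refine hns C hC ?_
    have := sp_cmap (g := x⁻¹) hS
    rwa [← he, cmap_inv_cmap,
      cmap_eq_of_mem (le_normalizer (inv_mem hxP) : x⁻¹ ∈ normalizer (P : Set G))] at this
  · exact hCnot (le_sSup ⟨hU, he⟩)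

include hA ih in
theorem side {a b P Q L : Subgroup G} (hmax : IsMax A P Q) (hP : IsCoatom P) (hQ : IsCoatom Q)
    (hPQ : P ≠ Q) (ha : a ∈ U A P Q) (haP : Sp a P) (hb : b ∈ U A P Q) (hbQ : Sp b Q)
    (hL : IsCoatom L) (hNL : normalizer ((sSup (U A P Q) : Subgroup G) : Set G) ≤ L) : L = P := by
  set X := sSup (U A P Q \ {a}) with hX
  have hab : b ≠ a := fun e => hPQ (unique' hA ih ha haP (e ▸ hbQ))
  -- the normaliser of `X` in `P` fixes `a`
  have hS : P ⊓ normalizer (X : Set G) ≤ normalizer (a : Set G) := by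
    intro x hx
    refine mem_normalizer_of_cmap_le (le_of_eq ?_)
    by_contra hne
    have hbX : cmap x b ≤ X := by
      have := cmap_mono (g := x) (le_sSup (s := U A P Q \ {a}) ⟨hb, hab⟩)
      rwa [cmap_eq_of_mem hx.2] at this
    set Q' := cmap x Q with hQ'
    have hQP : P ≠ Q' := fun e => hPQ (by
      have h1 : cmap x⁻¹ P = Q := by rw [e, hQ', cmap_inv_cmap]
      rwa [cmap_eq_of_mem (le_normalizer (inv_mem hx.1) : x⁻¹ ∈ normalizer (P : Set G))] at h1)
    have hb'U : cmap x b ∈ U A P Q := ⟨conj_of_mem hb x, hbX.trans rest_le⟩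
    have hb'S : Sp (cmap x b) Q' := sp_cmap hbQ
    have hane : a ≠ cmap x b := fun e => hQP (unique' hA ih ha haP (e ▸ hb'S))
    obtain ⟨R, -, hR, haR⟩ := key' hA ih ha hb'U hane haP hQ hPQ
    have haQ' : a ≤ Q' := unique' hA ih hb'U hR hb'S ▸ haR
    have ha1 : a ∈ U A P Q' := ⟨ha.1, le_inf haP.2.1 haQ'⟩
    have ha2 : cmap x a ∈ U A P Q' :=
      ⟨conj_of_mem ha x, le_inf (cmap_le_of_mem hx.1 haP.2.1) (cmap_mono (ha.2.trans inf_le_right))⟩
    refine not_sp_other hA ih ha1 ha2 hne haP (isCoatom_cmap hQ x) hQP ?_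
    have := sp_cmap (g := x) haP
    rwa [cmap_eq_of_mem (le_normalizer hx.1 : x ∈ normalizer (P : Set G))] at this
  have hPn : ¬ P ≤ normalizer (X : Set G) := fun h => haP.2.2 fun H hH hm =>
    (hm.2.2 a hm.1 le_rfl ((le_inf hH (hH.trans h)).trans hS)).symm
  obtain ⟨C, hCconj, hCP, hCn, hCN⟩ := exists_new hA ih ha haP hQ hPQ hPn
  by_contra hne
  -- the larger intersection
  have hXa : sSup (U A P Q) = a ⊔ X := by
    rw [hX, ← sSup_insert, Set.insert_diff_singleton, Set.insert_eq_of_mem ha]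
  have hN1 : C ≤ L := by
    refine le_trans ?_ hNL
    rw [hXa]
    exact (le_inf ((le_inf hCP hCN).trans hS) hCN).trans le_normalizer_sup
  have hUL : U A P Q ⊆ U A P L := fun D hD =>
    ⟨hD.1, le_inf (hD.2.trans inf_le_left) ((le_sSup hD).trans (le_normalizer.trans hNL))⟩
  exact max_absurd hmax hP hL (Ne.symm hne) (hUL ha) haP hUL ⟨hCconj, le_inf hCP hN1⟩ hCn

include hA ih in
theorem contradiction {P Q a : Subgroup G} (hmax : IsMax A P Q) (hP : IsCoatom P) (hQ : IsCoatom Q)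
    (hPQ : P ≠ Q) (ha : a ∈ U A P Q) (haP : Sp a P) : False := by
  have hgood := good_of_mem hA ha
  -- from two special conjugates
  have two : ∀ Q', IsCoatom Q' → P ≠ Q' → IsMax A P Q' → a ∈ U A P Q' →
      (∃ b ∈ U A P Q', Sp b Q') → False := by
    rintro Q' hQ' hPQ' hmax' ha' ⟨b, hb, hbQ⟩
    have hne : normalizer ((sSup (U A P Q') : Subgroup G) : Set G) ≠ ⊤ := by
      intro h
      haveI := normalizer_eq_top_iff.1 h
      exact hP.1 (top_le_iff.1 ((eq_top_of_normal hgood.2.1 (le_sSup ha')).ge.trans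
        ((sSup_le fun C hC => hC.2).trans inf_le_left)))
    obtain ⟨L, hL, hNL⟩ := (eq_top_or_exists_le_coatom _).resolve_left hne
    refine hPQ' ((side hA ih hmax' hP hQ' hPQ' ha' haP hb hbQ hL hNL).symm.trans
      (side hA ih ?_ hQ' hP (Ne.symm hPQ') (U_comm A P Q' ▸ hb) hbQ (U_comm A P Q' ▸ ha') haP hL
        (U_comm A P Q' ▸ hNL)))
    intro P' Q'' a' h1 h2 h3 h4 h5
    rw [U_comm A Q' P]
    exact hmax' P' Q'' a' h1 h2 h3 h4 h5
  by_cases hb : ∃ b ∈ U A P Q, Sp b Q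
  · exact two Q hQ hPQ hmax ha hb
  push Not at hb
  have haQ : a ≤ Q := ha.2.trans inf_le_right
  have hcl : Closed a Q := by
    by_contra hc
    exact hb a ha ⟨hQ, haQ, hc⟩
  have hNaP : normalizer (a : Set G) ≤ P := by
    intro x hx
    have h1 := sp_cmap (g := x) haP
    rw [cmap_eq_of_mem hx] at h1
    have h2 : cmap x P = P := unique' hA ih ha h1 haP
    have h3 : ¬ P.Normal := fun hn => hP.1 (eq_top_of_normal hgood.2.1 haP.2.1)
    exact (coatom_normalizer hP h3).le (mem_normalizer_of_cmap_le h2.le)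
  have hQa : ¬ Q ≤ normalizer (a : Set G) := fun h => hPQ
    ((hQ.le_iff.1 (h.trans hNaP)).resolve_left hP.1)
  set X := sSup (U A P Q \ {a}) with hX
  obtain ⟨C₀, hC₀⟩ : ∃ C, C ∈ U A P Q \ {a} := by
    obtain ⟨x, hx, hnot, hle⟩ := exists_move haQ (subnormal_of_closed _ Q rfl haQ hQ.1 hcl) hQa
    exact ⟨cmap x a, ⟨conj_of_mem ha x, le_inf (hle.trans hNaP) (cmap_le_of_mem hx haQ)⟩,
      fun e => hnot (le_of_eq e)⟩
  have hC₀g := good_of_mem hA hC₀.1
  have hXtop : normalizer (X : Set G) ≠ ⊤ := by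
    intro h
    haveI := normalizer_eq_top_iff.1 h
    exact hP.1 (top_le_iff.1 ((eq_top_of_normal hC₀g.2.1 (le_sSup hC₀)).ge.trans
      (rest_le.trans inf_le_left)))
  have honly : ∀ L, IsCoatom L → normalizer (X : Set G) ≤ L → L = P := by
    intro L hL hXL
    by_contra hne
    by_cases hPn : P ≤ normalizer (X : Set G)
    · exact hne ((hP.le_iff.1 (hPn.trans hXL)).resolve_left hL.1)
    obtain ⟨C, hCconj, hCP, hCn, hCN⟩ := exists_new hA ih ha haP hQ hPQ hPn
    have hUL : U A P Q ⊆ U A P L := fun D hD =>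
      ⟨hD.1, le_inf (hD.2.trans inf_le_left)
        ((hD.2.trans (inf_le_normalizer_rest hA ih ha haP hQ hPQ)).trans hXL)⟩
    exact max_absurd hmax hP hL (Ne.symm hne) (hUL ha) haP hUL ⟨hCconj, le_inf hCP (hCN.trans hXL)⟩ hCn
  obtain ⟨L, hL, hXL⟩ := (eq_top_or_exists_le_coatom _).resolve_left hXtop
  have hXP : normalizer (X : Set G) ≤ P := honly L hL hXL ▸ hXL
  have hQn : ¬ Q ≤ normalizer (X : Set G) := fun h =>
    hPQ ((hQ.le_iff.1 (h.trans hXP)).resolve_left hP.1)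
  obtain ⟨x, hxQ, hnot, hle⟩ := exists_move (rest_le.trans inf_le_right)
    (rest_subnormal hA ih hQ inf_le_right fun C hC => hb C hC.1) hQn
  have himg : ∀ C ∈ U A P Q \ {a}, cmap x C ∈ U A P Q := fun C hC =>
    ⟨conj_of_mem hC.1 x, le_inf (((cmap_mono (le_sSup hC)).trans hle).trans hXP)
      (cmap_le_of_mem hxQ (hC.1.2.trans inf_le_right))⟩
  obtain ⟨C, hC, hCa⟩ : ∃ C ∈ U A P Q \ {a}, cmap x C = a := by
    by_contra! h
    refine hnot ?_
    rw [cmap, map_le_iff_le_comap]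
    exact sSup_le fun C hC => map_le_iff_le_comap.1
      (le_sSup (s := U A P Q \ {a}) ⟨himg C hC, h C hC⟩)
  set P' := cmap x P with hP'
  have ha'S : Sp (cmap x a) P' := sp_cmap haP
  have haP' : a ≤ P' := hCa.symm.trans_le (cmap_mono (hC.1.2.trans inf_le_left))
  have haaP : cmap x a ≤ P := by
    have hP'Q : P' ≠ Q := fun e => hPQ (by
      have h1 : cmap x⁻¹ Q = P := by rw [← e, hP', cmap_inv_cmap]
      rw [cmap_eq_of_mem (le_normalizer (inv_mem hxQ) : x⁻¹ ∈ normalizer (Q : Set G))] at h1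
      exact h1.symm)
    by_cases he : cmap x a = a
    · rw [he]; exact haP.2.1
    obtain ⟨R, -, hR, h1⟩ := key (good_cmap hgood) (by rw [card_cmap, card_eq ha]; exact ih)
      (by rw [card_cmap]) he ha'S haP' hQ (cmap_le_of_mem hxQ haQ) haQ hP'Q
    exact unique' hA ih ha hR haP ▸ h1
  set P₁ := cmap x⁻¹ P with hP₁
  have hC1 : Sp C P₁ := by
    have h1 := sp_cmap (g := x⁻¹) haP
    rwa [show cmap x⁻¹ a = C from by rw [← hCa, cmap_inv_cmap]] at h1
  have hPP₁ : P ≠ P₁ := fun e => not_sp_other hA ih ha hC.1 hC.2 haP hQ hPQ (e ▸ hC1)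
  have hsub : U A P Q ⊆ U A P P₁ := by
    intro D hD
    refine ⟨hD.1, le_inf (hD.2.trans inf_le_left) ?_⟩
    have h1 : cmap x D ≤ P := by
      by_cases he : D = a
      · exact he ▸ haaP
      · exact (himg D ⟨hD, he⟩).2.trans inf_le_left
    exact (cmap_inv_cmap x D).symm.trans_le (cmap_mono h1)
  refine two P₁ hC1.1 hPP₁ ?_ (hsub ha) ⟨C, hsub hC.1, hC1⟩
  intro P' Q' a' h1 h2 h3 h4 h5
  exact (hmax P' Q' a' h1 h2 h3 h4 h5).trans (Set.ncard_le_ncard hsub (Set.toFinite _))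

end

theorem unique_of_good : ∀ (n : ℕ) (A : Subgroup G), Nat.card G - Nat.card A = n → Good A →
    ∀ P Q, IsCoatom P → IsCoatom Q → A ≤ P → A ≤ Q → P = Q := by
  intro n
  induction n using Nat.strong_induction_on with
  | _ n ih => ?_
  intro A hn hA P Q hP hQ hAP hAQ
  have hInd : Ind G (Nat.card A) := fun X hX hgood =>
    ih _ (by have := card_le_card_group X; omega) X rfl hgood
  by_cases hY : Yj A = A
  · have hsn : ∀ H : Subgroup G, A ≤ H → H ≠ ⊤ → (A.subgroupOf H).IsSubnormal := fun H hAH hH =>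
      subnormal_of_closed _ H rfl hAH hH fun K _ hK => le_antisymm ((le_Yj_of_mem hK).trans hY.le) hK.1
    rcases zipper A hsn with h | ⟨M, -, -, huniq⟩
    · rcases h.lt_normal with h | ⟨K, hK, hAK, hKtop⟩
      · exact absurd h hA.1
      · exact absurd (eq_top_of_normal hA.2.1 hAK) hKtop.ne
    · exact (huniq P hP hAP).trans (huniq Q hQ hAQ).symm
  by_contra hPQ
  obtain ⟨Z, hZ, hYZ⟩ := (eq_top_or_exists_le_coatom (Yj A)).resolve_left hA.2.2
  have hSZ : Sp A Z := ⟨hZ, (le_Yj hA.1).trans hYZ, fun hc => hY (hc _ hYZ (mem_Yj hA))⟩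
  obtain ⟨N, hN, hAN, hZN⟩ : ∃ N, IsCoatom N ∧ A ≤ N ∧ Z ≠ N := by
    by_cases h : Z = P
    · exact ⟨Q, hQ, hAQ, h ▸ hPQ⟩
    · exact ⟨P, hP, hAP, h⟩
  let T := {q : Subgroup G × Subgroup G // IsCoatom q.1 ∧ IsCoatom q.2 ∧ q.1 ≠ q.2 ∧
    ∃ a ∈ U A q.1 q.2, Sp a q.1}
  haveI : Nonempty T := ⟨⟨(Z, N), hZ, hN, hZN, A, ⟨⟨1, (cmap_one A).symm⟩, le_inf hSZ.2.1 hAN⟩, hSZ⟩⟩
  obtain ⟨⟨⟨P', Q'⟩, hP', hQ', hne, a, ha, haS⟩, hmax⟩ :=
    Finite.exists_max fun q : T => (U A q.1.1 q.1.2).ncard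
  exact contradiction hA hInd (fun P₂ Q₂ a₂ h1 h2 h3 h4 h5 =>
    hmax ⟨(P₂, Q₂), h1, h2, h3, a₂, h4, h5⟩) hP' hQ' hne ha haS

omit [Finite G] in
theorem mem_iff_normalClosure {A H : Subgroup G} :
    Mem A H ↔ A ≤ H ∧ H ≠ ⊤ ∧ normalClosure ((A.subgroupOf H : Subgroup H) : Set H) = ⊤ := by
  refine and_congr_right fun hAH => and_congr_right fun _ => ⟨fun h => ?_, fun h K hKH hAK hN => ?_⟩
  · set N := normalClosure ((A.subgroupOf H : Subgroup H) : Set H)
    apply map_injective H.subtype_injective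
    rw [← MonoidHom.range_eq_map, range_subtype]
    refine h _ (map_subtype_le _) (fun a ha => ⟨⟨a, hAH ha⟩, le_normalClosure ha, rfl⟩) ?_
    rw [← normal_subgroupOf_iff_le_normalizer (map_subtype_le _), subgroupOf,
      comap_map_eq_self_of_injective H.subtype_injective]
    exact normalClosure_normal
  · haveI := (normal_subgroupOf_iff_le_normalizer hKH).2 hN
    have h1 : normalClosure ((A.subgroupOf H : Subgroup H) : Set H) ≤ K.subgroupOf H :=
      normalClosure_le_normal fun x hx => hAK hx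
    rw [h, top_le_iff, subgroupOf_eq_top] at h1
    exact le_antisymm hKH h1

/-- The dichotomy. -/
theorem dichotomy (A : Subgroup G) (hA : normalClosure (A : Set G) = ⊤) (hAG : A ≠ ⊤) :
    Yj A = ⊤ ∨ ∃! M : Subgroup G, IsCoatom M ∧ A ≤ M := by
  refine or_iff_not_imp_left.2 fun hY => ?_
  obtain ⟨M, hM, hAM⟩ := (eq_top_or_exists_le_coatom A).resolve_left hAG
  exact ⟨M, ⟨hM, hAM⟩, fun N hN => unique_of_good _ A rfl ⟨hAG, hA, hY⟩ N M hN.1 hM hN.2 hAM⟩

end Cfsg.Agent.Lib.GS.NCZipper
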