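import Cfsg.Agent.Lib.GS.OrthSylow
import Cfsg.Agent.S0756

/-!
Decomposition of standard forms into planes `x² + y²` and a diagonal rest.
-/

set_option autoImplicit false

namespace Cfsg.Agent.Lib.GS.Orth

open QuadraticMap Cfsg.Agent.Lib.Classical.Quad Cfsg.Agent.Lib.Classical.QuadOmega

attribute [local instance] _root_.Classical.propDecidable

variable {F : Type*} [Field F] [Fintype F] {V : Type*} [AddCommGroup V] [Module F V] [Finite V]

theorem exists_diag {Q : QuadraticForm F V} (hQ : Nd Q) (h2 : (2 : F) ≠ 0) {n : ℕ}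
    (hn : Module.finrank F V = n + 1) :
    ∃ (b : Module.Basis (Fin (n + 1)) F V) (w : Fin (n + 1) → F),
      (∀ x : Fin (n + 1) → F, Q (b.equivFun.symm x) = ∑ i, w i * (x i * x i)) ∧
      (∀ i, i ≠ Fin.last n → w i = 1) ∧
      (w (Fin.last n) = 1 ∨ ¬ IsSquare (w (Fin.last n))) ∧ ∀ i, w i ≠ 0 := by
  have := Module.Finite.of_finite (R := F) (M := V)
  have : Invertible (2 : F) := invertibleOfNonzero h2
  obtain ⟨α, hα⟩ := FiniteField.exists_nonsquare (F := F) (fun h => h2 (by
    exact_mod_cast (ringChar.spec F 2).2 (dvd_of_eq h)))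
  have hnd : (QuadraticMap.associated (R := F) Q).Nondegenerate := by
    have key : ∀ x, (∀ y, QuadraticMap.associated (R := F) Q x y = 0) → x = 0 := fun x hx =>
      hQ x fun y => by
        have hy : QuadraticMap.associated (R := F) Q y x = 0 := by
          rw [← hx y]; exact QuadraticMap.associated_isSymm F Q y x
        rw [polar, ← QuadraticMap.associated_eq_self_apply F Q (x + y), ← QuadraticMap.associated_eq_self_apply F Q x,
          ← QuadraticMap.associated_eq_self_apply F Q y]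
        simp [map_add, LinearMap.add_apply, hx, hy]
    exact ⟨key, fun y hy => key y fun x => by rw [← hy x]; exact QuadraticMap.associated_isSymm F Q y x⟩
  obtain ⟨b, ho, h1, hl⟩ := Cfsg.Agent.S0756.result h2 (QuadraticMap.associated (R := F) Q)
    ⟨fun x y => QuadraticMap.associated_isSymm F Q x y⟩ hnd hn α hα
  have hQb : ∀ i, Q (b i) = QuadraticMap.associated (R := F) Q (b i) (b i) := fun i =>
    (QuadraticMap.associated_eq_self_apply F Q (b i)).symm
  have hl' : Q (b (Fin.last n)) = 1 ∨ Q (b (Fin.last n)) = α := by rw [hQb]; exact hl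
  refine ⟨b, fun i => Q (b i), fun x => ?_, fun i hi => (hQb i).trans (h1 i hi), ?_, fun i => ?_⟩
  · have h := congrArg (fun R : QuadraticMap F (Fin (n + 1) → F) F => R x)
      (QuadraticMap.basisRepr_eq_of_iIsOrtho Q b (fun i j hij => ho i j hij))
    simp only [weightedSumSquares_apply, smul_eq_mul] at h
    rw [← h]
    rfl
  · exact hl'.imp id fun h => by change ¬ IsSquare (Q (b (Fin.last n))); rwa [h]
  · dsimp only
    by_cases hi : i = Fin.last n
    · subst hi
      rcases hl' with h | h <;> rw [h]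
      · exact one_ne_zero
      · rintro rfl; exact hα IsSquare.zero
    · rw [hQb, h1 i hi]; exact one_ne_zero

omit [Finite V] in
theorem exists_decomp {Q : QuadraticForm F V} {n : ℕ} (b : Module.Basis (Fin (n + 1)) F V)
    (w : Fin (n + 1) → F) (hb : ∀ x : Fin (n + 1) → F, Q (b.equivFun.symm x) = ∑ i, w i * (x i * x i))
    (hw1 : ∀ i, i ≠ Fin.last n → w i = 1) (hw0 : ∀ i, w i ≠ 0) (m k : ℕ) (hnk : n + 1 = m * 2 + k)
    (hk : 1 ≤ k ∨ w (Fin.last n) = 1) :
    ∃ (d : Fin k → F) (e : VV F m k ≃ₗ[F] V), (∀ v, Q (e v) = QB m d v) ∧ (∀ j, d j ≠ 0) ∧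
      ∏ j, d j = w (Fin.last n) := by
  let σ : (Fin m × Fin 2) ⊕ Fin k ≃ Fin (n + 1) :=
    ((finProdFinEquiv.sumCongr (Equiv.refl _)).trans finSumFinEquiv).trans (finCongr hnk.symm)
  have hinl : ∀ x, w (σ (.inl x)) = 1 := fun x => by
    rcases hk with hk | hk
    · refine hw1 _ fun h => ?_
      have := congrArg Fin.val h
      simp [σ] at this
      have := x.1.isLt
      have := x.2.isLt
      omega
    · by_cases h : σ (.inl x) = Fin.last n
      · rw [h, hk]
      · exact hw1 _ h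
  let e0 : VV F m k ≃ₗ[F] (Fin (n + 1) → F) :=
    ((((LinearEquiv.curry F F (Fin m) (Fin 2)).symm).prodCongr (LinearEquiv.refl F _)).trans
      (LinearEquiv.sumArrowLequivProdArrow (Fin m × Fin 2) (Fin k) F F).symm).trans
      (LinearEquiv.funCongrLeft F F σ.symm)
  have he0 : ∀ p x, e0 p (σ x) = Sum.elim (fun y => p.1 y.1 y.2) p.2 x := fun p x => by
    rcases x with y | j <;>
      simp [e0, LinearEquiv.funCongrLeft, LinearEquiv.sumArrowLequivProdArrow, Equiv.sumArrowEquivProdArrow, Function.uncurry]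
  refine ⟨fun j => w (σ (.inr j)), e0.trans b.equivFun.symm, fun v => ?_, fun j => hw0 _, ?_⟩
  · rw [LinearEquiv.trans_apply, hb, ← Equiv.sum_comp σ, Fintype.sum_sum_type, QB_apply]
    simp only [he0, Sum.elim_inl, Sum.elim_inr, hinl, one_mul]
    congr 1
    rw [Fintype.sum_prod_type]
    exact Finset.sum_congr rfl fun i _ => by rw [pl_apply, Fin.sum_univ_two]; ring
  · have h1 : ∏ i, w i = w (Fin.last n) := Fintype.prod_eq_single _ fun i hi => hw1 i hi
    rw [← h1, ← Equiv.prod_comp σ, Fintype.prod_sum_type, Fintype.prod_eq_one _ hinl, one_mul]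

theorem negOne_iff_of_iso {ι : Type} [Fintype ι] [DecidableEq ι] (f : (ι → F) → F)
    {W : Type*} [AddCommGroup W] [Module F W] [Finite W] {Q : QuadraticForm F V} {Q' : QuadraticForm F W}
    (e : V ≃ₗ[F] (ι → F)) (he : ∀ v, f (e v) = Q v) (e' : W ≃ₗ[F] (ι → F)) (he' : ∀ v, f (e' v) = Q' v) :
    negOne Q ∈ commutator (isoG Q) ↔ negOne Q' ∈ commutator (isoG Q') := by
  set g := (isoEquiv f e he).symm (negOne Q) with hg
  have hv : ∀ x : ι → F, (g.1 : Matrix ι ι F).mulVec x = -x := fun x => by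
    have h := isoEquiv_apply f e he g (e.symm x)
    rw [hg, MulEquiv.apply_symm_apply, negOne_apply, e.apply_symm_apply] at h
    have h' := congrArg e h
    rw [map_neg, e.apply_symm_apply, e.apply_symm_apply] at h'
    exact h'.symm
  have hg' : isoEquiv f e' he' g = negOne Q' := iso_ext fun v => by
    rw [isoEquiv_apply, hv, negOne_apply, map_neg, e'.symm_apply_apply]
  rw [← hg', ← mem_omega_iff f e' he', mem_omega_iff f e he, hg, MulEquiv.apply_symm_apply]

theorem negOne_QB_iff (h2 : (2 : F) ≠ 0) {m k : ℕ} (hk : Even k) {d : Fin k → F} (hd : ∀ j, d j ≠ 0) :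
    negOne (QB m d) ∈ commutator (isoG (QB m d)) ↔ IsSquare (∏ j, d j) := by
  set g := refl (pl F) ![1, 0] * refl (pl F) ![0, 1] with hg
  have n1 : pl F ![1, 0] ≠ 0 := by simp [pl_apply]
  have n2 : pl F ![0, 1] ≠ 0 := by simp [pl_apply]
  have hgv : ∀ v, g.1 v = -v := fun v => by
    rw [hg, Subgroup.coe_mul, LinearEquiv.mul_apply, refl_apply n1, refl_apply n2, polar_pl, polar_pl,
      pl_apply, pl_apply]
    ext i; fin_cases i <;> simp [Matrix.vecHead, Matrix.vecTail] <;> ring
  have e : negOne (QB m d) = phiB m d (fun _ => g, 1) * phiB m d (1, fun _ => -1) := by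
    rw [← map_mul]
    refine iso_ext fun p => ?_
    rw [negOne_apply, phiB_apply]
    refine Prod.ext (funext fun i => ?_) (funext fun j => ?_)
    · simp [hgv]
    · simp [sgnU]
  rw [mem_commutator_iff (nd_QB h2 hd) h2, ← Prod.mk_eq_one, ← MonoidHom.prod_apply]
  change invB h2 hd (negOne (QB m d)) = 1 ↔ _
  rw [e, map_mul, invB_phiB, invB_sign, hg, hk.neg_one_pow]
  simp [map_mul, dick_refl _ n1, dick_refl _ n2, spn_refl _ h2 n1, spn_refl _ h2 n2, pl_apply, sqSign_one,
    sqSign_eq_one_iff]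

omit [Finite V] in
theorem negOne_plus_iff (h2 : (2 : F) ≠ 0) (m : ℕ) :
    negOne (splitQ m (zeroQ F)) ∈ commutator (isoG (splitQ m (zeroQ F))) ↔ IsSquare ((-1 : F) ^ m) := by
  have e : negOne (splitQ m (zeroQ F)) = scaleHom m (zeroQ F) (fun _ => -1) := iso_ext fun p => by
    rw [negOne_apply, scaleHom_apply]
    refine Prod.ext (Prod.ext (funext fun i => ?_) (funext fun i => ?_)) (Subsingleton.elim _ _) <;> simp
  rw [e, scaleHom_mem_iff nd_zeroQ h2]
  simp

theorem v2_pow_sub_one {q : ℕ} (hq : 1 < q) (ho : ¬ 2 ∣ q) {m : ℕ} (hm : 1 ≤ m) :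
    (q ^ m % 4 = 1 → padicValNat 2 (q ^ m - 1) + 1 = padicValNat 2 (q ^ 2 - 1) + padicValNat 2 m) ∧
    (q ^ m % 4 = 3 → padicValNat 2 (q ^ m - 1) = 1 ∧ padicValNat 2 m = 0 ∧
      padicValNat 2 (q ^ m + 1) + 1 = padicValNat 2 (q ^ 2 - 1)) ∧
    (q ^ m % 4 = 1 → padicValNat 2 (q ^ m + 1) = 1) := by
  have : Fact (Nat.Prime 2) := ⟨Nat.prime_two⟩
  have hone : ∀ N : ℕ, N % 4 = 2 → padicValNat 2 N = 1 := fun N hN => by
    obtain ⟨c, rfl, hc⟩ : ∃ c, N = 2 * c ∧ ¬ 2 ∣ c := ⟨N / 2, by omega, by omega⟩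
    rw [padicValNat.mul two_ne_zero (by omega), padicValNat_self, padicValNat.eq_zero_of_not_dvd hc]
  have hN : 1 < q ^ m := Nat.one_lt_pow (by omega) hq
  have e2 : q ^ (2 * m) - 1 = (q ^ m + 1) * (q ^ m - 1) := by
    rw [mul_comm 2 m, pow_mul]; simpa using Nat.pow_two_sub_pow_two (q ^ m) 1
  have h := v2_even_pow hq ho (k := m) (by omega)
  rw [e2, padicValNat.mul (by omega) (by omega)] at h
  refine ⟨fun h1 => ?_, fun h3 => ?_, fun h1 => hone _ (by omega)⟩
  · have := hone (q ^ m + 1) (by omega)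
    omega
  · have hv := hone (q ^ m - 1) (by omega)
    have hm0 : padicValNat 2 m = 0 := by
      apply padicValNat.eq_zero_of_not_dvd
      rintro ⟨c, rfl⟩
      rw [pow_mul, Nat.pow_mod, show q ^ 2 % 4 = 1 by
        have : q % 4 = 1 ∨ q % 4 = 3 := by omega
        rw [Nat.pow_mod]; rcases this with h' | h' <;> rw [h'] <;> rfl] at h3
      simp at h3
    exact ⟨hv, hm0, by omega⟩

end Cfsg.Agent.Lib.GS.Orth
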