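import Cfsg.Agent.Lib.GS.SylowGoodVal
import Cfsg.Agent.Lib.Classical.QuadOmega.Apply
import Cfsg.Agent.Lib.Classical.QuadStd

/-!
The orthogonal group of the plane `x² + y²` in odd characteristic.
-/

set_option autoImplicit false

namespace Cfsg.Agent.Lib.GS.Orth

open QuadraticMap Cfsg.Agent.Lib.Classical.Quad Cfsg.Agent.Lib.Classical.QuadOmega

attribute [local instance] _root_.Classical.propDecidable

variable {F : Type*} [Field F] [Fintype F]

/-- The plane `x² + y²`. -/
noncomputable def pl (F : Type*) [Field F] : QuadraticForm F (Fin 2 → F) :=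
  weightedSumSquares F fun _ : Fin 2 => (1 : F)

omit [Fintype F] in
theorem pl_apply (v : Fin 2 → F) : pl F v = v 0 ^ 2 + v 1 ^ 2 := by
  simp [pl, weightedSumSquares_apply, Fin.sum_univ_two, pow_two]

omit [Fintype F] in
theorem polar_pl (v w : Fin 2 → F) : polar (pl F) v w = 2 * (v 0 * w 0 + v 1 * w 1) := by
  simp [polar, pl_apply]; ring

omit [Fintype F] in
theorem nd_pl (h2 : (2 : F) ≠ 0) : Nd (pl F) := fun x hx => by
  ext i
  fin_cases i
  · have := hx ![1, 0]
    simp [polar_pl, h2] at this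
    exact this
  · have := hx ![0, 1]
    simp [polar_pl, h2] at this
    exact this

omit [Fintype F] in
/-- Images of the standard basis. -/
theorem plane_cases (h2 : (2 : F) ≠ 0) (g : isoG (pl F)) : ∃ p : Fin 2 → F, p 0 ^ 2 + p 1 ^ 2 = 1 ∧
    ((∀ v, g.1 v = ![v 0 * p 0 - v 1 * p 1, v 0 * p 1 + v 1 * p 0]) ∨
      ∀ v, g.1 v = ![v 0 * p 0 + v 1 * p 1, v 0 * p 1 - v 1 * p 0]) := by
  set p := g.1 ![1, 0] with hp
  set u := g.1 ![0, 1] with hu
  have hv : ∀ v : Fin 2 → F, g.1 v = v 0 • p + v 1 • u := fun v => by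
    conv_lhs => rw [show v = v 0 • ![1, 0] + v 1 • ![0, 1] by ext i; fin_cases i <;> simp]
    rw [map_add, map_smul, map_smul]
  have h1 : p 0 ^ 2 + p 1 ^ 2 = 1 := by
    have := iso_Q g ![1, 0]; rw [← hp] at this; simpa [pl_apply] using this
  have h3 : u 0 ^ 2 + u 1 ^ 2 = 1 := by
    have := iso_Q g ![0, 1]; rw [← hu] at this; simpa [pl_apply] using this
  have h4 : p 0 * u 0 + p 1 * u 1 = 0 := by
    have := iso_B g ![1, 0] ![0, 1]
    rw [← hp, ← hu, polar_pl, polar_pl] at this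
    simp [h2] at this
    exact this
  set t := p 0 * u 1 - p 1 * u 0 with ht
  have e0 : u 0 = -t * p 1 := by linear_combination (-(u 0)) * h1 + p 0 * h4
  have e1 : u 1 = t * p 0 := by linear_combination (-(u 1)) * h1 + p 1 * h4
  have ht2 : t * t = 1 := by
    rw [e0, e1] at h3; linear_combination h3 - t * t * h1
  refine ⟨p, h1, ?_⟩
  rcases mul_self_eq_one_iff.1 ht2 with h | h
  · refine Or.inl fun v => ?_
    rw [hv]; ext i; fin_cases i <;> simp [e0, e1, h]; ring
  · refine Or.inr fun v => ?_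
    rw [hv]; ext i; fin_cases i <;> simp [e0, e1, h]; ring

theorem dick_of_refl_type (h2 : (2 : F) ≠ 0) (g : isoG (pl F)) (p : Fin 2 → F)
    (hp : p 0 ^ 2 + p 1 ^ 2 = 1)
    (hg : ∀ v, g.1 v = ![v 0 * p 0 + v 1 * p 1, v 0 * p 1 - v 1 * p 0]) :
    dick (nd_pl h2) g = -1 := by
  obtain ⟨w, hw, hgw⟩ : ∃ w, pl F w ≠ 0 ∧ g = refl (pl F) w := by
    by_cases h : p 0 = 1
    · have hp1 : p 1 = 0 := by
        rw [h] at hp
        exact pow_eq_zero_iff two_ne_zero |>.1 (by linear_combination hp)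
      refine ⟨![0, 1], by simp [pl_apply], iso_ext fun v => ?_⟩
      rw [hg, refl_apply (by simp [pl_apply]), polar_pl, pl_apply]
      ext i; fin_cases i <;> simp [h, hp1]; ring
    · have hw : pl F ![p 0 - 1, p 1] = 2 * (1 - p 0) := by simp [pl_apply]; linear_combination hp
      have hw0 : pl F ![p 0 - 1, p 1] ≠ 0 := by
        rw [hw]; exact mul_ne_zero h2 (sub_ne_zero.2 (Ne.symm h))
      refine ⟨_, hw0, iso_ext fun v => ?_⟩
      rw [hg, refl_apply hw0, polar_pl, hw]
      have hd : (1 : F) - p 0 ≠ 0 := sub_ne_zero.2 (Ne.symm h)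
      ext i
      fin_cases i <;> simp <;> field_simp
      · ring
      · linear_combination (v 1) * hp
  rw [hgw]; exact dick_refl _ hw

theorem dick_of_rot_type (h2 : (2 : F) ≠ 0) (g : isoG (pl F)) (p : Fin 2 → F)
    (hp : p 0 ^ 2 + p 1 ^ 2 = 1)
    (hg : ∀ v, g.1 v = ![v 0 * p 0 - v 1 * p 1, v 0 * p 1 + v 1 * p 0]) :
    dick (nd_pl h2) g = 1 := by
  have he : pl F ![1, 0] ≠ 0 := by simp [pl_apply]
  have h := dick_of_refl_type h2 (g * refl (pl F) ![1, 0]) ![-p 0, -p 1] (by simp [hp]) fun v => by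
    rw [Subgroup.coe_mul, LinearEquiv.mul_apply, hg, refl_apply he, polar_pl, pl_apply]
    ext i; fin_cases i <;> simp <;> ring
  rw [map_mul, dick_refl _ he, mul_neg, mul_one, neg_inj] at h
  exact h

theorem sq_eq_one_of_dick (h2 : (2 : F) ≠ 0) {g : isoG (pl F)} (h : dick (nd_pl h2) g = -1) : g * g = 1 := by
  obtain ⟨p, hp, hA | hB⟩ := plane_cases h2 g
  · rw [dick_of_rot_type h2 g p hp hA] at h
    exact absurd h (by decide)
  · refine iso_ext fun v => ?_
    rw [Subgroup.coe_mul, LinearEquiv.mul_apply, hB, hB]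
    ext i; fin_cases i <;> simp
    · linear_combination (v 0) * hp
    · linear_combination (v 1) * hp

theorem inverts (h2 : (2 : F) ≠ 0) {g s : isoG (pl F)} (hg : dick (nd_pl h2) g = 1)
    (hs : dick (nd_pl h2) s = -1) : s * g * s⁻¹ = g⁻¹ := by
  have h1 := sq_eq_one_of_dick h2 hs
  have h3 := sq_eq_one_of_dick h2 (g := s * g) (by rw [map_mul, hg, hs, mul_one])
  rw [inv_eq_of_mul_eq_one_right h1]
  refine eq_inv_of_mul_eq_one_left ?_
  rw [← h3]; group

theorem rot_comm (h2 : (2 : F) ≠ 0) {g g' : isoG (pl F)} (hg : dick (nd_pl h2) g = 1)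
    (hg' : dick (nd_pl h2) g' = 1) : g * g' = g' * g := by
  obtain ⟨p, hp, hA | hB⟩ := plane_cases h2 g
  · obtain ⟨p', hp', hA' | hB'⟩ := plane_cases h2 g'
    · refine iso_ext fun v => ?_
      simp only [Subgroup.coe_mul, LinearEquiv.mul_apply, hA, hA']
      ext i; fin_cases i <;> simp <;> ring
    · rw [dick_of_refl_type h2 g' p' hp' hB'] at hg'
      exact absurd hg' (by decide)
  · rw [dick_of_refl_type h2 g p hp hB] at hg
    exact absurd hg (by decide)

theorem v2_card_pl (hF : Odd (Fintype.card F)) :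
    padicValNat 2 (Nat.card (isoG (pl F))) = padicValNat 2 (Fintype.card F ^ 2 - 1) := by
  have : Fact (Nat.Prime 2) := ⟨Nat.prime_two⟩
  have h2 := Cfsg.Agent.Lib.Classical.two_ne_zero_of_odd_card hF
  have hq1 : 1 < Fintype.card F := Fintype.one_lt_card
  have e2 : Fintype.card F ^ 2 - 1 = (Fintype.card F + 1) * (Fintype.card F - 1) := by
    simpa using Nat.pow_two_sub_pow_two (Fintype.card F) 1
  rw [e2, padicValNat.mul (by omega) (by omega)]
  rw [Nat.odd_iff] at hF
  by_cases hs : IsSquare (-1 : F)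
  · obtain ⟨i, hi⟩ := hs
    have hq4 : Fintype.card F % 4 = 1 := by
      have := FiniteField.isSquare_neg_one_iff.1 ⟨i, hi⟩
      omega
    have hi0 : i ≠ 0 := by rintro rfl; simp at hi
    let e : (Fin 2 → F) ≃ₗ[F] (Fin 1 ⊕ Fin 1 → F) :=
      { toFun := fun v => Sum.elim (fun _ => v 0 + i * v 1) (fun _ => v 0 - i * v 1)
        invFun := fun x => ![(x (.inl 0) + x (.inr 0)) / 2, (x (.inl 0) - x (.inr 0)) / (2 * i)]
        map_add' := fun v w => by ext (j | j) <;> simp <;> ring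
        map_smul' := fun c v => by ext (j | j) <;> simp <;> ring
        left_inv := fun v => by ext j; fin_cases j <;> simp <;> field_simp <;> ring
        right_inv := fun x => by ext (j | j) <;> (rw [Subsingleton.elim j 0]; simp; field_simp; ring) }
    rw [← card_isometryGroup (Cfsg.quadFormPlus (0 + 1) F) e fun v => by
      rw [pl_apply]; simp [Cfsg.quadFormPlus, e]; linear_combination -(v 1) * (v 1) * hi.symm, card_O_plus]
    simp only [zero_add, pow_one, mul_zero, pow_zero, mul_one, Finset.range_zero, Finset.prod_empty]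
    have hv : padicValNat 2 (Fintype.card F + 1) = 1 := by
      obtain ⟨c, hc, hc2⟩ : ∃ c, Fintype.card F + 1 = 2 * c ∧ ¬ 2 ∣ c :=
        ⟨(Fintype.card F + 1) / 2, by omega, by omega⟩
      rw [hc, padicValNat.mul two_ne_zero (by omega), padicValNat_self, padicValNat.eq_zero_of_not_dvd hc2]
    rw [padicValNat.mul two_ne_zero (by omega), padicValNat_self, hv]
  · have hq4 : Fintype.card F % 4 = 3 := by
      by_contra h
      exact hs (FiniteField.isSquare_neg_one_iff.2 h)
    have hab : Aniso (0 : F) 1 := fun z₁ z₂ h => by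
      by_cases h0 : z₂ = 0
      · subst h0; exact ⟨pow_eq_zero_iff two_ne_zero |>.1 (by linear_combination h), rfl⟩
      · exact absurd ⟨z₁ / z₂, by field_simp; linear_combination -h⟩ hs
    have hpl : pl F = binQ 0 1 := QuadraticMap.ext fun v => by rw [pl_apply, binQ_apply]; ring
    rw [hpl, card_isoG_binQ hab, padicValNat.mul two_ne_zero (by omega), padicValNat_self]
    obtain ⟨c, hc, hc2⟩ : ∃ c, Fintype.card F - 1 = 2 * c ∧ ¬ 2 ∣ c :=
      ⟨(Fintype.card F - 1) / 2, by omega, by omega⟩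
    rw [hc, padicValNat.mul two_ne_zero (by omega), padicValNat_self, padicValNat.eq_zero_of_not_dvd hc2]
    ring

theorem exists_plane_sylow (h2 : (2 : F) ≠ 0) :
    ∃ T : Sylow 2 (isoG (pl F)), ∃ r ∈ T, ∃ s ∈ T,
      dick (nd_pl h2) r = 1 ∧ spn (nd_pl h2) r = -1 ∧ dick (nd_pl h2) s = -1 ∧ spn (nd_pl h2) s = 1 := by
  have : Fact (Nat.Prime 2) := ⟨Nat.prime_two⟩
  obtain ⟨ν, hν⟩ := FiniteField.exists_nonsquare (F := F) (fun h => h2 (by
    exact_mod_cast (ringChar.spec F 2).2 (dvd_of_eq h)))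
  have hν0 : ν ≠ 0 := by rintro rfl; exact hν IsSquare.zero
  obtain ⟨w, hw⟩ := (nd_pl h2).exists_eq h2 (by simp) ν
  have he : pl F ![1, 0] = 1 := by simp [pl_apply]
  have he0 : pl F ![1, 0] ≠ 0 := by rw [he]; exact one_ne_zero
  have hw0 : pl F w ≠ 0 := by rw [hw]; exact hν0
  set s := refl (pl F) ![1, 0] with hs
  set g := s * refl (pl F) w with hg
  have hds : dick (nd_pl h2) s = -1 := dick_refl _ he0
  have hss : spn (nd_pl h2) s = 1 := by rw [hs, spn_refl _ h2 he0, he, sqSign_one]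
  have hdg : dick (nd_pl h2) g = 1 := by rw [hg, map_mul, hds, dick_refl _ hw0]; rfl
  have hsg : spn (nd_pl h2) g = -1 := by
    rw [hg, map_mul, hss, spn_refl _ h2 hw0, hw, sqSign, if_neg hν, one_mul]
  obtain ⟨e, o, ho, heo⟩ := Nat.exists_eq_two_pow_mul_odd (orderOf_pos g).ne'
  set r := g ^ o with hr
  have hr1 : r ^ 2 ^ e = 1 := by rw [hr, ← pow_mul, mul_comm, ← heo, pow_orderOf_eq_one]
  have hdr : dick (nd_pl h2) r = 1 := by rw [hr, map_pow, hdg, one_pow]
  have hsr : spn (nd_pl h2) r = -1 := by rw [hr, map_pow, hsg, ho.neg_one_pow]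
  have hpg : ∀ {x : isoG (pl F)} {j : ℕ}, x ^ 2 ^ j = 1 → IsPGroup 2 (Subgroup.zpowers x) := by
    intro x j hx
    obtain ⟨i, -, hi⟩ := (Nat.dvd_prime_pow Nat.prime_two).1 (orderOf_dvd_of_pow_eq_one hx)
    exact IsPGroup.of_card (n := i) ((Nat.card_zpowers x).trans hi)
  have hinv := inverts h2 hdr hds
  have hn : Subgroup.zpowers s ≤ Subgroup.normalizer (Subgroup.zpowers r : Set (isoG (pl F))) := by
    rw [Subgroup.zpowers_le, Subgroup.mem_normalizer_iff]
    intro h
    have hc : ∀ i : ℤ, s * r ^ i * s⁻¹ = r ^ (-i) := fun i => by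
      rw [← conj_zpow, hinv, inv_zpow, zpow_neg]
    constructor
    · intro hh
      obtain ⟨i, rfl⟩ := Subgroup.mem_zpowers_iff.1 hh
      rw [hc]; exact Subgroup.zpow_mem_zpowers r _
    · intro hh
      obtain ⟨i, hi⟩ := Subgroup.mem_zpowers_iff.1 hh
      refine Subgroup.mem_zpowers_iff.2 ⟨-i, ?_⟩
      have h1 := hc (-i)
      rw [neg_neg, hi] at h1
      exact mul_left_cancel (mul_right_cancel h1)
  obtain ⟨T, hT⟩ := (IsPGroup.to_sup_of_normal_left' (hpg hr1)
    (hpg (j := 1) (by rw [pow_one, pow_two]; exact sq_eq_one_of_dick h2 hds)) hn).exists_le_sylow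
  exact ⟨T, r, hT (Subgroup.mem_sup_left (Subgroup.mem_zpowers r)), s,
    hT (Subgroup.mem_sup_right (Subgroup.mem_zpowers s)), hdr, hsr, hds, hss⟩

end Cfsg.Agent.Lib.GS.Orth
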