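import Cfsg.Agent.Lib.GS.OrthPlane
import Cfsg.Agent.Lib.Classical.QuadOmega.Disc

/-!
Sylow 2-subgroups of `Ω` in odd characteristic: squares lie in the derived subgroup.
-/

set_option autoImplicit false

open scoped commutatorElement

namespace Cfsg.Agent.Lib.GS.Orth

open QuadraticMap Cfsg.Agent.Lib.Classical.Quad Cfsg.Agent.Lib.Classical.QuadOmega

attribute [local instance] _root_.Classical.propDecidable

/-- The semidirect-type criterion inside a subgroup `N` of `G`. -/
theorem sylow_good_semidirect_inj {N G B : Type*} [Group N] [Group G] [Group B] [Finite N]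
    (j : N →* G) (hj : Function.Injective j) {n : ℕ} (Φ : B →* G) (Ψ : Equiv.Perm (Fin n) →* G)
    (act : Equiv.Perm (Fin n) → B → B) (hconj : ∀ σ b, Ψ σ * Φ b * (Ψ σ)⁻¹ = Φ (act σ b))
    (hinj : ∀ b σ, Φ b * Ψ σ = 1 → b = 1 ∧ σ = 1)
    (K : Subgroup B) (W : Subgroup (Equiv.Perm (Fin n))) (hWg : Cfsg.Agent.S4623.Good 2 W)
    (hinv : ∀ σ ∈ W, ∀ b ∈ K, act σ b ∈ K)
    (hKj : K.map Φ ≤ j.range) (hWj : W.map Ψ ≤ j.range)
    (hcard : Nat.card K * Nat.card W = 2 ^ (Nat.card N).factorization 2)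
    (hgen : ∀ H : Subgroup G, K.map Φ ≤ H → W.map Ψ ≤ H → ∀ b ∈ K, Φ b ^ 2 ∈ ⁅H, H⁆)
    (P : Sylow 2 N) (x : (P : Subgroup N)) : x ^ 2 ∈ commutator ↥(P : Subgroup N) := by
  have : Fact (Nat.Prime 2) := ⟨Nat.prime_two⟩
  let C := K.map Φ
  let L := W.map Ψ
  have hnorm : L ≤ Subgroup.normalizer (C : Set G) := by
    rintro _ ⟨σ, hσ, rfl⟩
    rw [Subgroup.mem_normalizer_iff]
    intro g
    constructor
    · rintro ⟨f, hf, rfl⟩
      exact ⟨_, hinv σ hσ f hf, (hconj σ f).symm⟩
    · rintro ⟨f, hf, hfe⟩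
      refine ⟨_, hinv σ⁻¹ (inv_mem hσ) f hf, ?_⟩
      rw [← hconj σ⁻¹ f, hfe, map_inv]; group
  have hXset : ((C ⊔ L : Subgroup G) : Set G) =
      Set.range fun y : K × W => Φ (y.1 : B) * Ψ (y.2 : Equiv.Perm (Fin n)) := by
    rw [Subgroup.coe_mul_of_right_le_normalizer_left C L hnorm]
    ext z
    simp only [Set.mem_range, Prod.exists]
    constructor
    · rintro ⟨_, ⟨f, hf, rfl⟩, _, ⟨σ, hσ, rfl⟩, rfl⟩; exact ⟨⟨f, hf⟩, ⟨σ, hσ⟩, rfl⟩
    · rintro ⟨f, σ, rfl⟩; exact ⟨_, ⟨f, f.2, rfl⟩, _, ⟨σ, σ.2, rfl⟩, rfl⟩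
  have hinj' : Function.Injective fun y : K × W => Φ (y.1 : B) * Ψ (y.2 : Equiv.Perm (Fin n)) := by
    rintro ⟨f, σ⟩ ⟨g, τ⟩ h
    obtain ⟨h1, h2⟩ := hinj ((g : B)⁻¹ * f) ((σ : Equiv.Perm (Fin n)) * (τ : Equiv.Perm (Fin n))⁻¹) (by
      simp only [map_mul, map_inv] at *
      rw [show (Φ g)⁻¹ * Φ f * (Ψ σ * (Ψ τ)⁻¹) = (Φ g)⁻¹ * (Φ f * Ψ σ) * (Ψ τ)⁻¹ by group, h]
      group)
    exact Prod.ext (Subtype.ext (inv_mul_eq_one.1 h1).symm) (Subtype.ext (mul_inv_eq_one.1 h2))
  have hc : Nat.card (C ⊔ L : Subgroup G) = Nat.card K * Nat.card W := by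
    rw [← Nat.card_prod, ← Nat.card_range_of_injective hinj', ← hXset]; rfl
  have hg : Cfsg.Agent.S4623.Good 2 (C ⊔ L) := Cfsg.Agent.S4623.good_of_gen rfl
    (fun z ⟨f, hf, hz⟩ => by rw [← hz]; exact hgen _ le_sup_left le_sup_right f hf)
    (fun z hz => Subgroup.commutator_mono le_sup_right le_sup_right (Cfsg.Agent.S4623.good_map Ψ hWg z hz))
  let Y := (C ⊔ L).comap j
  have hY : Y.map j = C ⊔ L := Subgroup.map_comap_eq_self (sup_le hKj hWj)
  have hYg : Cfsg.Agent.S4623.Good 2 Y := by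
    intro y hy
    have h := hg (j y) hy
    rw [← hY, ← Subgroup.map_commutator, ← map_pow] at h
    exact (Subgroup.mem_map_iff_mem hj).1 h
  have hYc : Nat.card Y = 2 ^ (Nat.card N).factorization 2 := by
    rw [← hcard, ← hc, ← hY, Subgroup.card_map_of_injective hj]
  exact Cfsg.Agent.S4623.good_of_sylow P (Sylow.ofCard _ hYc) (by simpa using hYg) x

variable {F : Type*} [Field F] [Fintype F]

/-- Blocks of planes and a diagonal rest. -/
abbrev VV (F : Type*) (m k : ℕ) : Type _ := (Fin m → Fin 2 → F) × (Fin k → F)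

/-- The form. -/
noncomputable def QB (m : ℕ) {k : ℕ} (d : Fin k → F) : QuadraticForm F (VV F m k) :=
  (QuadraticMap.pi fun _ : Fin m => pl F).prod (weightedSumSquares F d)

variable {m k : ℕ} {d : Fin k → F}

omit [Fintype F] in
theorem QB_apply (p : VV F m k) : QB m d p = ∑ i, pl F (p.1 i) + ∑ j, d j * (p.2 j * p.2 j) := by
  rw [QB, prod_apply, pi_apply, weightedSumSquares_apply]
  rfl

omit [Fintype F] in
theorem polar_QB (p r : VV F m k) : polar (QB m d) p r =
    ∑ i, polar (pl F) (p.1 i) (r.1 i) + ∑ j, 2 * (d j * (p.2 j * r.2 j)) := by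
  have e : ∀ j, d j * ((p.2 j + r.2 j) * (p.2 j + r.2 j)) =
      d j * (p.2 j * p.2 j) + d j * (r.2 j * r.2 j) + 2 * (d j * (p.2 j * r.2 j)) := fun j => by ring
  have e' : ∀ i, pl F (p.1 i + r.1 i) = pl F (p.1 i) + pl F (r.1 i) + polar (pl F) (p.1 i) (r.1 i) :=
    fun i => QuadraticMap.map_add ⇑(pl F) _ _
  rw [polar, QB_apply, QB_apply, QB_apply]
  simp only [Prod.fst_add, Prod.snd_add, Pi.add_apply, e, e', Finset.sum_add_distrib]
  ring

omit [Fintype F] in
theorem nd_QB (h2 : (2 : F) ≠ 0) (hd : ∀ j, d j ≠ 0) : Nd (QB m d) := fun x hx => by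
  refine Prod.ext (funext fun i => nd_pl h2 (x.1 i) fun z => ?_) (funext fun j => ?_)
  · have h := hx (Pi.single i z, 0)
    rw [polar_QB, Fintype.sum_eq_single i (fun l hl => by
      dsimp only; rw [Pi.single_eq_of_ne hl]; exact polar_zero_right _ _)] at h
    simpa using h
  · have h := hx (0, Pi.single j 1)
    rw [polar_QB, Fintype.sum_eq_single (a := j) (f := fun l => 2 * (d l * (x.2 l * _)))
      (fun l hl => by simp [Pi.single_eq_of_ne hl])] at h
    simpa [polar_zero_right, h2, hd j] using h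

/-- Signs as scalars. -/
def sgnU (F : Type*) [Field F] : ℤˣ →* Fˣ := Units.map (Int.castRingHom F).toMonoidHom

omit [Fintype F] in
theorem sgnU_sq (u : ℤˣ) : (sgnU F u : F) * (sgnU F u : F) = 1 := by
  rw [← Units.val_mul, ← map_mul, Int.units_mul_self, map_one, Units.val_one]

/-- Blockwise isometries. -/
noncomputable def phiB (m : ℕ) {k : ℕ} (d : Fin k → F) :
    (Fin m → isoG (pl F)) × (Fin k → ℤˣ) →* isoG (QB m d) where
  toFun g := ⟨(LinearEquiv.piCongrRight fun i => (g.1 i).1).prodCongr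
      (LinearEquiv.piCongrRight fun j => LinearEquiv.smulOfUnit (sgnU F (g.2 j))), fun p => by
    rw [QB_apply, QB_apply]
    congr 1
    · exact Finset.sum_congr rfl fun i _ => iso_Q (g.1 i) _
    · refine Finset.sum_congr rfl fun j _ => ?_
      change d j * ((sgnU F (g.2 j) : F) * p.2 j * ((sgnU F (g.2 j) : F) * p.2 j)) = _
      rw [mul_mul_mul_comm, sgnU_sq, one_mul]⟩
  map_one' := iso_ext fun p => Prod.ext rfl (funext fun j => by simp [LinearEquiv.smulOfUnit])
  map_mul' g h := iso_ext fun p => Prod.ext rfl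
    (funext fun j => by simp [LinearEquiv.smulOfUnit, mul_smul])

omit [Fintype F] in
theorem phiB_apply (g : (Fin m → isoG (pl F)) × (Fin k → ℤˣ)) (p : VV F m k) :
    (phiB m d g).1 p = (fun i => (g.1 i).1 (p.1 i), fun j => (sgnU F (g.2 j) : F) * p.2 j) := rfl

/-- Permutations of the planes. -/
noncomputable def psiB (m : ℕ) {k : ℕ} (d : Fin k → F) : Equiv.Perm (Fin m) →* isoG (QB m d) where
  toFun σ := ⟨(LinearEquiv.funCongrLeft F (Fin 2 → F) σ.symm).prodCongr (LinearEquiv.refl F _), fun p => by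
    rw [QB_apply, QB_apply]
    congr 1
    exact Equiv.sum_comp σ.symm fun i => pl F (p.1 i)⟩
  map_one' := iso_ext fun p => rfl
  map_mul' σ τ := iso_ext fun p => rfl

omit [Fintype F] in
theorem psiB_apply (σ : Equiv.Perm (Fin m)) (p : VV F m k) :
    (psiB m d σ).1 p = (fun i => p.1 (σ.symm i), p.2) := rfl

omit [Fintype F] in
theorem phiB_single_refl (i : Fin m) {w : Fin 2 → F} (hw : pl F w ≠ 0) :
    phiB m d (Pi.mulSingle i (refl (pl F) w), 1) = refl (QB m d) (Pi.single i w, 0) ∧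
      QB m d (Pi.single i w, 0) = pl F w := by
  have hv : QB m d ((Pi.single i w, 0) : VV F m k) = pl F w := by
    rw [QB_apply, Fintype.sum_eq_single i (fun l hl => by dsimp only; rw [Pi.single_eq_of_ne hl, map_zero])]
    simp
  refine ⟨iso_ext fun p => ?_, hv⟩
  rw [phiB_apply, refl_apply (by rwa [hv]), hv, polar_QB,
    Fintype.sum_eq_single (a := i) (f := fun l => polar (pl F) (p.1 l) _) (fun l hl => by
      simp [Pi.single_eq_of_ne hl, polar_zero_right])]
  refine Prod.ext (funext fun l => ?_) (funext fun j => ?_)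
  · rcases eq_or_ne l i with rfl | hl
    · simp [refl_apply hw]
    · simp [hl]
  · simp

omit [Fintype F] in
theorem phiB_sign (h2 : (2 : F) ≠ 0) (hd : ∀ j, d j ≠ 0) (j : Fin k) :
    phiB m d (1, Pi.mulSingle j (-1)) = refl (QB m d) (0, Pi.single j 1) ∧
      QB m d (0, Pi.single j 1) = d j := by
  have hv : QB m d ((0, Pi.single j 1) : VV F m k) = d j := by
    rw [QB_apply, Fintype.sum_eq_single (a := j) (f := fun l => d l * _)
      (fun l hl => by simp [Pi.single_eq_of_ne hl])]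
    simp
  refine ⟨iso_ext fun p => ?_, hv⟩
  rw [phiB_apply, refl_apply (by rw [hv]; exact hd j), hv, polar_QB,
    Fintype.sum_eq_single (a := j) (f := fun l => 2 * (d l * (p.2 l * _)))
      (fun l hl => by simp [Pi.single_eq_of_ne hl])]
  refine Prod.ext (funext fun l => ?_) (funext fun l => ?_)
  · simp
  · rcases eq_or_ne l j with rfl | hl
    · have := hd l
      simp [polar_zero_right, sgnU]
      field_simp
      ring
    · simp [hl]

/-- The invariants. -/
noncomputable def invB (h2 : (2 : F) ≠ 0) (hd : ∀ j, d j ≠ 0) : isoG (QB m d) →* ℤˣ × ℤˣ :=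
  (dick (nd_QB h2 hd)).prod (spn (nd_QB h2 hd))

theorem invB_phiB (h2 : (2 : F) ≠ 0) (hd : ∀ j, d j ≠ 0) (f : Fin m → isoG (pl F)) :
    invB h2 hd (phiB m d (f, 1)) = (∏ i, dick (nd_pl h2) (f i), ∏ i, spn (nd_pl h2) (f i)) := by
  let L : (Fin m → isoG (pl F)) →* ℤˣ × ℤˣ :=
    (invB h2 hd).comp ((phiB m d).comp (MonoidHom.inl _ _))
  let R : (Fin m → isoG (pl F)) →* ℤˣ × ℤˣ :=
    { toFun := fun f => (∏ i, dick (nd_pl h2) (f i), ∏ i, spn (nd_pl h2) (f i))
      map_one' := by simp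
      map_mul' := fun f g => by simp [Finset.prod_mul_distrib] }
  have hmem : f ∈ MonoidHom.eqLocus L R := by
    refine Subgroup.pi_mem_of_mulSingle_mem f fun i => ?_
    have hh : f i ∈ Subgroup.closure {r | ∃ w, pl F w ≠ 0 ∧ r = refl (pl F) w} :=
      closure_refl_eq_top' (nd_pl h2) (reg_of_two_ne_zero h2) ▸ Subgroup.mem_top _
    refine MonoidHom.eqOn_closure (f := L.comp (MonoidHom.mulSingle (fun _ : Fin m => ↥(isoG (pl F))) i))
      (g := R.comp (MonoidHom.mulSingle (fun _ : Fin m => ↥(isoG (pl F))) i)) ?_ hh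
    rintro _ ⟨w, hw, rfl⟩
    obtain ⟨e1, e2⟩ := phiB_single_refl (d := d) i hw
    have hne : QB m d (Pi.single i w, 0) ≠ 0 := by rw [e2]; exact hw
    change invB h2 hd (phiB m d (Pi.mulSingle i (refl (pl F) w), 1)) =
      (∏ l, dick (nd_pl h2) ((Pi.mulSingle i (refl (pl F) w) : Fin m → _) l),
        ∏ l, spn (nd_pl h2) ((Pi.mulSingle i (refl (pl F) w) : Fin m → _) l))
    rw [Fintype.prod_eq_single i (fun l hl => by rw [Pi.mulSingle_eq_of_ne hl, map_one]),
      Fintype.prod_eq_single i (fun l hl => by rw [Pi.mulSingle_eq_of_ne hl, map_one]),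
      Pi.mulSingle_eq_same, dick_refl _ hw, spn_refl _ h2 hw, e1, invB, MonoidHom.prod_apply,
      dick_refl _ hne, spn_refl _ h2 hne, e2]
  exact hmem

theorem invB_sign (h2 : (2 : F) ≠ 0) (hd : ∀ j, d j ≠ 0) :
    invB h2 hd (phiB m d (1, fun _ => -1)) = ((-1) ^ k, sqSign (∏ j, d j)) := by
  have hone : ∀ j, invB h2 hd (phiB m d (1, Pi.mulSingle j (-1))) = (-1, sqSign (d j)) := fun j => by
    obtain ⟨e1, e2⟩ := phiB_sign (m := m) h2 hd j
    have hne : QB m d (0, Pi.single j 1) ≠ 0 := by rw [e2]; exact hd j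
    rw [e1, invB, MonoidHom.prod_apply, dick_refl _ hne, spn_refl _ h2 hne, e2]
  have hprod : ∀ s : Finset (Fin k), sqSign (∏ i ∈ s, d i) = ∏ i ∈ s, sqSign (d i) := by
    intro s
    induction s using Finset.induction_on with
    | empty => simpa using sqSign_one
    | insert l s hl ih =>
      rw [Finset.prod_insert hl, Finset.prod_insert hl,
        sqSign_mul (hd l) (Finset.prod_ne_zero_iff.2 fun i _ => hd i), ih]
  let L : (Fin k → ℤˣ) →* ℤˣ × ℤˣ := (invB h2 hd).comp ((phiB m d).comp (MonoidHom.inr _ _))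
  change L (fun _ => -1) = _
  conv_lhs => rw [← Finset.univ_prod_mulSingle (fun _ : Fin k => (-1 : ℤˣ)), map_prod]
  rw [Finset.prod_congr rfl (fun j _ => show L (Pi.mulSingle j (-1)) = (-1, sqSign (d j)) from hone j), hprod]
  refine Prod.ext ?_ ?_
  · rw [Prod.fst_prod]; simp
  · rw [Prod.snd_prod]

theorem invB_psiB (h2 : (2 : F) ≠ 0) (hd : ∀ j, d j ≠ 0) (σ : Equiv.Perm (Fin m)) :
    invB h2 hd (psiB m d σ) = 1 := by
  induction σ using Equiv.Perm.swap_induction_on with
  | one => rw [map_one, map_one]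
  | swap_mul σ a b hab ih =>
    rw [map_mul, map_mul, ih, mul_one]
    let u : Fin 2 → VV F m k := fun c => (Pi.single a (Pi.single c 1) - Pi.single b (Pi.single c 1), 0)
    have hu : ∀ c, QB m d (u c) = 2 := fun c => by
      rw [QB_apply, Fintype.sum_eq_add a b hab (fun l hl => by
        simp [u, Pi.single_eq_of_ne hl.1, Pi.single_eq_of_ne hl.2])]
      fin_cases c <;> simp [u, hab, hab.symm, pl_apply] <;> ring
    have hp : ∀ c (p : VV F m k), polar (QB m d) p (u c) = 2 * (p.1 a c - p.1 b c) := fun c p => by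
      rw [polar_QB, Fintype.sum_eq_add a b hab (fun l hl => by
        simp [u, Pi.single_eq_of_ne hl.1, Pi.single_eq_of_ne hl.2, polar_zero_right])]
      fin_cases c <;> simp [u, hab, hab.symm, polar_pl] <;> ring
    have hu0 : ∀ c, QB m d (u c) ≠ 0 := fun c => by rw [hu]; exact h2
    have e : psiB m d (Equiv.swap a b) = refl (QB m d) (u 0) * refl (QB m d) (u 1) := by
      refine iso_ext fun p => ?_
      rw [Subgroup.coe_mul, LinearEquiv.mul_apply, refl_apply (hu0 0), refl_apply (hu0 1), psiB_apply,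
        hu, hu, hp, hp, mul_div_cancel_left₀ _ h2, mul_div_cancel_left₀ _ h2]
      refine Prod.ext (funext fun l => ?_) (by simp [u])
      rcases eq_or_ne l a with rfl | hla
      · ext c; fin_cases c <;> simp [u, hab, hab.symm]
      rcases eq_or_ne l b with rfl | hlb
      · ext c; fin_cases c <;> simp [u, hab, hab.symm]
      · simp [u, hla, hlb, Equiv.swap_apply_of_ne_of_ne]
    rw [e, map_mul, invB, MonoidHom.prod_apply, MonoidHom.prod_apply, dick_refl _ (hu0 0),
      dick_refl _ (hu0 1), spn_refl _ h2 (hu0 0), spn_refl _ h2 (hu0 1), hu, hu, Prod.mk_mul_mk,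
      Int.units_mul_self, Int.units_mul_self]
    rfl

/-- The criterion for Ω of a form isometric to `QB m d`. -/
theorem omega_sylow_good {ι : Type} [Fintype ι] [DecidableEq ι] (f : (ι → F) → F)
    (hF : Odd (Fintype.card F)) (hd : ∀ j, d j ≠ 0) (e : VV F m k ≃ₗ[F] (ι → F))
    (he : ∀ v, f (e v) = QB m d v) (hm : 3 ≤ m ∨ (m = 2 ∧ k = 0))
    (hcard : padicValNat 2 (Nat.card (Cfsg.isometryGroup F f)) =
      m * padicValNat 2 (Fintype.card F ^ 2 - 1) + k + padicValNat 2 m.factorial)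
    (P : Sylow 2 (Cfsg.Omega F f)) (x : (P : Subgroup (Cfsg.Omega F f))) :
    x ^ 2 ∈ commutator ↥(P : Subgroup (Cfsg.Omega F f)) := by
  have : Fact (Nat.Prime 2) := ⟨Nat.prime_two⟩
  have h2 := Cfsg.Agent.Lib.Classical.two_ne_zero_of_odd_card hF
  obtain ⟨T, r, hr, s, hs, hdr, hsr, hds, hss⟩ := exists_plane_sylow (F := F) h2
  obtain ⟨W, hWc, hWg, -⟩ := Cfsg.Agent.S4623.exists_good 2 m
  let TT : Subgroup ((Fin m → isoG (pl F)) × (Fin k → ℤˣ)) :=
    (Subgroup.pi Set.univ fun _ : Fin m => (T : Subgroup (isoG (pl F)))).prod ⊤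
  let χ := (invB h2 hd).comp (phiB m d)
  let E := isoEquiv f e he
  have hnd := nd_QB (m := m) h2 hd
  let i0 : Fin m := ⟨0, by omega⟩
  have hkerC : ∀ g, invB h2 hd g = 1 ↔ g ∈ commutator (isoG (QB m d)) := fun g => by
    rw [mem_commutator_iff hnd h2, invB, MonoidHom.prod_apply, Prod.mk_eq_one]
  have hsingle : ∀ (i : Fin m) (y : isoG (pl F)),
      χ (Pi.mulSingle i y, 1) = (dick (nd_pl h2) y, spn (nd_pl h2) y) := fun i y => by
    change invB h2 hd (phiB m d (Pi.mulSingle i y, 1)) = _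
    rw [invB_phiB, Fintype.prod_eq_single i (fun l hl => by rw [Pi.mulSingle_eq_of_ne hl, map_one]),
      Fintype.prod_eq_single i (fun l hl => by rw [Pi.mulSingle_eq_of_ne hl, map_one]), Pi.mulSingle_eq_same]
  have hTT : ∀ (i : Fin m), ∀ y ∈ (T : Subgroup (isoG (pl F))), ((Pi.mulSingle i y, 1) : _ × (Fin k → ℤˣ)) ∈ TT :=
    fun i y hy => ⟨fun l _ => by
      rcases eq_or_ne l i with rfl | hl
      · simpa using hy
      · simp [hl], trivial⟩
  have hsurj : TT.map χ = ⊤ := by
    refine top_le_iff.1 fun z _ => ?_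
    have h1 : ((-1, 1) : ℤˣ × ℤˣ) ∈ TT.map χ := ⟨_, hTT i0 s hs, by rw [hsingle, hds, hss]⟩
    have h3 : ((1, -1) : ℤˣ × ℤˣ) ∈ TT.map χ := ⟨_, hTT i0 r hr, by rw [hsingle, hdr, hsr]⟩
    obtain ⟨a, b⟩ := z
    rcases Int.units_eq_one_or a with rfl | rfl <;> rcases Int.units_eq_one_or b with rfl | rfl
    · exact one_mem _
    · exact h3
    · exact h1
    · simpa using mul_mem h1 h3
  have hKc : Nat.card ↥(TT ⊓ χ.ker) * 4 = Nat.card TT := by
    have h := Subgroup.card_mul_index (χ.domRestrict TT).ker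
    rw [Subgroup.index_ker, MonoidHom.domRestrict_range, hsurj, Subgroup.card_top,
      MonoidHom.ker_domRestrict] at h
    rw [Nat.card_prod, show Nat.card ℤˣ = 2 by simp] at h
    rw [← h, Nat.card_congr (β := ↥(χ.ker.subgroupOf TT))
      { toFun := fun y => ⟨⟨y.1, y.2.1⟩, y.2.2⟩
        invFun := fun y => ⟨y.1.1, y.1.2, y.2⟩
        left_inv := fun _ => rfl
        right_inv := fun _ => rfl }]
  refine sylow_good_semidirect_inj (E.toMonoidHom.comp (Cfsg.Omega F f).subtype)
    (E.injective.comp Subtype.val_injective) (phiB m d) (psiB m d)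
    (fun σ b => (fun i => b.1 (σ.symm i), b.2)) ?_ ?_ (TT ⊓ χ.ker) W hWg ?_ ?_ ?_ ?_ ?_ P x
  · intro σ b
    rw [mul_inv_eq_iff_eq_mul]
    exact iso_ext fun p => rfl
  · intro b σ h
    have h1 : ∀ p, (phiB m d b).1 ((psiB m d σ).1 p) = p := fun p => by
      rw [← LinearEquiv.mul_apply, ← Subgroup.coe_mul, h]; rfl
    have hσ : σ = 1 := Equiv.ext fun i => by_contra fun hi => by
      have := congrFun (congrArg Prod.fst (h1 (Pi.single i ![1, 0], 0))) (σ i)
      simp only [phiB_apply, psiB_apply, Equiv.symm_apply_apply, Pi.single_eq_same,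
        Pi.single_eq_of_ne (show σ i ≠ i by simpa using hi)] at this
      have h3 := congrFun ((b.1 (σ i)).1.injective (this.trans (map_zero (b.1 (σ i)).1).symm)) 0
      simp at h3
    subst hσ
    refine ⟨Prod.ext (funext fun i => iso_ext fun v => ?_) (funext fun j => ?_), rfl⟩
    · have := congrFun (congrArg Prod.fst (h1 (Pi.single i v, 0))) i
      simpa [phiB_apply, psiB_apply] using this
    · have := congrFun (congrArg Prod.snd (h1 (0, Pi.single j 1))) j
      simp [phiB_apply, psiB_apply, sgnU] at this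
      rcases Int.units_eq_one_or (b.2 j) with h3 | h3
      · simpa using h3
      · rw [h3] at this
        simp at this
        exact absurd (by linear_combination -this) h2
  · intro σ _ b hb
    refine ⟨⟨fun i _ => hb.1.1 _ trivial, trivial⟩, ?_⟩
    change invB h2 hd (phiB m d _) = 1
    rw [show phiB m d (fun i => b.1 (σ.symm i), b.2) = psiB m d σ * phiB m d b * (psiB m d σ)⁻¹ by
      rw [eq_mul_inv_iff_mul_eq]; exact iso_ext fun p => by
        refine Prod.ext (funext fun i => ?_) rfl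
        simp [phiB_apply, psiB_apply],
      map_mul, map_mul, map_inv, invB_psiB, show invB h2 hd (phiB m d b) = 1 from hb.2]
    simp
  · rintro _ ⟨b, hb, rfl⟩
    exact ⟨⟨E.symm (phiB m d b), (mem_omega_iff f e he _).2 (by
      rw [MulEquiv.apply_symm_apply]; exact (hkerC _).1 hb.2)⟩, E.apply_symm_apply _⟩
  · rintro _ ⟨σ, -, rfl⟩
    exact ⟨⟨E.symm (psiB m d σ), (mem_omega_iff f e he _).2 (by
      rw [MulEquiv.apply_symm_apply]; exact (hkerC _).1 (invB_psiB h2 hd σ))⟩, E.apply_symm_apply _⟩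
  · have hidx : (Cfsg.Omega F f).index = 4 := by
      rw [index_omega f e he, index_commutator_odd hnd h2]
      simp only [Module.finrank_prod, Module.finrank_pi_fintype, Module.finrank_self, Finset.sum_const,
        Finset.card_univ, Fintype.card_fin, smul_eq_mul, mul_one]
      omega
    have hN : padicValNat 2 (Nat.card (Cfsg.isometryGroup F f)) =
        padicValNat 2 (Nat.card (Cfsg.Omega F f)) + 2 := by
      rw [← Subgroup.card_mul_index (Cfsg.Omega F f), hidx, padicValNat.mul Nat.card_pos.ne' (by norm_num),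
        show (4 : ℕ) = 2 ^ 2 from rfl, padicValNat.prime_pow]
    have hTc : Nat.card TT = 2 ^ (m * padicValNat 2 (Fintype.card F ^ 2 - 1) + k) := by
      rw [Nat.card_congr (Subgroup.prodEquiv _ _).toEquiv, Nat.card_prod, card_pi_univ, sylow_two_card,
        v2_card_pl hF, Subgroup.card_top, Nat.card_fun, Nat.card_fin,
        show Nat.card ℤˣ = 2 by simp, ← pow_mul, pow_add, mul_comm _ m]
    refine Nat.eq_of_mul_eq_mul_right (show 0 < 4 by norm_num) ?_
    rw [mul_right_comm, hKc, hTc, hWc, Nat.factorization_def _ Nat.prime_two,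
      Nat.factorization_def _ Nat.prime_two, ← pow_add, show (4 : ℕ) = 2 ^ 2 from rfl, ← pow_add, ← hN, hcard]
  · intro H hK _ b hb
    have hTi : ∀ i, b.1 i ∈ (T : Subgroup (isoG (pl F))) := fun i => hb.1.1 i trivial
    have hsq : b ^ 2 = (b.1 ^ 2, 1) := Prod.ext rfl (funext fun j => Int.units_sq _)
    rw [← map_pow, hsq]
    let Z := (⁅H, H⁆.comap (phiB m d)).comap (MonoidHom.inl (Fin m → isoG (pl F)) (Fin k → ℤˣ))
    suffices b.1 ^ 2 ∈ Z from this
    have hmemK : ∀ y, y ∈ TT → χ y = 1 → phiB m d y ∈ H := fun y h1 h3 => hK ⟨y, ⟨h1, h3⟩, rfl⟩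
    rcases hm with hm | ⟨rfl, rfl⟩
    · refine Subgroup.pi_mem_of_mulSingle_mem _ fun i => ?_
      rw [Pi.pow_apply, pow_two]
      rcases Int.units_eq_one_or (dick (nd_pl h2) (b.1 i)) with hx | hx
      swap
      · rw [sq_eq_one_of_dick h2 hx, Pi.mulSingle_one]; exact one_mem Z
      obtain ⟨j, hji, l, hli, hlj⟩ : ∃ j, j ≠ i ∧ ∃ l, l ≠ i ∧ l ≠ j := by
        obtain ⟨j, hj⟩ := Fintype.exists_ne_of_one_lt_card (by rw [Fintype.card_fin]; omega) i
        have hlt : ({i, j} : Finset (Fin m)).card < Fintype.card (Fin m) := by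
          rw [Fintype.card_fin]; exact lt_of_le_of_lt Finset.card_le_two (by omega)
        obtain ⟨l, hl⟩ : ∃ l, l ∉ ({i, j} : Finset (Fin m)) := by
          by_contra! h
          exact absurd (Finset.card_le_card (s := Finset.univ) fun t _ => h t) (by rw [Finset.card_univ]; omega)
        simp at hl
        exact ⟨j, hj, l, hl.1, hl.2⟩
      obtain ⟨c, hc, hcd, hcs⟩ : ∃ c ∈ (T : Subgroup (isoG (pl F))), dick (nd_pl h2) c = 1 ∧
          spn (nd_pl h2) (b.1 i) * spn (nd_pl h2) c = 1 := by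
        rcases Int.units_eq_one_or (spn (nd_pl h2) (b.1 i)) with h | h
        · exact ⟨1, one_mem _, map_one _, by rw [h, map_one, one_mul]⟩
        · exact ⟨r, hr, hdr, by rw [h, hsr]; rfl⟩
      have h1 : phiB m d ((Pi.mulSingle i (b.1 i), 1) * (Pi.mulSingle l c, 1)) ∈ H := by
        refine hmemK _ (mul_mem (hTT i _ (hTi i)) (hTT l c hc)) ?_
        rw [map_mul, hsingle, hsingle, Prod.mk_mul_mk, hx, hcd, hcs]; simp
      have h3 : phiB m d ((Pi.mulSingle i s, 1) * (Pi.mulSingle j s, 1)) ∈ H := by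
        refine hmemK _ (mul_mem (hTT i s hs) (hTT j s hs)) ?_
        rw [map_mul, hsingle, hsingle, Prod.mk_mul_mk, hds, hss]; simp
      have h4 := Subgroup.commutator_mem_commutator h1 h3
      rw [← map_commutatorElement] at h4
      have hz : b.1 i * b.1 i = b.1 i * s * (b.1 i)⁻¹ * s⁻¹ := by
        rw [← inverts h2 hx hds]
        have hss2 := sq_eq_one_of_dick h2 hds
        have hinv' : s * (b.1 i)⁻¹ * s⁻¹ = b.1 i := by
          have := congrArg (·⁻¹) (inverts h2 hx hds)
          simpa [mul_assoc] using this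
        rw [show b.1 i * s * (s * b.1 i * s⁻¹) * s⁻¹ = b.1 i * ((s * s) * b.1 i * (s * s)⁻¹) by group, hss2]
        group
      change (phiB m d) (Pi.mulSingle i (b.1 i * b.1 i), 1) ∈ ⁅H, H⁆
      convert h4 using 2
      refine Prod.ext (funext fun t => ?_) (by simp [commutatorElement_def])
      simp only [commutatorElement_def, Prod.fst_mul, Prod.fst_inv, Pi.mul_apply, Pi.inv_apply]
      rcases eq_or_ne t i with rfl | hti
      · simp [hji.symm, hli.symm, hz]
      rcases eq_or_ne t j with rfl | htj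
      · simp [hti, hlj.symm]
      rcases eq_or_ne t l with rfl | htl
      · simp [hti, htj]
      · simp [hti, htj, htl]
    · have hdk : dick (nd_pl h2) (b.1 0) * dick (nd_pl h2) (b.1 1) = 1 := by
        have hb2 : invB h2 hd (phiB 2 d b) = 1 := hb.2
        rw [show b = (b.1, 1) from Prod.ext rfl (Subsingleton.elim _ _), invB_phiB, Prod.mk_eq_one,
          Fin.prod_univ_two] at hb2
        exact hb2.1
      rcases Int.units_eq_one_or (dick (nd_pl h2) (b.1 0)) with hx | hx
      · have hy : dick (nd_pl h2) (b.1 1) = 1 := by rw [hx, one_mul] at hdk; exact hdk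
        have h3 : phiB 2 d ((fun _ => s), 1) ∈ H := by
          refine hmemK _ ⟨fun _ _ => hs, trivial⟩ ?_
          change invB h2 hd (phiB 2 d ((fun _ => s), 1)) = 1
          rw [invB_phiB, Fin.prod_univ_two, Fin.prod_univ_two, hds, hss]; rfl
        have h1 : phiB 2 d b ∈ H := hK ⟨b, hb, rfl⟩
        have h4 := Subgroup.commutator_mem_commutator h1 h3
        rw [← map_commutatorElement] at h4
        change (phiB 2 d) (b.1 ^ 2, 1) ∈ ⁅H, H⁆
        convert h4 using 2
        refine Prod.ext (funext fun t => ?_) (Subsingleton.elim _ _)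
        have hxt : dick (nd_pl h2) (b.1 t) = 1 := by fin_cases t <;> assumption
        have hinv' : s * (b.1 t)⁻¹ * s⁻¹ = b.1 t := by
          have := congrArg (·⁻¹) (inverts h2 hxt hds)
          simpa [mul_assoc] using this
        simp only [commutatorElement_def, Prod.fst_mul, Prod.fst_inv, Pi.mul_apply, Pi.inv_apply, Pi.pow_apply]
        rw [show b.1 t * s * (b.1 t)⁻¹ * s⁻¹ = b.1 t * (s * (b.1 t)⁻¹ * s⁻¹) by group, hinv', pow_two]
      · have hy : dick (nd_pl h2) (b.1 1) = -1 := by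
          rw [hx, neg_mul, one_mul] at hdk; exact neg_eq_iff_eq_neg.1 hdk
        rw [show b.1 ^ 2 = 1 from funext fun t => by
          rw [Pi.pow_apply, pow_two]; fin_cases t
          · exact sq_eq_one_of_dick h2 hx
          · exact sq_eq_one_of_dick h2 hy]
        exact one_mem Z

end Cfsg.Agent.Lib.GS.Orth
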