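import Cfsg.Agent.Lib.GS.PPermDerived
import Cfsg.Agent.Lib.OddLocal.SCN
import Cfsg.Agent.Lib.Perm.Modules
import Mathlib.LinearAlgebra.Eigenspace.Pi
import Mathlib.LinearAlgebra.Eigenspace.Triangularizable
import Mathlib.FieldTheory.IsAlgClosed.Basic
import Mathlib.RepresentationTheory.Basic

/-!
# Derived length of linear `p`-groups
-/

set_option autoImplicit false
set_option linter.unusedSectionVars false

namespace Cfsg.Agent.Lib.GS.PLinearDerived

open Cfsg.Agent.Lib.GS.PPermDerived

universe u v w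

section Basic

variable {F : Type w} [Field F] {P : Type u} [Group P] {V : Type v} [AddCommGroup V] [Module F V]

/-- The action on an invariant subspace. -/
def sub (ρ : Representation F P V) (W : Submodule F V) (hW : ∀ g, ∀ x ∈ W, ρ g x ∈ W) :
    Representation F P W where
  toFun g := (ρ g).restrict (hW g)
  map_one' := LinearMap.ext fun x => Subtype.ext (by simp)
  map_mul' g h := LinearMap.ext fun x => Subtype.ext (by simp)

/-- The action on the quotient by an invariant subspace. -/
def quot (ρ : Representation F P V) (W : Submodule F V) (hW : ∀ g, ∀ x ∈ W, ρ g x ∈ W) :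
    Representation F P (V ⧸ W) where
  toFun g := W.mapQ W (ρ g) (hW g)
  map_one' := Submodule.linearMap_qext _ (LinearMap.ext fun x => by simp)
  map_mul' g h := Submodule.linearMap_qext _ (LinearMap.ext fun x => by simp)

/-- The term `k` of the derived series acts trivially. -/
def Acts (ρ : Representation F P V) (k : ℕ) : Prop := ∀ g ∈ derivedSeries P k, ρ g = 1

theorem deep {ρ : Representation F P V} {W : Submodule F V} {hW : ∀ g, ∀ x ∈ W, ρ g x ∈ W} {k : ℕ}
    (h1 : Acts (sub ρ W hW) k) (h2 : Acts (quot ρ W hW) k) {g : P} (hg : g ∈ derivedSeries P k) :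
    (∀ x ∈ W, ρ g x = x) ∧ ∀ x, ρ g x - x ∈ W := by
  refine ⟨fun x hx => congrArg Subtype.val (LinearMap.congr_fun (h1 g hg) ⟨x, hx⟩), fun x => ?_⟩
  have := LinearMap.congr_fun (h2 g hg) (Submodule.Quotient.mk x)
  exact (Submodule.Quotient.eq W).1 this

/-- Acting trivially on a subspace and on its quotient, the next derived term acts trivially. -/
theorem acts_succ {ρ : Representation F P V} {W : Submodule F V} {hW : ∀ g, ∀ x ∈ W, ρ g x ∈ W} {k : ℕ}
    (h1 : Acts (sub ρ W hW) k) (h2 : Acts (quot ρ W hW) k) : Acts ρ (k + 1) := by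
  suffices derivedSeries P (k + 1) ≤ (MonoidHom.ker ρ) from fun g hg => this hg
  rw [derivedSeries_succ, Subgroup.commutator_le]
  intro g hg h hh
  obtain ⟨g1, g2⟩ := deep h1 h2 hg
  obtain ⟨e1, e2⟩ := deep h1 h2 hh
  have hcomm : ρ (g * h) = ρ (h * g) := LinearMap.ext fun x => by
    simp only [map_mul, Module.End.mul_apply]
    have a : ρ g (ρ h x) = ρ g x + (ρ h x - x) := by
      conv_lhs => rw [show ρ h x = x + (ρ h x - x) by abel, map_add, g1 _ (e2 x)]
    have b : ρ h (ρ g x) = ρ h x + (ρ g x - x) := by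
      conv_lhs => rw [show ρ g x = x + (ρ g x - x) by abel, map_add, e1 _ (g2 x)]
    rw [a, b]; abel
  rw [MonoidHom.mem_ker, commutatorElement_def, show g * h * g⁻¹ * h⁻¹ = g * h * (h * g)⁻¹ by group,
    map_mul, hcomm, ← map_mul, mul_inv_cancel, map_one]

end Basic

/-- In characteristic `p` the derived length is at most the rounded up logarithm of the dimension. -/
theorem acts_char {F : Type w} [Field F] {p : ℕ} [Fact p.Prime] [CharP F p] : ∀ (k : ℕ) {P : Type u} [Group P]
    [Finite P], IsPGroup p P → ∀ {V : Type v} [AddCommGroup V] [Module F V] [FiniteDimensional F V]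
    (ρ : Representation F P V), Module.finrank F V ≤ 2 ^ k → Acts ρ k := by
  intro k
  induction k with
  | zero =>
    intro P _ _ hP V _ _ _ ρ hn g _
    by_cases hV : ∃ v : V, v ≠ 0
    · obtain ⟨v, hv⟩ := hV
      obtain ⟨w, -, hw0, hw⟩ := Cfsg.Agent.Lib.Perm.exists_fixed_of_pGroup hP ρ hv ⊤ trivial (fun _ _ _ => trivial)
      have hn1 : Module.finrank F V = 1 := by
        have : 0 < Module.finrank F V := Module.finrank_pos_iff_exists_ne_zero.2 ⟨w, hw0⟩
        rw [pow_zero] at hn; omega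
      ext x
      obtain ⟨c, rfl⟩ := (finrank_eq_one_iff_of_nonzero' w hw0).1 hn1 x
      simp [hw g]
    · push Not at hV
      ext x
      simp [hV x]
  | succ k ih =>
    intro P _ _ hP V _ _ _ ρ hn
    have hflag : ∀ m ≤ Module.finrank F V, ∃ W : Submodule F V,
        (∀ g, ∀ x ∈ W, ρ g x ∈ W) ∧ Module.finrank F W = m := by
      intro m
      induction m with
      | zero => exact fun _ => ⟨⊥, fun g x hx => by simp_all, finrank_bot F V⟩
      | succ m ihm =>
        intro hm
        obtain ⟨W, hW, hWm⟩ := ihm (by omega)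
        have hq : 0 < Module.finrank F (V ⧸ W) := by
          have := W.finrank_quotient_add_finrank; omega
        obtain ⟨q, hq0⟩ := Module.finrank_pos_iff_exists_ne_zero.1 hq
        obtain ⟨w, -, hw0, hw⟩ := Cfsg.Agent.Lib.Perm.exists_fixed_of_pGroup hP (quot ρ W hW) hq0 ⊤ trivial
          (fun _ _ _ => trivial)
        obtain ⟨v, rfl⟩ := Submodule.Quotient.mk_surjective W w
        have hvW : v ∉ W := fun h => hw0 ((Submodule.Quotient.mk_eq_zero W).2 h)
        have hv : ∀ g, ρ g v - v ∈ W := fun g => (Submodule.Quotient.eq W).1 (hw g)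
        refine ⟨W ⊔ Submodule.span F {v}, fun g x hx => ?_, ?_⟩
        · obtain ⟨a, ha, b, hb, rfl⟩ := Submodule.mem_sup.1 hx
          obtain ⟨c, rfl⟩ := Submodule.mem_span_singleton.1 hb
          rw [map_add, map_smul, show ρ g a + c • ρ g v = (ρ g a + c • (ρ g v - v)) + c • v by
            rw [smul_sub]; abel]
          exact Submodule.add_mem_sup (add_mem (hW g a ha) (W.smul_mem c (hv g)))
            (Submodule.smul_mem _ c (Submodule.mem_span_singleton_self v))
        · have hv0 : v ≠ 0 := fun h => hvW (h ▸ W.zero_mem)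
          have hinf : W ⊓ Submodule.span F {v} = ⊥ :=
            disjoint_iff.1 ((Submodule.disjoint_span_singleton' hv0).2 hvW)
          have h1 := Submodule.finrank_sup_add_finrank_inf_eq W (Submodule.span F {v})
          rw [hinf, finrank_bot, add_zero, hWm, finrank_span_singleton hv0] at h1
          exact h1
    obtain ⟨W, hW, hWm⟩ := hflag (Module.finrank F V / 2) (Nat.div_le_self _ _)
    have h2 := W.finrank_quotient_add_finrank
    rw [pow_succ] at hn
    exact acts_succ (ih hP (sub ρ W hW) (by omega)) (ih hP (quot ρ W hW) (by omega))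

/-- An irreducible linear `p`-group over an algebraically closed field. -/
theorem acts_irred {F : Type w} [Field F] [IsAlgClosed F] {p : ℕ} [Fact p.Prime] {P : Type u} [Group P] [Finite P]
    (hP : IsPGroup p P) {V : Type v} [AddCommGroup V] [Module F V] [FiniteDimensional F V]
    (ρ : Representation F P V) (hinj : Function.Injective ρ)
    (hirr : ∀ W : Submodule F V, (∀ g, ∀ x ∈ W, ρ g x ∈ W) → W = ⊥ ∨ W = ⊤) {k : ℕ}
    {b : ℕ} (hbp : b ≤ p) (hn : Module.finrank F V < b ^ (k + 1))
    (ih : ∀ (M : Subgroup P) (W : Submodule F V) (hW : ∀ g : M, ∀ x ∈ W, ρ g x ∈ W),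
      Module.finrank F W < b ^ k → Acts (sub (ρ.comp M.subtype) W hW) k) : Acts ρ (k + 1) := by
  classical
  by_cases hab : ∀ a b : P, a * b = b * a
  · intro g hg
    have : derivedSeries P (k + 1) ≤ ⊥ := by
      refine (derivedSeries_antitone P (show 1 ≤ k + 1 by omega)).trans ?_
      rw [derivedSeries_one, commutator_def, Subgroup.commutator_le]
      intro a _ b _
      rw [Subgroup.mem_bot, commutatorElement_eq_one_iff_mul_comm]
      exact hab a b
    rw [Subgroup.mem_bot.1 (this hg), map_one]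
  obtain ⟨A, -, hAn, hAc, hC⟩ :=
    Cfsg.Agent.Lib.OddLocal.exists_selfCentralizing_normal hP (⊥ : Subgroup P) inferInstance
  have hns : ¬ ∀ a ∈ A, ∃ c : F, ∀ x, ρ a x = c • x := by
    intro h
    apply hab
    have hall : ∀ g : P, g ∈ A := fun g => by
      rw [← hC, Subgroup.mem_centralizer_iff]
      intro a ha
      apply hinj
      obtain ⟨c, hc⟩ := h a ha
      ext x
      simp [hc, map_smul]
    intro a b
    exact congrArg Subtype.val (mul_comm' (⟨a, hall a⟩ : A) ⟨b, hall b⟩)
  have hV : Module.finrank F V ≠ 0 := by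
    intro h0
    apply hns
    intro a _
    have : Subsingleton V := Module.finrank_zero_iff.1 h0
    exact ⟨0, fun x => Subsingleton.elim _ _⟩
  have hcommA : ∀ a b : A, Commute (ρ a) (ρ b) := fun a b => by
    show ρ a * ρ b = ρ b * ρ a
    rw [← map_mul, ← map_mul, show (a : P) * b = b * a from congrArg Subtype.val (mul_comm' a b)]
  let E : (A → F) → Submodule F V := fun χ => ⨅ a : A, Module.End.eigenspace (ρ a) (χ a)
  have hE : ∀ {χ : A → F} {x : V}, x ∈ E χ ↔ ∀ a : A, ρ a x = χ a • x := fun {χ x} => by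
    simp [E, Submodule.mem_iInf]
  have hindep : iSupIndep E := by
    refine (Module.End.independent_iInf_maxGenEigenspace_of_forall_mapsTo (fun a : A => ρ a)
      fun a b φ => Module.End.mapsTo_maxGenEigenspace_of_comm (hcommA b a) φ).mono fun χ => ?_
    exact iInf_mono fun a => (Module.End.genEigenspace (ρ a) (χ a)).mono le_top
  -- a weight
  obtain ⟨χ, x₀, hx₀, hχ⟩ : ∃ (χ : A → F) (x : V), x ≠ 0 ∧ x ∈ E χ := by
    have hex : ∃ m : ℕ, ∃ U : Submodule F V, U ≠ ⊥ ∧ (∀ a : A, ∀ x ∈ U, ρ a x ∈ U) ∧ Module.finrank F U = m := by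
      refine ⟨_, ⊤, fun h => hV ?_, fun _ _ _ => trivial, rfl⟩
      rw [← finrank_top F V, h, finrank_bot]
    obtain ⟨U, hU0, hUinv, hUm⟩ := Nat.find_spec hex
    obtain ⟨x, hxU, hx0⟩ := (Submodule.ne_bot_iff U).1 hU0
    have hsc : ∀ a : A, ∃ c : F, ρ a x = c • x := by
      intro a
      have : Nontrivial U := Submodule.nontrivial_iff_ne_bot.2 hU0
      obtain ⟨c, hc⟩ := Module.End.exists_eigenvalue ((ρ a).restrict (hUinv a))
      obtain ⟨⟨y, hyU⟩, hy⟩ := hc.exists_hasEigenvector
      have hyc : ρ a y = c • y := congrArg Subtype.val (Module.End.mem_eigenspace_iff.1 hy.1)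
      let U' := U ⊓ Module.End.eigenspace (ρ a) c
      have hU'0 : U' ≠ ⊥ := (Submodule.ne_bot_iff U').2
        ⟨y, ⟨hyU, Module.End.mem_eigenspace_iff.2 hyc⟩, fun h => hy.2 (Subtype.ext h)⟩
      have hU'inv : ∀ b : A, ∀ z ∈ U', ρ b z ∈ U' := by
        rintro b z ⟨hz1, hz2⟩
        refine ⟨hUinv b z hz1, Module.End.mem_eigenspace_iff.2 ?_⟩
        rw [← Module.End.mul_apply, (hcommA a b).eq, Module.End.mul_apply, Module.End.mem_eigenspace_iff.1 hz2,
          map_smul]
      have hle := Nat.find_min' hex ⟨U', hU'0, hU'inv, rfl⟩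
      rw [← hUm] at hle
      have heq : U' = U := Submodule.eq_of_le_of_finrank_le inf_le_left hle
      exact ⟨c, Module.End.mem_eigenspace_iff.1 (show x ∈ U' by rw [heq]; exact hxU).2⟩
    choose χ hχ using hsc
    exact ⟨χ, x, hx0, hE.2 hχ⟩
  -- the action on the weights
  let act : P → (A → F) → A → F := fun g ψ a => ψ ⟨g⁻¹ * a * g, by simpa using hAn.conj_mem _ a.2 g⁻¹⟩
  have act_one : ∀ ψ, act 1 ψ = ψ := fun ψ => funext fun a => congrArg ψ (Subtype.ext (by simp))
  have act_mul : ∀ g h ψ, act (g * h) ψ = act g (act h ψ) := fun g h ψ =>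
    funext fun a => congrArg ψ (Subtype.ext (by simp [mul_assoc]))
  have hmove : ∀ g ψ x, x ∈ E ψ → ρ g x ∈ E (act g ψ) := by
    intro g ψ x hx
    rw [hE]
    intro a
    rw [← Module.End.mul_apply, ← map_mul, show (a : P) * g = g * (g⁻¹ * a * g) by group, map_mul,
      Module.End.mul_apply,
      show ρ (g⁻¹ * (a : P) * g) x = ψ ⟨g⁻¹ * a * g, by simpa using hAn.conj_mem _ a.2 g⁻¹⟩ • x from
        hE.1 hx ⟨g⁻¹ * a * g, by simpa using hAn.conj_mem _ a.2 g⁻¹⟩,
      map_smul]
  clear_value act E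
  let S : Subgroup P :=
    { carrier := {g | act g χ = χ}
      one_mem' := act_one χ
      mul_mem' := fun {g h} hg hh => by
        simp only [Set.mem_ofPred_eq] at hg hh ⊢
        rw [act_mul, hh, hg]
      inv_mem' := fun {g} hg => by
        simp only [Set.mem_ofPred_eq] at hg ⊢
        conv_lhs => rw [← hg, ← act_mul, inv_mul_cancel, act_one] }
  have hS : S ≠ ⊤ := by
    intro hS
    apply hns
    have htop : E χ = ⊤ := by
      refine (hirr (E χ) fun g x hx => ?_).resolve_left fun h => hx₀ ((Submodule.eq_bot_iff _).1 h _ hχ)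
      have := hmove g χ x hx
      rwa [show act g χ = χ from (hS ▸ Subgroup.mem_top g : g ∈ S)] at this
    exact fun a ha => ⟨χ ⟨a, ha⟩, fun x => hE.1 (htop ▸ Submodule.mem_top : x ∈ E χ) ⟨a, ha⟩⟩
  obtain ⟨M, hSM, hMi, hMn, hMc⟩ := exists_index_prime hP S hS
  obtain ⟨g₀, hg₀⟩ : ∃ g, g ∉ M := by
    by_contra h
    push Not at h
    rw [(top_unique fun g _ => h g : M = ⊤), Subgroup.index_top] at hMi
    exact (Fact.out (p := p.Prime)).one_lt.ne hMi
  let Φ : Set (A → F) := Set.range fun m : M => act m χ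
  let Ψ : ℕ → Set (A → F) := fun i => Set.range fun m : M => act (g₀ ^ i * m) χ
  have hpow : ∀ d : ℕ, 0 < d → d < p → g₀ ^ d ∉ M := by
    intro d hd0 hdp hd
    have ho : orderOf (QuotientGroup.mk' M g₀) = p := by
      have h1 : orderOf (QuotientGroup.mk' M g₀) ∣ p := by
        rw [← hMi, Subgroup.index_eq_card]; exact orderOf_dvd_natCard _
      refine ((Fact.out (p := p.Prime)).eq_one_or_self_of_dvd _ h1).resolve_left fun h => hg₀ ?_
      exact (QuotientGroup.eq_one_iff g₀).1 (orderOf_eq_one_iff.1 h)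
    have h2 : orderOf (QuotientGroup.mk' M g₀) ∣ d := orderOf_dvd_of_pow_eq_one (by
      rw [← map_pow]; exact (QuotientGroup.eq_one_iff _).2 hd)
    rw [ho] at h2
    exact absurd (Nat.le_of_dvd hd0 h2) (by omega)
  have hΨΨ : ∀ i j, i < j → j < p → Disjoint (Ψ i) (Ψ j) := by
    intro i j hij hj
    rw [Set.disjoint_left]
    rintro _ ⟨m, rfl⟩ ⟨m', hm'⟩
    apply hpow (j - i) (by omega) (by omega)
    have hmem : (g₀ ^ i * m)⁻¹ * (g₀ ^ j * m') ∈ M := hSM (by
      show act _ χ = χ
      rw [act_mul, show act (g₀ ^ j * m') χ = act (g₀ ^ i * m) χ from hm', ← act_mul, inv_mul_cancel, act_one])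
    rw [show (g₀ ^ i * (m : P))⁻¹ * (g₀ ^ j * m') = (m : P)⁻¹ * (g₀ ^ (j - i) * m') by
      conv_lhs => rw [show j = i + (j - i) by omega, pow_add]
      group] at hmem
    exact (Subgroup.mul_mem_cancel_right M m'.2).1 ((Subgroup.mul_mem_cancel_left M (inv_mem m.2)).1 hmem)
  let W : Submodule F V := ⨆ ψ ∈ Φ, E ψ
  have hWinv : ∀ m : M, ∀ x ∈ W, ρ m x ∈ W := by
    intro m
    suffices W ≤ W.comap (ρ m) from fun x hx => this hx
    refine iSup₂_le fun ψ hψ x hx => ?_
    obtain ⟨m', rfl⟩ := hψ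
    exact (le_biSup E (⟨m * m', act_mul m m' χ⟩ : act m (act m' χ) ∈ Φ)) (hmove m _ x hx)
  have hWg : ∀ i, W.map (ρ (g₀ ^ i)) ≤ ⨆ ψ ∈ Ψ i, E ψ := fun i => by
    rw [Submodule.map_le_iff_le_comap]
    refine iSup₂_le fun ψ hψ x hx => ?_
    obtain ⟨m', rfl⟩ := hψ
    exact (le_biSup E (⟨m', act_mul (g₀ ^ i) m' χ⟩ : act (g₀ ^ i) (act m' χ) ∈ Ψ i)) (hmove (g₀ ^ i) _ x hx)
  have hcount : ∀ j, j ≤ p → j * Module.finrank F W ≤
      Module.finrank F ↥(⨆ ψ ∈ {ψ | ∃ i < j, ψ ∈ Ψ i}, E ψ) := by
    intro j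
    induction j with
    | zero => simp
    | succ j ihj =>
      intro hj
      have hfin : ({ψ | ∃ i < j, ψ ∈ Ψ i} : Set (A → F)).Finite := by
        refine ((Set.finite_lt_nat j).biUnion fun i _ => Set.finite_range fun m : M => act (g₀ ^ i * m) χ).subset ?_
        rintro ψ ⟨i, hi, hψ⟩
        exact Set.mem_biUnion hi hψ
      have hdisj : Disjoint (⨆ ψ ∈ {ψ | ∃ i < j, ψ ∈ Ψ i}, E ψ) (⨆ ψ ∈ Ψ j, E ψ) :=
        hindep.disjoint_biSup_biSup' (Set.disjoint_left.2 fun ψ ⟨i, hi, hψ⟩ hψ' =>
          Set.disjoint_left.1 (hΨΨ i j hi (by omega)) hψ hψ') hfin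
      have h1 := Submodule.finrank_add_finrank_le_of_disjoint (hdisj.mono_right (hWg j))
      have hinj' : Function.Injective (ρ (g₀ ^ j)) := fun x y h => by
        have := congrArg (ρ (g₀ ^ j)⁻¹) h
        rw [← Module.End.mul_apply, ← Module.End.mul_apply, ← map_mul, inv_mul_cancel, map_one] at this
        exact this
      have h2 := Submodule.finrank_sup_add_finrank_inf_eq (⨆ ψ ∈ {ψ | ∃ i < j, ψ ∈ Ψ i}, E ψ)
        (W.map (ρ (g₀ ^ j)))
      rw [(hdisj.mono_right (hWg j)).eq_bot, finrank_bot, add_zero,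
        ← (Submodule.equivMapOfInjective (ρ (g₀ ^ j)) hinj' W).finrank_eq] at h2
      have h3 : (⨆ ψ ∈ {ψ | ∃ i < j, ψ ∈ Ψ i}, E ψ) ⊔ W.map (ρ (g₀ ^ j)) ≤
          ⨆ ψ ∈ {ψ | ∃ i < j + 1, ψ ∈ Ψ i}, E ψ := by
        refine sup_le (biSup_mono fun ψ ⟨i, hi, hψ⟩ => ⟨i, by omega, hψ⟩) ((hWg j).trans ?_)
        exact biSup_mono fun ψ hψ => ⟨j, by omega, hψ⟩
      refine le_trans ?_ (Submodule.finrank_mono h3)
      rw [h2, add_mul, one_mul]
      exact Nat.add_le_add_right (ihj (by omega)) _
  have hdim : Module.finrank F W < b ^ k := by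
    have h1 := (hcount p le_rfl).trans (Submodule.finrank_le _)
    rw [pow_succ] at hn
    by_contra h
    push Not at h
    have := Nat.mul_le_mul hbp h
    rw [mul_comm (b ^ k)] at hn
    omega
  have hD := ih M W hWinv hdim
  let D := (derivedSeries M k).map M.subtype
  have hDn : D.Normal := by
    have := derivedSeries_characteristic M k
    exact ConjAct.normal_of_characteristic_of_normal
  let Fix : Submodule F V := ⨅ d ∈ D, Module.End.eigenspace (ρ d) 1
  have hFix : ∀ {x : V}, x ∈ Fix ↔ ∀ d ∈ D, ρ d x = x := fun {x} => by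
    simp [Fix, Submodule.mem_iInf]
  have hWF : W ≤ Fix := fun x hx => hFix.2 fun d hd => by
    obtain ⟨m, hm, rfl⟩ := hd
    exact congrArg Subtype.val (LinearMap.congr_fun (hD m hm) ⟨x, hx⟩)
  have hFtop : Fix = ⊤ := by
    refine (hirr Fix fun g x hx => hFix.2 fun d hd => ?_).resolve_left fun h => hx₀ ?_
    · rw [← Module.End.mul_apply, ← map_mul, show d * g = g * (g⁻¹ * d * g) by group, map_mul,
        Module.End.mul_apply, hFix.1 hx _ (by simpa using hDn.conj_mem d hd g⁻¹)]
    · exact (Submodule.eq_bot_iff _).1 h _ (hWF (le_biSup E (⟨1, act_one χ⟩ : χ ∈ Φ) hχ))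
  intro g hg
  exact LinearMap.ext fun x => hFix.1 (hFtop ▸ Submodule.mem_top : x ∈ Fix) g (derived_succ_le M hMc k hg)

/-- Over an algebraically closed field of characteristic not `p`, a `p`-group of degree below `b^k`, for `b ≤ p`, has derived length at most `k`. -/
theorem acts_closed {F : Type w} [Field F] [IsAlgClosed F] {p : ℕ} [Fact p.Prime] (hpF : (p : F) ≠ 0)
    (b : ℕ) (hbp : b ≤ p) :
    ∀ (k n : ℕ) {P : Type u} [Group P] [Finite P], IsPGroup p P →
    ∀ {V : Type v} [AddCommGroup V] [Module F V] [FiniteDimensional F V] (ρ : Representation F P V),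
      Module.finrank F V = n → n < b ^ k → Acts ρ k := by
  intro k
  induction k with
  | zero =>
    intro n P _ _ _ V _ _ _ ρ hn hlt g _
    have h0 : Module.finrank F V = 0 := by rw [pow_zero] at hlt; omega
    have : Subsingleton V := Module.finrank_zero_iff.1 h0
    exact LinearMap.ext fun x => Subsingleton.elim _ _
  | succ k ih =>
    intro n
    induction n using Nat.strong_induction_on with
    | _ n ihn =>
    intro P _ _ hP V _ _ _ ρ hn hlt
    by_cases hirr : ∀ W : Submodule F V, (∀ g, ∀ x ∈ W, ρ g x ∈ W) → W = ⊥ ∨ W = ⊤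
    · -- pass to the faithful quotient
      let N : Subgroup P := MonoidHom.ker ρ
      let σ : Representation F (P ⧸ N) V := QuotientGroup.lift N ρ le_rfl
      have hσmk : ∀ g : P, σ (g : P ⧸ N) = ρ g := fun g => rfl
      have hσ : Function.Injective σ := by
        intro a b
        refine QuotientGroup.induction_on a fun a => QuotientGroup.induction_on b fun b h => ?_
        rw [hσmk, hσmk] at h
        rw [QuotientGroup.eq]
        show ρ (a⁻¹ * b) = 1
        rw [map_mul, ← h, ← map_mul, inv_mul_cancel, map_one]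
      intro g hg
      have hq : (g : P ⧸ N) ∈ derivedSeries (P ⧸ N) (k + 1) :=
        map_derivedSeries_le_derivedSeries (QuotientGroup.mk' N) (k + 1) ⟨g, hg, rfl⟩
      rw [← hσmk]
      refine acts_irred (hP.to_quotient N) σ hσ (fun W hW => hirr W fun g x hx => hW (g : P ⧸ N) x hx)
        hbp (hn ▸ hlt) (fun M W hW hd => ih _ ((hP.to_quotient N).to_subgroup M) _ rfl hd) _ hq
    · push Not at hirr
      obtain ⟨W, hW, hW0, hW1⟩ := hirr
      have h2 := W.finrank_quotient_add_finrank
      have hlt1 : Module.finrank F W < n := hn ▸ Submodule.finrank_lt hW1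
      have hpos : 0 < Module.finrank F W :=
        Nat.pos_of_ne_zero fun h => hW0 (Submodule.finrank_eq_zero.1 h)
      intro g hg
      obtain ⟨g1, g2⟩ := deep (k := k + 1) (ihn _ hlt1 hP (sub ρ W hW) rfl (by omega))
        (ihn _ (by omega) hP (quot ρ W hW) rfl (by omega)) hg
      obtain ⟨j, hj⟩ := hP g
      have hpow : ∀ (i : ℕ) (x : V), ρ (g ^ i) x = x + i • (ρ g x - x) := by
        intro i x
        induction i with
        | zero => simp
        | succ i ihi =>
          rw [pow_succ', map_mul, Module.End.mul_apply, ihi, map_add, map_nsmul, g1 _ (g2 x), succ_nsmul]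
          abel
      ext x
      have h := hpow (p ^ j) x
      rw [hj, map_one, Module.End.one_apply] at h
      have h0 : ((p ^ j : ℕ) : F) • (ρ g x - x) = 0 := by
        rw [Nat.cast_smul_eq_nsmul]
        exact add_left_cancel (a := x) (by rw [← h, add_zero])
      rcases smul_eq_zero.1 h0 with h3 | h3
      · exact absurd (by exact_mod_cast h3) (pow_ne_zero j hpF)
      · exact sub_eq_zero.1 h3

end Cfsg.Agent.Lib.GS.PLinearDerived
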