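import Mathlib.GroupTheory.Sylow
import Mathlib.GroupTheory.Solvable
import Mathlib.GroupTheory.Nilpotent
import Mathlib.GroupTheory.GroupAction.Quotient
import Mathlib.GroupTheory.SpecificGroups.Cyclic

/-!
# Derived length of permutation `p`-groups
-/

set_option autoImplicit false

namespace Cfsg.Agent.Lib.GS.PPermDerived

/-- Derived terms of a group lie in derived terms of a subgroup containing its derived subgroup. -/
theorem derived_succ_le {P : Type*} [Group P] (M : Subgroup P) (hM : commutator P ≤ M) :
    ∀ i, derivedSeries P (i + 1) ≤ (derivedSeries M i).map M.subtype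
  | 0 => by
    rw [derivedSeries_one, derivedSeries_zero, ← MonoidHom.range_eq_map, Subgroup.range_subtype]
    exact hM
  | i + 1 => by
    rw [derivedSeries_succ P (i + 1), derivedSeries_succ M i, Subgroup.map_commutator]
    exact Subgroup.commutator_mono (derived_succ_le M hM i) (derived_succ_le M hM i)

/-- A proper subgroup of a finite `p`-group lies in a normal subgroup of index `p` containing the derived subgroup. -/
theorem exists_index_prime {P : Type*} [Group P] [Finite P] {p : ℕ} [Fact p.Prime] (hP : IsPGroup p P)
    (S : Subgroup P) (hS : S ≠ ⊤) : ∃ M : Subgroup P, S ≤ M ∧ M.index = p ∧ M.Normal ∧ commutator P ≤ M := by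
  obtain ⟨M, hM, hSM⟩ := (eq_top_or_exists_le_coatom S).resolve_left hS
  have : Group.IsNilpotent P := hP.isNilpotent
  have hMn : M.Normal :=
    Subgroup.NormalizerCondition.normal_of_coatom M Group.normalizerCondition_of_isNilpotent hM
  obtain ⟨k, hk⟩ := hP.index M
  have hk0 : k ≠ 0 := fun h => hM.1 (Subgroup.index_eq_one.1 (by rw [hk, h, pow_zero]))
  have hk1 : k = 1 := by
    by_contra h
    have hdvd : p ∣ Nat.card (P ⧸ M) := by
      rw [← Subgroup.index_eq_card, hk]; exact dvd_pow_self p hk0
    obtain ⟨x, hx⟩ := exists_prime_orderOf_dvd_card' p hdvd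
    have hlt : M < (Subgroup.zpowers x).comap (QuotientGroup.mk' M) := by
      obtain ⟨y, rfl⟩ := QuotientGroup.mk'_surjective M x
      refine SetLike.lt_iff_le_and_exists.2 ⟨fun m hm => ?_, y, Subgroup.mem_zpowers _, fun hy => ?_⟩
      · rw [Subgroup.mem_comap, show QuotientGroup.mk' M m = 1 from (QuotientGroup.eq_one_iff m).2 hm]
        exact one_mem _
      · rw [show QuotientGroup.mk' M y = 1 from (QuotientGroup.eq_one_iff y).2 hy, orderOf_one] at hx
        exact (Fact.out (p := p.Prime)).one_lt.ne hx
    have htop := hM.2 _ hlt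
    have hc : Nat.card (P ⧸ M) = p := by
      rw [← hx, ← Nat.card_zpowers, ← Subgroup.card_top]
      congr 2
      rw [← Subgroup.map_comap_eq_self_of_surjective (QuotientGroup.mk'_surjective M) (Subgroup.zpowers x), htop,
        Subgroup.map_top_of_surjective _ (QuotientGroup.mk'_surjective M)]
    rw [← Subgroup.index_eq_card, hk] at hc
    exact h (Nat.pow_right_injective (Fact.out (p := p.Prime)).two_le (by simpa using hc))
  refine ⟨M, hSM, by rw [hk, hk1, pow_one], hMn, ?_⟩
  have : IsCyclic (P ⧸ M) := isCyclic_of_prime_card (p := p) (by rw [← Subgroup.index_eq_card, hk, hk1, pow_one])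
  exact Subgroup.Normal.quotient_commutative_iff_commutator_le.1
    this.isMulCommutative

universe u v

/-- The `k`-th derived subgroup of a `p`-group fixes every point whose orbit has fewer than `p^(k+1)` elements. -/
theorem derived_fix {p : ℕ} [Fact p.Prime] : ∀ (k : ℕ) {P : Type u} [Group P] [Finite P], IsPGroup p P →
    ∀ {X : Type v} [MulAction P X] (x : X), Nat.card (MulAction.orbit P x) < p ^ (k + 1) →
      ∀ g ∈ derivedSeries P k, g • x = x := by
  intro k
  induction k with
  | zero =>
    intro P _ _ hP X _ x hlt g _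
    have : Finite (MulAction.orbit P x) := (Set.finite_range fun g : P => g • x).to_subtype
    have := hP.card_orbit x
    obtain ⟨j, hj⟩ := this
    have hj0 : j = 0 := by
      by_contra h
      have := Nat.le_self_pow h p
      rw [hj, zero_add, pow_one] at hlt
      omega
    rw [hj0, pow_zero, Nat.card_eq_one_iff_unique] at hj
    exact congrArg Subtype.val (hj.1.elim ⟨g • x, MulAction.mem_orbit x g⟩ ⟨x, MulAction.mem_orbit_self x⟩)
  | succ k ih =>
    intro P _ _ hP X _ x hlt g hg
    by_cases hS : MulAction.stabilizer P x = ⊤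
    · exact MulAction.mem_stabilizer_iff.1 (hS ▸ Subgroup.mem_top g)
    obtain ⟨M, hSM, hidx, hMn, hcomm⟩ := exists_index_prime hP _ hS
    obtain ⟨⟨m, hm⟩, hmk, rfl⟩ := derived_succ_le M hcomm k hg
    refine ih (hP.to_subgroup M) x ?_ ⟨m, hm⟩ hmk
    have hp : 0 < p := (Fact.out (p := p.Prime)).pos
    have h1 : Nat.card (MulAction.orbit M x) = (MulAction.stabilizer P x).relIndex M := by
      rw [Subgroup.relIndex, Nat.card_congr (MulAction.orbitEquivQuotientStabilizer M x), ← Subgroup.index_eq_card]
      rfl
    have h2 : Nat.card (MulAction.orbit P x) = (MulAction.stabilizer P x).relIndex M * p := by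
      rw [Nat.card_congr (MulAction.orbitEquivQuotientStabilizer P x), ← Subgroup.index_eq_card,
        ← Subgroup.relIndex_mul_index hSM, hidx]
    rw [h1]
    rw [h2, pow_succ] at hlt
    exact Nat.lt_of_mul_lt_mul_right hlt

/-- The derived length of a permutation `p`-group is at most the logarithm of the degree. -/
theorem derived_le_ker {p : ℕ} [Fact p.Prime] {P : Type u} [Group P] [Finite P] (hP : IsPGroup p P) {X : Type v}
    [Finite X] (f : P →* Equiv.Perm X) (k : ℕ) (hX : Nat.card X < p ^ (k + 1)) : derivedSeries P k ≤ f.ker := by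
  intro g hg
  let _ : MulAction P X := MulAction.compHom X f
  rw [MonoidHom.mem_ker]
  ext x
  exact derived_fix k hP x ((Nat.card_le_card_of_injective _ Subtype.val_injective).trans_lt hX) g hg

end Cfsg.Agent.Lib.GS.PPermDerived
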