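import Cfsg.Agent.Lib.GS.Basic
import Cfsg.Agent.Lib.GS.Sylow
import Cfsg.Agent.Lib.Coprime.Action

/-! Extensions of π-closed groups under π'-homogeneity. -/

set_option autoImplicit false

namespace Cfsg.Agent.Lib.GS

open Subgroup
open scoped Pointwise

/-- All prime divisors of `n` lie in `π`. -/
def PiNat (π : Set ℕ) (n : ℕ) : Prop := ∀ p : ℕ, p.Prime → p ∣ n → p ∈ π

theorem PiNat.of_dvd {π : Set ℕ} {m n : ℕ} (h : PiNat π n) (hd : m ∣ n) : PiNat π m :=
  fun p hp hpm => h p hp (hpm.trans hd)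

theorem PiNat.mul {π : Set ℕ} {m n : ℕ} (h : PiNat π m) (h' : PiNat π n) : PiNat π (m * n) :=
  fun p hp hd => (hp.dvd_mul.mp hd).elim (h p hp) (h' p hp)

theorem PiNat.coprime {π : Set ℕ} {m n : ℕ} (h : PiNat π m) (h' : ∀ p : ℕ, p.Prime → p ∣ n → p ∉ π) :
    m.Coprime n :=
  Nat.coprime_of_dvd fun p hp hm hn => h' p hp hn (h p hp hm)

variable {G : Type*} [Group G] [Finite G]

theorem piNat_card {π : Set ℕ} {H : Subgroup G} (h : ∀ x ∈ H, PiNat π (orderOf x)) :
    PiNat π (Nat.card H) := fun p hp hd => by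
  haveI := Fact.mk hp
  obtain ⟨x, hx⟩ := exists_prime_orderOf_dvd_card' p hd
  exact h x x.2 p hp (by rw [Subgroup.orderOf_coe, hx])

theorem eq_top_of_piNat_index {π : Set ℕ} {N : Subgroup G} [N.Normal] {x : G}
    (h : PiNat π (orderOf x)) (hN : ∀ p : ℕ, p.Prime → p ∣ Nat.card (G ⧸ N) → p ∉ π) : x ∈ N := by
  rw [← QuotientGroup.eq_one_iff, ← orderOf_eq_one_iff]
  exact Nat.eq_one_of_dvd_coprimes (h.coprime hN) (orderOf_map_dvd (QuotientGroup.mk' N) x)
    (_root_.orderOf_dvd_natCard (x : G ⧸ N))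

/-- Homogeneity passes to elements: a `q`-element normalising an `r`-group centralises it. -/
theorem mem_centralizer_of_hom {π : Set ℕ}
    (hhom : ∀ H : Subgroup G, H ≠ ⊥ → (∀ p : ℕ, p.Prime → p ∣ Nat.card ↥H → p ∉ π) →
      ∀ p : ℕ, p.Prime → p ∣ (centralizer (H : Set G)).relIndex (normalizer (H : Set G)) → p ∉ π)
    {q b : ℕ} (hq : q.Prime) (hqπ : q ∈ π) {R : Subgroup G}
    (hR : ∀ p : ℕ, p.Prime → p ∣ Nat.card ↥R → p ∉ π) {x : G} (hx : orderOf x = q ^ b)
    (hxN : x ∈ normalizer (R : Set G)) : x ∈ centralizer (R : Set G) := by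
  rcases eq_or_ne R ⊥ with rfl | hR0
  · rw [mem_centralizer_iff]
    intro h hh
    rw [mem_bot.mp hh, one_mul, mul_one]
  set N := normalizer (R : Set G)
  haveI : ((centralizer (R : Set G)).subgroupOf N).Normal := by
    refine ⟨fun c hc n => ?_⟩
    rw [mem_subgroupOf, mem_centralizer_iff] at hc ⊢
    intro r hr
    have h1 := hc ((n : G)⁻¹ * r * n) ((mem_normalizer_iff''.mp n.2 r).mp hr)
    have h2 := congrArg (fun t => (n : G) * t * (n : G)⁻¹) h1
    simpa [mul_assoc] using h2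
  have hd : orderOf (QuotientGroup.mk' ((centralizer (R : Set G)).subgroupOf N) ⟨x, hxN⟩) ∣ q ^ b :=
    (orderOf_map_dvd _ _).trans (by rw [orderOf_mk, hx])
  obtain ⟨j, -, hj⟩ := (Nat.dvd_prime_pow hq).mp hd
  rcases j with _ | j
  · rw [pow_zero, orderOf_eq_one_iff] at hj
    exact mem_subgroupOf.mp ((QuotientGroup.eq_one_iff _).mp hj)
  · exfalso
    refine hhom R hR0 hR q hq ?_ hqπ
    rw [Subgroup.relIndex, Subgroup.index_eq_card]
    exact ((dvd_pow_self q j.succ_ne_zero).trans (dvd_of_eq hj.symm)).trans (_root_.orderOf_dvd_natCard _)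

/-- A `q`-element normalising `L ⊔ R` has a translate normalising `R`. -/
theorem exists_translate (L : Subgroup G) [L.Normal] {r : ℕ} [Fact r.Prime] {q b : ℕ} (hq : q.Prime)
    (hrL : ¬ r ∣ Nat.card L) {R : Subgroup G} (hR : IsPGroup r R) {x : G} (hx : orderOf x = q ^ b)
    (hxW : x ∈ normalizer ((L ⊔ R : Subgroup G) : Set G)) :
    ∃ x' : G, (∃ b' : ℕ, orderOf x' = q ^ b') ∧ x' ∈ normalizer (R : Set G) ∧
      x⁻¹ * x' ∈ L ⊔ R := by
  classical
  set W := L ⊔ R
  set V := Subgroup.zpowers x ⊔ W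
  haveI hWn : (W.subgroupOf V).Normal := Subgroup.normal_subgroupOf_iff_le_normalizer le_sup_right |>.mpr
    (sup_le (zpowers_le.mpr hxW) le_normalizer)
  -- `R` is a Sylow subgroup of `W`
  have hRW : R.subgroupOf W ≤ ⊤ := le_top
  have hcardW : Nat.card W ∣ Nat.card L * Nat.card R := by
    have h1 := Cfsg.Agent.Lib.Coprime.card_sup_mul_card_inf_of_le_normalizer
      (show R ≤ normalizer (L : Set G) by
        rw [Subgroup.normalizer_eq_top_iff.mpr ‹L.Normal›]; exact le_top)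
    rw [sup_comm R L] at h1
    exact Dvd.intro _ (h1.trans (mul_comm _ _))
  obtain ⟨n, hn⟩ := IsPGroup.iff_card.mp hR
  have hRsyl : Nat.card (R.subgroupOf W) = r ^ (Nat.card W).factorization r := by
    rw [Nat.card_congr (Subgroup.subgroupOfEquivOfLe (le_sup_right : R ≤ W)).toEquiv, hn]
    congr 1
    have hr : r.Prime := Fact.out
    refine le_antisymm ?_ ?_
    · exact (hr.pow_dvd_iff_le_factorization Nat.card_pos.ne').mp
        (hn ▸ Subgroup.card_dvd_of_le (le_sup_right : R ≤ W))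
    · have h1 := (Nat.factorization_le_iff_dvd Nat.card_pos.ne'
        (mul_ne_zero Nat.card_pos.ne' Nat.card_pos.ne')).mpr hcardW r
      rw [Nat.factorization_mul Nat.card_pos.ne' Nat.card_pos.ne', Finsupp.add_apply,
        Nat.factorization_eq_zero_of_not_dvd hrL, hn, hr.factorization_pow, Finsupp.single_eq_same,
        zero_add] at h1
      exact h1
  let S : Sylow r W := Sylow.ofCard _ hRsyl
  have hU : (MulAut.conj x • R).subgroupOf W ≤ ⊤ := le_top
  have hRx : MulAut.conj x • R ≤ W := by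
    refine (Subgroup.pointwise_smul_le_pointwise_smul_iff.mpr (le_sup_right : R ≤ W)).trans ?_
    exact (Cfsg.Agent.Lib.Coprime.conj_smul_eq_self hxW).le
  obtain ⟨w, hw, hwR⟩ := Cfsg.Agent.Lib.Coprime.exists_mem_conj_eq_of_sylow (K := W) S hRx (by
    rw [Cfsg.Agent.Lib.Coprime.card_conj_smul,
      ← Nat.card_congr (Subgroup.subgroupOfEquivOfLe (le_sup_right : R ≤ W)).toEquiv]
    rfl)
  rw [show (S : Subgroup W).map W.subtype = R from Subgroup.map_subgroupOf_eq_of_le le_sup_right] at hwR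
  set g := w⁻¹ * x
  have hgR : g ∈ normalizer (R : Set G) := by
    refine Cfsg.Agent.Lib.Coprime.mem_normalizer_of_conj_smul_eq ?_
    rw [show g = w⁻¹ * x from rfl, map_mul, ← smul_smul, ← hwR, smul_smul, ← map_mul,
      inv_mul_cancel, map_one, one_smul]
  have hgV : g ∈ V := V.mul_mem (V.inv_mem (mem_sup_right hw)) (mem_sup_left (mem_zpowers x))
  set ψ := QuotientGroup.mk' (W.subgroupOf V)
  have hψ : ψ ⟨g, hgV⟩ = ψ ⟨x, mem_sup_left (mem_zpowers x)⟩ := by
    have : (⟨g, hgV⟩ : V) = (⟨w⁻¹, V.inv_mem (mem_sup_right hw)⟩ : V) * ⟨x, mem_sup_left (mem_zpowers x)⟩ :=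
      Subtype.ext rfl
    rw [this, map_mul, show ψ (⟨w⁻¹, _⟩ : V) = 1 from
      (QuotientGroup.eq_one_iff _).mpr (mem_subgroupOf.mpr (W.inv_mem hw)), one_mul]
  -- the `q`-part of `g`
  set e := (orderOf g).factorization q
  set m := ordCompl[q] (orderOf g)
  have hcop : Nat.Coprime m (q ^ b) :=
    ((Nat.coprime_ordCompl hq (orderOf_pos g).ne').symm).pow_right b
  obtain ⟨u, hu1, hu2⟩ := Nat.chineseRemainder hcop 0 1
  refine ⟨g ^ u, ?_, pow_mem hgR u, ?_⟩
  · obtain ⟨t, ht⟩ := Nat.modEq_zero_iff_dvd.mp hu1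
    have h2 : orderOf (g ^ u) ∣ q ^ e := by
      refine orderOf_dvd_of_pow_eq_one ?_
      rw [ht, ← pow_mul, show m * t * q ^ e = q ^ e * m * t by ring]
      simp only [e, m]
      rw [Nat.ordProj_mul_ordCompl_eq_self, pow_mul, pow_orderOf_eq_one, one_pow]
    obtain ⟨j, -, hj⟩ := (Nat.dvd_prime_pow hq).mp h2
    exact ⟨j, hj⟩
  · have h3 : ψ (⟨g, hgV⟩ ^ u) = ψ ⟨x, mem_sup_left (mem_zpowers x)⟩ := by
      rw [map_pow, hψ, ← map_pow]
      congr 1
      refine Subtype.ext ?_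
      show x ^ u = x
      conv_rhs => rw [← pow_one x]
      exact pow_eq_pow_iff_modEq.mpr (hx ▸ hu2)
    exact mem_subgroupOf.mp (QuotientGroup.eq.mp h3.symm)

/-- The extension step. -/
theorem exists_pi_subgroup {π : Set ℕ}
    (hhom : ∀ H : Subgroup G, H ≠ ⊥ → (∀ p : ℕ, p.Prime → p ∣ Nat.card ↥H → p ∉ π) →
      ∀ p : ℕ, p.Prime → p ∣ (centralizer (H : Set G)).relIndex (normalizer (H : Set G)) → p ∉ π)
    (L K M : Subgroup G) [L.Normal] [K.Normal] [M.Normal] (hLK : L ≤ K) (hKM : K ≤ M)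
    (hL : PiNat π (Nat.card L)) (hKL : ∀ p : ℕ, p.Prime → p ∣ L.relIndex K → p ∉ π)
    (hMK : PiNat π (K.relIndex M)) :
    ∃ J : Subgroup G, ∀ x : G, x ∈ J ↔ x ∈ M ∧ PiNat π (orderOf x) := by
  classical
  set f := QuotientGroup.mk' L
  set Kb := K.map f
  set Mb := M.map f
  have hKbn : Kb.Normal := ‹K.Normal›.map f (QuotientGroup.mk'_surjective L)
  have hker : ∀ X : Subgroup G, L.relIndex X = Nat.card (X.map f) := fun X => by
    have h := Subgroup.relIndex_ker (K := X) f
    rwa [QuotientGroup.ker_mk'] at h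
  have hcardKb : Nat.card Kb = L.relIndex K := (hker K).symm
  -- prime power π-elements centralise `K/L`
  have hcent : ∀ (q b : ℕ) (y : G), q.Prime → q ∈ π → orderOf y = q ^ b →
      ∀ k ∈ Kb, f y * k = k * f y := by
    intro q b y hq hqπ hy
    suffices hle : Kb ≤ centralizer ({f y} : Set (G ⧸ L)) from
      fun k hk => (mem_centralizer_singleton_iff.mp (hle hk)).symm
    have hqK : ∀ p : ℕ, p.Prime → p ∣ Nat.card Kb → p ≠ q := fun p hp hd e =>
      hKL p hp (hcardKb ▸ hd) (e ▸ hqπ)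
    obtain ⟨c, -, hc⟩ := (Nat.dvd_prime_pow hq).mp (hy ▸ orderOf_map_dvd f y)
    rw [← Subgroup.subgroupOf_eq_top]
    set T := (centralizer ({f y} : Set (G ⧸ L))).subgroupOf Kb
    rw [← Subgroup.index_eq_one]
    by_contra hne
    obtain ⟨r, hr, hrd⟩ := Nat.exists_prime_and_dvd hne
    haveI := Fact.mk hr
    have hrK : r ∣ Nat.card Kb := hrd.trans (Subgroup.index_dvd_card T)
    have hrπ : r ∉ π := hKL r hr (hcardKb ▸ hrK)
    have hAn : Subgroup.zpowers (f y) ≤ normalizer (Kb : Set (G ⧸ L)) := by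
      rw [Subgroup.normalizer_eq_top_iff.mpr hKbn]; exact le_top
    obtain ⟨Rb, hRb⟩ := Cfsg.Agent.Lib.Coprime.exists_invariant_sylow hAn
      (by
        rw [Nat.card_zpowers, hc]
        refine Nat.Coprime.pow_left c (hq.coprime_iff_not_dvd.mpr fun hd => hqK q hq hd rfl))
      (Or.inl (Group.isSolvable_of_comm fun a b => IsCyclic.commGroup.mul_comm a b)) r
    have hyR : f y ∈ normalizer (((Rb : Subgroup Kb).map Kb.subtype : Subgroup (G ⧸ L)) : Set (G ⧸ L)) :=
      hRb (mem_zpowers _)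
    set Rg := (Rb : Subgroup Kb).map Kb.subtype
    set W := Rg.comap f
    obtain ⟨R₀⟩ : Nonempty (Sylow r W) := Sylow.nonempty
    set R := (R₀ : Subgroup W).map W.subtype
    have hrL : ¬ r ∣ Nat.card L := fun hd => hrπ (hL r hr hd)
    have hLW : L ≤ W := fun l hl => by
      show f l ∈ Rg
      rw [show f l = 1 from (QuotientGroup.eq_one_iff l).mpr hl]
      exact one_mem _
    have hRgK : Rg ≤ Kb := map_subtype_le _
    obtain ⟨n, hn⟩ := IsPGroup.iff_card.mp Rb.2
    have hcardRg : Nat.card Rg = r ^ n := by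
      rw [← Nat.card_congr (Subgroup.equivMapOfInjective _ _ Kb.subtype_injective).toEquiv, hn]
    have hcardW : Nat.card W = Nat.card L * r ^ n := by
      have h1 := Subgroup.relIndex_mul_index (le_top : W ≤ ⊤)
      have h2 : L.relIndex W = r ^ n := by
        rw [← hcardRg, hker,
          Subgroup.map_comap_eq_self_of_surjective (QuotientGroup.mk'_surjective L)]
      rw [← h2, ← Subgroup.relIndex_bot_left, ← Subgroup.relIndex_bot_left]
      exact (Subgroup.relIndex_mul_relIndex ⊥ L W bot_le hLW).symm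
    have hW : L ⊔ R = W := by
      refine eq_of_le_of_card_ge (sup_le hLW (map_subtype_le _)) ?_
      have h3 : Nat.card R = r ^ n := by
        rw [← Nat.card_congr (Subgroup.equivMapOfInjective _ _ W.subtype_injective).toEquiv,
          R₀.card_eq_multiplicity, hcardW,
          Nat.factorization_mul Nat.card_pos.ne' (pow_ne_zero n hr.ne_zero), Finsupp.add_apply,
          Nat.factorization_eq_zero_of_not_dvd hrL, hr.factorization_pow, Finsupp.single_eq_same,
          zero_add]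
      rw [hcardW, ← h3]
      refine Nat.le_of_dvd Nat.card_pos (Nat.Coprime.mul_dvd_of_dvd_of_dvd ?_
        (card_dvd_of_le le_sup_left) (card_dvd_of_le le_sup_right))
      rw [h3]
      exact (hr.coprime_iff_not_dvd.mpr hrL).symm.pow_right n
    have hyW : y ∈ normalizer ((L ⊔ R : Subgroup G) : Set G) := by
      rw [hW]
      refine mem_normalizer_of_forall fun z hz => ?_
      show f (y * z * y⁻¹) ∈ Rg
      rw [map_mul, map_mul, map_inv]
      exact (mem_normalizer_iff.mp hyR (f z)).mp hz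
    obtain ⟨y', ⟨b', hy'⟩, hy'R, hyy'⟩ := exists_translate L hq hrL (R₀.2.map _) hy hyW
    have hy'c : y' ∈ centralizer (R : Set G) := mem_centralizer_of_hom hhom hq hqπ
      (fun p hp hd e => by
        obtain ⟨m, hm⟩ := IsPGroup.iff_card.mp (R₀.2.map W.subtype)
        exact hrπ ((Nat.prime_dvd_prime_iff_eq hp hr).mp (hp.dvd_of_dvd_pow (hm ▸ hd)) ▸ e))
      hy' hy'R
    have hcomm : ∀ z ∈ Rg, f y' * z = z * f y' := by
      intro z hz
      obtain ⟨w, rfl⟩ := QuotientGroup.mk'_surjective L z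
      obtain ⟨l, hl, s, hs, rfl⟩ := mem_sup_of_normal_left.mp (hW.symm ▸ hz : w ∈ L ⊔ R)
      rw [map_mul, show f l = 1 from (QuotientGroup.eq_one_iff l).mpr hl, one_mul, ← map_mul,
        ← map_mul, mem_centralizer_iff.mp hy'c s hs]
    set ρ := (f y)⁻¹ * f y'
    have hρ : ρ ∈ Rg := by
      rw [show ρ = f (y⁻¹ * y') by simp [ρ]]
      exact (hW ▸ hyy' : y⁻¹ * y' ∈ W)
    have hyy : f y = f y' * ρ⁻¹ := by simp [ρ]
    have hc1 : Commute (f y') ρ := hcomm ρ hρ
    have hρ1 : ρ = 1 := by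
      have hqo : orderOf ρ ∣ q ^ max c b' := by
        refine orderOf_dvd_of_pow_eq_one ?_
        have h4 : f y ^ q ^ max c b' = 1 := orderOf_dvd_iff_pow_eq_one.mp
          (hc ▸ pow_dvd_pow q (le_max_left c b'))
        rw [hyy, hc1.inv_right.mul_pow, inv_pow, (show f y' ^ q ^ max c b' = 1 from
          orderOf_dvd_iff_pow_eq_one.mp ((orderOf_map_dvd f y').trans
            (hy' ▸ pow_dvd_pow q (le_max_right c b')))), one_mul, inv_eq_one] at h4
        exact h4
      rw [← orderOf_eq_one_iff]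
      refine Nat.eq_one_of_dvd_coprimes ?_ hqo (hcardRg ▸ orderOf_dvd_card_of_mem hρ)
      exact Nat.Coprime.pow _ _ ((Nat.coprime_primes hq hr).mpr (hqK r hr hrK).symm)
    have hle : (Rb : Subgroup Kb) ≤ T := fun z hz => by
      rw [mem_subgroupOf, mem_centralizer_singleton_iff, hyy, hρ1, inv_one, mul_one]
      exact (hcomm _ ⟨z, hz, rfl⟩).symm
    exact Rb.not_dvd_index (hrd.trans (Subgroup.index_dvd_of_le hle))
  -- split `M/L`
  haveI hKM' : (Kb.subgroupOf Mb).Normal := hKbn.comap Mb.subtype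
  have hKbMb : Kb ≤ Mb := map_mono hKM
  have hrel : Kb.relIndex Mb ∣ K.relIndex M := by
    have h := Subgroup.relIndex_map_map f K M
    rw [QuotientGroup.ker_mk', sup_eq_left.mpr hLK, sup_eq_left.mpr (hLK.trans hKM)] at h
    rw [h]
  have hidx : PiNat π (Kb.subgroupOf Mb).index := hMK.of_dvd hrel
  have hcop : Nat.Coprime (Nat.card (Kb.subgroupOf Mb)) (Kb.subgroupOf Mb).index := by
    refine (PiNat.coprime hidx fun p hp hd => hKL p hp ?_).symm
    rw [← hcardKb]
    rwa [Nat.card_congr (Subgroup.subgroupOfEquivOfLe hKbMb).toEquiv] at hd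
  obtain ⟨H, hH⟩ := Subgroup.exists_right_complement'_of_coprime hcop
  set Hb := H.map Mb.subtype
  have hHπ : PiNat π (Nat.card Hb) := by
    rw [← Nat.card_congr (Subgroup.equivMapOfInjective H _ Mb.subtype_injective).toEquiv,
      ← hH.symm.index_eq_card]
    exact hidx
  have hHc : Hb ≤ centralizer (Kb : Set (G ⧸ L)) := by
    refine le_of_prime_power_elements fun z hz q b hq hzo => ?_
    rcases Nat.eq_zero_or_pos b with rfl | hb
    · rw [pow_zero, orderOf_eq_one_iff] at hzo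
      rw [hzo]; exact one_mem _
    have hqπ : q ∈ π := hHπ q hq ((dvd_pow_self q hb.ne').trans (hzo ▸ orderOf_dvd_card_of_mem hz))
    obtain ⟨y, rfl⟩ := QuotientGroup.mk'_surjective L z
    -- take the `q`-part of a preimage
    set m := ordCompl[q] (orderOf y)
    have hcop' : Nat.Coprime m (q ^ b) :=
      ((Nat.coprime_ordCompl hq (orderOf_pos y).ne').symm).pow_right b
    obtain ⟨u, hu1, hu2⟩ := Nat.chineseRemainder hcop' 0 1
    obtain ⟨t, ht⟩ := Nat.modEq_zero_iff_dvd.mp hu1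
    have h2 : orderOf (y ^ u) ∣ q ^ (orderOf y).factorization q := by
      refine orderOf_dvd_of_pow_eq_one ?_
      rw [ht, ← pow_mul, show m * t * q ^ (orderOf y).factorization q =
        q ^ (orderOf y).factorization q * m * t by ring]
      simp only [m]
      rw [Nat.ordProj_mul_ordCompl_eq_self, pow_mul, pow_orderOf_eq_one, one_pow]
    obtain ⟨j, -, hj⟩ := (Nat.dvd_prime_pow hq).mp h2
    have h3 : f (y ^ u) = f y := by
      rw [map_pow]
      conv_rhs => rw [← pow_one (f y)]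
      exact pow_eq_pow_iff_modEq.mpr (hzo ▸ hu2)
    rw [mem_centralizer_iff]
    intro k hk
    have h5 := hcent q j (y ^ u) hq hqπ hj k hk
    rw [h3] at h5
    exact h5.symm
  refine ⟨Hb.comap f, fun x => ⟨fun hx => ⟨?_, ?_⟩, fun ⟨hxM, hxπ⟩ => ?_⟩⟩
  · obtain ⟨m, hm, e⟩ : f x ∈ Mb := (map_subtype_le H) hx
    have h6 : m⁻¹ * x ∈ L := by
      rw [← QuotientGroup.eq_one_iff]
      show f _ = 1
      rw [map_mul, map_inv, e, inv_mul_cancel]
    have := M.mul_mem hm (hKM (hLK h6))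
    rwa [mul_inv_cancel_left] at this
  · have h7 : orderOf x ∣ Nat.card L * orderOf (f x) := by
      refine orderOf_dvd_of_pow_eq_one ?_
      rw [mul_comm, pow_mul]
      have h8 : x ^ orderOf (f x) ∈ L := by
        rw [← QuotientGroup.eq_one_iff]
        show f _ = 1
        rw [map_pow, pow_orderOf_eq_one]
      exact congrArg Subtype.val (pow_card_eq_one' (x := (⟨_, h8⟩ : L)))
    exact (hL.mul (hHπ.of_dvd (orderOf_dvd_card_of_mem hx))).of_dvd h7
  · obtain ⟨⟨⟨k, hk⟩, ⟨h, hh⟩⟩, hkh⟩ := hH.2 (⟨f x, mem_map_of_mem f hxM⟩ : Mb)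
    have e : f x = (k : G ⧸ L) * h := (congrArg Subtype.val hkh).symm
    have hhb : (h : G ⧸ L) ∈ Hb := ⟨h, hh, rfl⟩
    have hc1 : Commute (k : G ⧸ L) h := mem_centralizer_iff.mp (hHc hhb) k hk
    have hk1 : (k : G ⧸ L) = 1 := by
      have h9 : (k : G ⧸ L) ^ (orderOf (f x) * Nat.card Hb) = 1 := by
        have h10 : (h : G ⧸ L) ^ (orderOf (f x) * Nat.card Hb) = 1 := by
          rw [mul_comm, pow_mul, show (h : G ⧸ L) ^ Nat.card Hb = 1 from
            congrArg Subtype.val (pow_card_eq_one' (x := (⟨_, hhb⟩ : Hb))), one_pow]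
        have h11 : f x ^ (orderOf (f x) * Nat.card Hb) = 1 := by
          rw [pow_mul, pow_orderOf_eq_one, one_pow]
        rw [e, hc1.mul_pow] at h11
        rw [e] at h10
        rwa [h10, mul_one, ← e] at h11
      rw [← orderOf_eq_one_iff]
      refine Nat.eq_one_of_dvd_coprimes ?_ (orderOf_dvd_of_pow_eq_one h9)
        (orderOf_dvd_card_of_mem (K := Kb) hk)
      refine ((hxπ.of_dvd (orderOf_map_dvd f x)).mul hHπ).coprime fun p hp hd => ?_
      exact hKL p hp (hcardKb ▸ hd)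
    show f x ∈ Hb
    rw [e, hk1, one_mul]
    exact hhb

end Cfsg.Agent.Lib.GS
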