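import Cfsg.Agent.Lib.GS.PiFusion
import Cfsg.Agent.Lib.GS.FrobeniusCount
import Cfsg.Agent.Lib.Char.BrauerInduction
import Cfsg.Agent.Lib.Char.Kernel
import Cfsg.Agent.Lib.FPF.Frobenius
import Cfsg.Agent.Lib.CharTools.ClassMult
import Cfsg.Agent.Lib.CharAux
import Mathlib.GroupTheory.Nilpotent

/-!
The Brauer–Suzuki normal π-complement theorem.
-/

set_option autoImplicit false
set_option linter.unusedSectionVars false

namespace Cfsg.Agent.Lib.GS.PiHom

open Subgroup Cfsg.Agent.Lib.Char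
open scoped ComplexConjugate

universe u

variable {G : Type u} [Group G] [Finite G] {π : Set ℕ}

/-- Powers with exponent `1` or `0` at each prime are multiplicative on a nilpotent group. -/
theorem pow_mul_of_nilpotent {E : Type u} [Group E] [Finite E] (hE : Group.IsNilpotent E)
    {a b e : ℕ} (hcop : Nat.Coprime a b) (hdvd : Nat.card E ∣ a * b) (he1 : e ≡ 1 [MOD a])
    (he0 : e ≡ 0 [MOD b]) (u v : E) : (u * v) ^ e = u ^ e * v ^ e := by
  classical
  obtain ⟨φ⟩ := ((Group.isNilpotent_of_finite_tfae (G := E)).out 0 4 rfl rfl).mp hE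
  apply φ.symm.injective
  rw [map_pow, map_mul, map_mul, map_pow, map_pow]
  funext r P
  simp only [Pi.pow_apply, Pi.mul_apply]
  haveI : Fact (r : ℕ).Prime := ⟨Nat.prime_of_mem_primeFactors r.2⟩
  have key : ∀ w : (P : Subgroup E), orderOf w ∣ a * b := fun w =>
    (Subgroup.orderOf_coe w ▸ (_root_.orderOf_dvd_natCard (w : E))).trans hdvd
  by_cases hra : (r : ℕ) ∣ a
  · have h1 : ∀ w : (P : Subgroup E), w ^ e = w := fun w => by
      obtain ⟨j, hj⟩ := IsPGroup.iff_orderOf.1 P.2 w
      have hco : Nat.Coprime (orderOf w) b := by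
        rw [hj]
        exact Nat.Coprime.pow_left _ (Nat.Coprime.coprime_dvd_left hra hcop)
      have hd : orderOf w ∣ a := hco.dvd_of_dvd_mul_right (key w)
      conv_rhs => rw [← pow_one w]
      exact pow_eq_pow_iff_modEq.2 (he1.of_dvd hd)
    simp only [h1]
  · have h1 : ∀ w : (P : Subgroup E), w ^ e = 1 := fun w => by
      obtain ⟨j, hj⟩ := IsPGroup.iff_orderOf.1 P.2 w
      have hco : Nat.Coprime (orderOf w) a := by
        rw [hj]
        exact Nat.Coprime.pow_left _ (((Fact.out : (r : ℕ).Prime).coprime_iff_not_dvd).2 hra)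
      have hd : orderOf w ∣ b := hco.dvd_of_dvd_mul_left (key w)
      exact orderOf_dvd_iff_pow_eq_one.1 (hd.trans (Nat.modEq_zero_iff_dvd.1 he0))
    simp only [h1, one_mul]

theorem nilpotent_of_elementary {E : Type u} [Group E] [Finite E] {p : ℕ} (hp : p.Prime)
    (h : IsElementary p E) : Group.IsNilpotent E := by
  haveI := Fact.mk hp
  obtain ⟨x, hx, -, k, hk⟩ := h
  have hd : (Subgroup.center E).index ∣ p ^ k := hk ▸ Subgroup.index_dvd_of_le (zpowers_le.2 hx)
  obtain ⟨j, -, hj⟩ := (Nat.dvd_prime_pow hp).1 hd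
  have hq : IsPGroup p (E ⧸ Subgroup.center E) :=
    IsPGroup.of_card (n := j) (by rw [← Subgroup.index_eq_card, hj])
  haveI := hq.isNilpotent
  exact Group.of_quotient_center_nilpotent inferInstance

/-- Brauer–Suzuki: a Hall subgroup which controls fusion and absorbs π-subgroups has a normal
complement. -/
theorem normal_pi_complement {H : Subgroup G} (hHπ : ∀ p : ℕ, p.Prime → p ∣ Nat.card H → p ∈ π)
    (hHi : ∀ p : ℕ, p.Prime → p ∈ π → ¬ p ∣ H.index)
    (hinto : ∀ U : Subgroup G, IsPiSubgroup π U → ∃ g : G, cj g U ≤ H)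
    (hfus : ∀ x ∈ H, ∀ y ∈ H, IsConj x y → ∃ h ∈ H, h * x * h⁻¹ = y)
    (hcen : ∀ x ∈ H, ∀ p : ℕ, p.Prime → p ∈ π →
      ¬ p ∣ (H ⊓ centralizer ({x} : Set G)).relIndex (centralizer ({x} : Set G))) :
    ∃ K : Subgroup G, ∀ x : G, x ∈ K ↔ ∀ p : ℕ, p.Prime → p ∣ orderOf x → p ∉ π := by
  classical
  haveI := Fintype.ofFinite G
  set a := Nat.card H with ha
  set b := H.index with hb
  have hab : a * b = Nat.card G := H.card_mul_index
  have hcop : Nat.Coprime a b :=
    Nat.coprime_of_dvd fun p hp h1 h2 => hHi p hp (hHπ p hp h1) h2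
  obtain ⟨e, he1, he0⟩ := Nat.chineseRemainder hcop 1 0
  obtain ⟨f, hf0, hf1⟩ := Nat.chineseRemainder hcop 0 1
  have hgab : ∀ g : G, g ^ (a * b) = 1 := fun g => hab ▸ pow_card_eq_one'
  have hbe : b ∣ e := Nat.modEq_zero_iff_dvd.1 he0
  have hea : ∀ g : G, (g ^ e) ^ a = 1 := fun g => by
    obtain ⟨c, hc⟩ := hbe
    rw [← pow_mul, hc, show b * c * a = a * b * c by ring, pow_mul, hgab, one_pow]
  have hfix : ∀ x : G, x ^ a = 1 → x ^ e = x := fun x hx => by
    conv_rhs => rw [← pow_one x]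
    exact pow_eq_pow_iff_modEq.2 (he1.of_dvd (orderOf_dvd_of_pow_eq_one hx))
  have hHa : ∀ h : H, (h : G) ^ a = 1 := fun h => congrArg Subtype.val (pow_card_eq_one' (x := h))
  have hpin : ∀ x : G, x ^ a = 1 → PiNat π (orderOf x) := fun x hx p hp hd =>
    hHπ p hp (hd.trans (orderOf_dvd_of_pow_eq_one hx))
  have hrep : ∀ x : G, ∃ k : H, x ^ a = 1 → IsConj x (k : G) := by
    intro x
    by_cases hx : x ^ a = 1
    · obtain ⟨g, hg⟩ := hinto (zpowers x) fun p hp hd => hpin x hx p hp (Nat.card_zpowers x ▸ hd)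
      exact ⟨⟨_, hg ⟨x, mem_zpowers x, rfl⟩⟩, fun _ => isConj_iff.2 ⟨g, by simp⟩⟩
    · exact ⟨1, fun h => absurd h hx⟩
  choose rep hrep using hrep
  -- the set of conjugators into `H`
  let W : G → ℕ := fun x => (Finset.univ.filter fun y : G => y⁻¹ * x * y ∈ H).card
  have hWc : ∀ g x : G, W (g * x * g⁻¹) = W x := by
    intro g x
    refine Finset.card_bij' (fun y _ => g⁻¹ * y) (fun y _ => g * y) ?_ ?_ (by simp) (by simp)
    · intro y hy
      simp only [Finset.mem_filter, Finset.mem_univ, true_and] at hy ⊢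
      have : (g⁻¹ * y)⁻¹ * x * (g⁻¹ * y) = y⁻¹ * (g * x * g⁻¹) * y := by group
      rw [this]; exact hy
    · intro y hy
      simp only [Finset.mem_filter, Finset.mem_univ, true_and] at hy ⊢
      have : (g * y)⁻¹ * (g * x * g⁻¹) * (g * y) = y⁻¹ * x * y := by group
      rw [this]; exact hy
  let bh : G → ℕ := fun h =>
    (H ⊓ centralizer ({h} : Set G)).relIndex (centralizer ({h} : Set G))
  have hWH : ∀ h : H, W (h : G) = bh h * a := by
    intro h
    set C := centralizer ({(h : G)} : Set G) with hC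
    have hmaps : ∀ y ∈ Finset.univ.filter (fun y : G => y⁻¹ * (h : G) * y ∈ H),
        y⁻¹ * (h : G) * y ∈ Finset.image (Subtype.val : H → G) (Finset.univ.filter fun x : H => IsConj x h) := by
      intro y hy
      simp only [Finset.mem_filter, Finset.mem_univ, true_and] at hy
      obtain ⟨k, hk, hke⟩ := hfus h h.2 _ hy (isConj_iff.2 ⟨y⁻¹, by simp⟩)
      refine Finset.mem_image.2 ⟨⟨_, hy⟩, Finset.mem_filter.2 ⟨Finset.mem_univ _, ?_⟩, rfl⟩
      exact (isConj_iff.2 ⟨⟨k, hk⟩, Subtype.ext hke⟩ : IsConj h _).symm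
    have hfib : ∀ x ∈ Finset.image (Subtype.val : H → G) (Finset.univ.filter fun x : H => IsConj x h),
        ((Finset.univ.filter fun y : G => y⁻¹ * (h : G) * y ∈ H).filter
          fun y => y⁻¹ * (h : G) * y = x).card = Nat.card C := by
      intro x hx
      obtain ⟨z, hz, rfl⟩ := Finset.mem_image.1 hx
      obtain ⟨k, hk⟩ := isConj_iff.1 (Finset.mem_filter.1 hz).2
      have hk' : (k : G) * z * (k : G)⁻¹ = h := congrArg Subtype.val hk
      rw [← Finset.card_univ.trans Nat.card_eq_fintype_card.symm, eq_comm]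
      refine Finset.card_bij (fun c _ => (c : G) * k) (fun c _ => ?_)
        (fun c _ d _ e => Subtype.ext (mul_right_cancel e)) fun y hy => ?_
      · simp only [Finset.mem_filter, Finset.mem_univ, true_and]
        have e : ((c : G) * k)⁻¹ * (h : G) * ((c : G) * k) = z := by
          have hc := mem_centralizer_singleton_iff.1 c.2
          calc ((c : G) * k)⁻¹ * (h : G) * ((c : G) * k)
              = (k : G)⁻¹ * ((c : G)⁻¹ * ((h : G) * c)) * k := by group
            _ = (k : G)⁻¹ * h * k := by rw [← hc, inv_mul_cancel_left]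
            _ = z := by rw [← hk']; group
        exact ⟨e ▸ z.2, e⟩
      · have hy' := (Finset.mem_filter.1 hy).2
        refine ⟨⟨y * (k : G)⁻¹, mem_centralizer_singleton_iff.2 ?_⟩, Finset.mem_univ _, by simp⟩
        calc y * (k : G)⁻¹ * h = y * z * (k : G)⁻¹ := by rw [← hk']; group
          _ = (h : G) * (y * (k : G)⁻¹) := by rw [← hy']; group
    show (Finset.univ.filter fun y : G => y⁻¹ * (h : G) * y ∈ H).card = _
    rw [Finset.card_eq_sum_card_fiberwise hmaps, Finset.sum_congr rfl hfib, Finset.sum_const,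
      Finset.card_image_of_injective _ Subtype.val_injective, smul_eq_mul]
    -- compare with the class in `H`
    have e1 := CharAux.card_conj_mul_card_centralizer h
    have e2 : Nat.card (centralizer ({h} : Set H)) = Nat.card (H ⊓ C : Subgroup G) := by
      rw [← Nat.card_congr (subgroupOfEquivOfLe (inf_le_left : H ⊓ C ≤ H)).toEquiv]
      refine Nat.card_congr (Equiv.subtypeEquivRight fun z => ?_)
      rw [mem_subgroupOf, mem_inf, mem_centralizer_singleton_iff, mem_centralizer_singleton_iff]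
      exact ⟨fun e => ⟨z.2, congrArg Subtype.val e⟩, fun e => Subtype.ext e.2⟩
    rw [e2] at e1
    have e3 := Fusion.card_mul_relIndex' (inf_le_right : H ⊓ C ≤ C)
    rw [← e3, ← mul_assoc]
    refine Eq.trans (congrArg (· * _) (?_ : _ = a)) (mul_comm _ _)
    convert e1
  -- the number of elements with given π-part
  let ν : G → ℕ := fun x => Nat.card {k : centralizer ({x} : Set G) // k ^ b = 1}
  have hν : ∀ h : H, bh h ∣ ν h ∧ 0 < ν h := by
    intro h
    set C := centralizer ({(h : G)} : Set G) with hC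
    refine ⟨?_, @Nat.card_pos _ ⟨⟨1, one_pow _⟩⟩ _⟩
    have e3 := Fusion.card_mul_relIndex' (inf_le_right : H ⊓ C ≤ C)
    have hbG : bh h ∣ Nat.card G :=
      (Dvd.intro_left _ e3).trans (Subgroup.card_subgroup_dvd_card _)
    have hcb : Nat.Coprime (bh h) a :=
      Nat.coprime_of_dvd fun p hp h1 h2 => hcen h h.2 p hp (hHπ p hp h2) h1
    have hdb : bh h ∣ b := hcb.dvd_of_dvd_mul_left (hab ▸ hbG)
    have hroots : ∀ k : C, k ^ b = 1 ↔ k ^ bh h = 1 := by
      intro k
      constructor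
      · intro hk
        refine orderOf_dvd_iff_pow_eq_one.1 ?_
        have h1 : orderOf k ∣ Nat.card (H ⊓ C : Subgroup G) * bh h := e3 ▸ _root_.orderOf_dvd_natCard k
        refine Nat.Coprime.dvd_of_dvd_mul_left ?_ h1
        exact Nat.Coprime.coprime_dvd_left (orderOf_dvd_of_pow_eq_one hk)
          (Nat.Coprime.coprime_dvd_right (Subgroup.card_dvd_of_le inf_le_left) hcop.symm)
      · intro hk
        obtain ⟨c, hc⟩ := hdb
        rw [hc, pow_mul, hk, one_pow]
    show bh h ∣ Nat.card {k : C // k ^ b = 1}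
    rw [Nat.card_congr (Equiv.subtypeEquivRight hroots)]
    exact FrobeniusCount.dvd_card_roots _ C rfl _ (Dvd.intro_left _ e3)
  have hνc : ∀ g x : G, ν (g * x * g⁻¹) = ν x := fun g x => FrobeniusCount.card_centralizer_roots_conj g x b
  have hfibre : ∀ x : G, x ^ a = 1 →
      ((Finset.univ.filter fun g : G => g ^ e = x).card : ℕ) = ν x := by
    intro x hx
    have h1 := FrobeniusCount.count_decomp (G := G) hcop he1 he0 hf0 hf1 (fun y => y = x)
    rw [← Fintype.card_subtype, ← Nat.card_eq_fintype_card]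
    refine (Nat.card_congr (Equiv.subtypeEquivRight fun g => ?_)).trans (h1.trans ?_)
    · exact ⟨fun h => ⟨hgab g, h⟩, fun h => h.2⟩
    · rw [Nat.card_sigma]
      letI : Unique {h : G // h ^ a = 1 ∧ h = x} :=
        ⟨⟨⟨x, hx, rfl⟩⟩, fun y => Subtype.ext y.2.2⟩
      rw [Fintype.sum_unique]
      rfl
  let kh : H → ℕ := fun h => ν h / bh h
  have hbh0 : ∀ h : H, 0 < bh h := fun h => Nat.pos_of_ne_zero (Fusion.relIndex_ne_zero _ _)
  have hsum : ∀ φ : G → ℂ, (∀ g x : G, φ (g * x * g⁻¹) = φ x) →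
      ∑ g : G, φ (g ^ e) = (b : ℂ) * ∑ h : H, (kh h : ℂ) * φ h := by
    intro φ hφ
    set Sa := Finset.univ.filter fun x : G => x ^ a = 1 with hSa
    have hW0 : ∀ x ∈ Sa, (W x : ℂ) ≠ 0 := by
      intro x hx
      obtain ⟨g, hg⟩ := isConj_iff.1 (hrep x (Finset.mem_filter.1 hx).2)
      refine Nat.cast_ne_zero.2 (Finset.card_ne_zero.2 ⟨g⁻¹, ?_⟩)
      simp [hg]
    calc ∑ g : G, φ (g ^ e) = ∑ x ∈ Sa, (ν x : ℂ) * φ x := by
          rw [← Finset.sum_fiberwise_of_maps_to (t := Sa) (g := fun g : G => g ^ e)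
            (fun g _ => Finset.mem_filter.2 ⟨Finset.mem_univ _, hea g⟩)]
          refine Finset.sum_congr rfl fun x hx => ?_
          rw [Finset.sum_congr rfl (g := fun _ => φ x) fun g hg => by rw [(Finset.mem_filter.1 hg).2],
            Finset.sum_const, hfibre x (Finset.mem_filter.1 hx).2, nsmul_eq_mul]
      _ = ∑ x ∈ Sa, ∑ y ∈ Finset.univ.filter (fun y : G => y⁻¹ * x * y ∈ H),
            (ν x : ℂ) * φ x / (W x : ℂ) := by
          refine Finset.sum_congr rfl fun x hx => ?_
          rw [Finset.sum_const, nsmul_eq_mul]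
          field_simp [hW0 x hx]
          rfl
      _ = ∑ p ∈ Finset.univ ×ˢ (Finset.univ : Finset H),
            (ν (p.1 * (p.2 : G) * p.1⁻¹) : ℂ) * φ (p.1 * (p.2 : G) * p.1⁻¹) /
              (W (p.1 * (p.2 : G) * p.1⁻¹) : ℂ) := by
          rw [Finset.sum_sigma']
          refine Finset.sum_bij' (fun z hz => (z.2, ⟨z.2⁻¹ * z.1 * z.2,
            (Finset.mem_filter.1 (Finset.mem_sigma.1 hz).2).2⟩))
            (fun p _ => ⟨p.1 * (p.2 : G) * p.1⁻¹, p.1⟩) (fun z hz => by simp) (fun p _ => ?_)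
            (fun z hz => ?_) (fun p _ => ?_) fun z hz => ?_
          · exact Finset.mem_sigma.2 ⟨Finset.mem_filter.2 ⟨Finset.mem_univ _,
              by rw [conj_pow, hHa p.2, mul_one, mul_inv_cancel]⟩,
              Finset.mem_filter.2 ⟨Finset.mem_univ _, by simp [mul_assoc]⟩⟩
          · obtain ⟨x, y⟩ := z
            simp [mul_assoc]
          · refine Prod.ext rfl (Subtype.ext ?_)
            simp [mul_assoc]
          · obtain ⟨x, y⟩ := z
            simp [mul_assoc]
      _ = ∑ y : G, ∑ h : H, (ν h : ℂ) * φ h / (W h : ℂ) := by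
          rw [Finset.sum_product]
          exact Finset.sum_congr rfl fun y _ => Finset.sum_congr rfl fun h _ => by
            rw [hνc, hφ, hWc]
      _ = (b : ℂ) * ∑ h : H, (kh h : ℂ) * φ h := by
          rw [Finset.sum_const, Finset.card_univ, ← Nat.card_eq_fintype_card, ← hab, nsmul_eq_mul,
            Finset.mul_sum, Finset.mul_sum]
          refine Finset.sum_congr rfl fun h _ => ?_
          have hk : (ν h : ℂ) = (kh h : ℂ) * (bh h : ℂ) := by
            rw [← Nat.cast_mul, Nat.div_mul_cancel (hν h).1]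
          rw [hWH h, hk]
          have : (bh h : ℂ) ≠ 0 := Nat.cast_ne_zero.2 (hbh0 h).ne'
          have : (a : ℂ) ≠ 0 := Nat.cast_ne_zero.2 (ha ▸ Nat.card_pos.ne')
          push_cast
          field_simp
  have hk1 : ∀ h : H, kh h = 1 := by
    have h1 := hsum (fun _ => 1) (fun _ _ => rfl)
    simp only [Finset.sum_const, Finset.card_univ, nsmul_eq_mul, mul_one,
      ← Nat.card_eq_fintype_card, ← hab, Nat.cast_mul] at h1
    have hb0 : (b : ℂ) ≠ 0 := Nat.cast_ne_zero.2 H.index_ne_zero_of_finite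
    have h2 : (a : ℂ) = ∑ h : H, (kh h : ℂ) := mul_left_cancel₀ hb0 (by rw [← h1]; ring)
    have h3 : a = ∑ h : H, kh h := by exact_mod_cast h2
    have hge : ∀ h : H, 1 ≤ kh h := fun h =>
      Nat.div_pos (Nat.le_of_dvd (hν h).2 (hν h).1) (hbh0 h)
    intro h
    have h4 : ∑ h : H, (1 : ℕ) = ∑ h : H, kh h := by
      rw [← h3, Finset.sum_const, Finset.card_univ, ← Nat.card_eq_fintype_card, smul_eq_mul, mul_one]
    exact ((Finset.sum_eq_sum_iff_of_le fun h _ => hge h).1 h4 h (Finset.mem_univ h)).symm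
  -- extensions of the irreducible characters of `H`
  haveI : Fintype H := Fintype.ofFinite H
  let ext : IrrCharacter H → G → ℂ := fun θ g => (θ : H → ℂ) (rep (g ^ e))
  have hwd : ∀ (θ : IrrCharacter H) (x : G) (k : H), x ^ a = 1 → IsConj x (k : G) →
      (θ : H → ℂ) (rep x) = (θ : H → ℂ) k := by
    intro θ x k hx hc
    obtain ⟨h, hh, hhe⟩ := hfus _ (rep x).2 k k.2 ((hrep x hx).symm.trans hc)
    rw [← show (⟨h, hh⟩ : H) * rep x * (⟨h, hh⟩ : H)⁻¹ = k from Subtype.ext hhe]
    exact (CharTools.conj_apply_eq θ.2 _ _).symm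
  have hcf : ∀ θ, IsClassFunction G (ext θ) := by
    intro θ g y
    show (θ : H → ℂ) (rep ((y * g * y⁻¹) ^ e)) = (θ : H → ℂ) (rep (g ^ e))
    exact hwd θ _ _ (hea _) (by
      rw [conj_pow]
      exact (isConj_iff.2 ⟨y, rfl⟩ : IsConj (g ^ e) _).symm.trans (hrep _ (hea g)))
  have hgen : ∀ θ, IsGeneralizedCharacter G (ext θ) := by
    intro θ
    refine brauer_characterization (hcf θ) fun E p hp hE => ?_
    have hnil := nilpotent_of_elementary hp hE
    have hdvd : Nat.card E ∣ a * b := hab ▸ Subgroup.card_subgroup_dvd_card E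
    let ψ : E →* G := E.subtype.comp
      { toFun := fun u => u ^ e
        map_one' := one_pow e
        map_mul' := pow_mul_of_nilpotent hnil hcop hdvd he1 he0 }
    have hψ : ∀ u : E, ψ u = (u : G) ^ e := fun u => rfl
    obtain ⟨c, hc⟩ := hinto ψ.range (piNat_card fun x hx => by
      obtain ⟨u, rfl⟩ := hx
      rw [hψ]; exact hpin _ (hea _))
    let χ : E →* H := ((MulAut.conj c).toMonoidHom.comp ψ).codRestrict H
      fun u => hc ⟨ψ u, ⟨u, rfl⟩, rfl⟩
    refine ⟨fun u => (θ : H → ℂ) (χ u), 0, isCharacter_comp (isCharacter_of_isIrr θ.2) χ,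
      isCharacter_zero, ?_⟩
    rw [sub_zero]
    funext u
    exact hwd θ _ _ (hea _) (isConj_iff.2 ⟨c, by simp [χ, hψ]⟩)
  have hirr : ∀ θ, IsIrrCharacter G (ext θ) := by
    intro θ
    refine FPF.isIrr_of_generalized_norm_one (hgen θ) ?_ (d := charDegree (θ : H → ℂ)) ?_
    · have h1 := hsum (fun x => if x ^ a = 1 then (θ : H → ℂ) (rep x) * conj ((θ : H → ℂ) (rep x)) else 0)
        (fun g x => by
          by_cases hx : x ^ a = 1
          · have hx' : (g * x * g⁻¹) ^ a = 1 := by rw [conj_pow, hx, mul_one, mul_inv_cancel]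
            rw [if_pos hx, if_pos hx', hwd θ _ (rep x) hx'
              ((isConj_iff.2 ⟨g, rfl⟩ : IsConj x _).symm.trans (hrep x hx))]
          · have hx' : ¬ (g * x * g⁻¹) ^ a = 1 := fun h => hx (by
              rw [conj_pow, conj_eq_one_iff] at h; exact h)
            rw [if_neg hx, if_neg hx'])
      simp only [hea, if_true, hHa, hk1, Nat.cast_one, one_mul] at h1
      have h2 : ∀ h : H, (θ : H → ℂ) (rep (h : G)) = (θ : H → ℂ) h := fun h =>
        hwd θ _ h (hHa h) (IsConj.refl _)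
      simp only [h2] at h1
      have h3 := classInner_irr_self θ.2
      simp only [classInner] at h3 ⊢
      show (Nat.card G : ℂ)⁻¹ * ∑ g : G, ext θ g * conj (ext θ g) = 1
      rw [h1, ← hab, Nat.cast_mul, ← h3, ← ha]
      have hb0 : (b : ℂ) ≠ 0 := Nat.cast_ne_zero.2 H.index_ne_zero_of_finite
      field_simp
      convert rfl
    · show (θ : H → ℂ) (rep ((1 : G) ^ e)) = _
      rw [one_pow, hwd θ 1 1 (one_pow a) (IsConj.refl _)]
      exact apply_one_eq_charDegree (isCharacter_of_isIrr θ.2)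
  refine ⟨⨅ θ : IrrCharacter H, charKer (ext θ), fun x => ?_⟩
  have hiff : (x ∈ ⨅ θ : IrrCharacter H, charKer (ext θ)) ↔ x ^ e = 1 := by
    rw [Subgroup.mem_iInf]
    constructor
    · intro hx
      have : rep (x ^ e) = 1 := eq_one_of_forall_irr fun θ => by
        have h := (mem_charKer (isCharacter_of_isIrr (hirr θ))).1 (hx θ)
        have e2 : ext θ 1 = (θ : H → ℂ) 1 := by
          show (θ : H → ℂ) (rep ((1 : G) ^ e)) = _
          rw [one_pow, hwd θ 1 1 (one_pow a) (IsConj.refl _)]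
        rw [← e2]; exact h
      have h := hrep _ (hea x)
      rw [this, Subgroup.coe_one] at h
      exact isConj_one_left.1 h
    · intro hx θ
      refine (mem_charKer (isCharacter_of_isIrr (hirr θ))).2 ?_
      show (θ : H → ℂ) (rep (x ^ e)) = (θ : H → ℂ) (rep ((1 : G) ^ e))
      rw [hx, one_pow]
  rw [hiff]
  constructor
  · intro hx p hp hd hpπ
    have h1 : p ∣ a * b := hd.trans (orderOf_dvd_of_pow_eq_one (hgab x))
    have hpa : p ∣ a := (hp.dvd_mul.1 h1).resolve_right (hHi p hp hpπ)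
    have hpe : p ∣ e := hd.trans (orderOf_dvd_of_pow_eq_one hx)
    have h2 : e ≡ 1 [MOD p] := he1.of_dvd hpa
    rw [Nat.ModEq, Nat.mod_eq_zero_of_dvd hpe |>.trans rfl] at h2
    simp [Nat.mod_eq_of_lt hp.one_lt] at h2
  · intro hx
    refine orderOf_dvd_iff_pow_eq_one.1 (Dvd.dvd.trans ?_ hbe)
    have hco : Nat.Coprime (orderOf x) a :=
      Nat.coprime_of_dvd fun p hp h1 h2 => hx p hp h1 (hHπ p hp h2)
    exact hco.dvd_of_dvd_mul_left (orderOf_dvd_of_pow_eq_one (hgab x))

/-- A π-homogeneous group with conjugate maximal π-subgroups is π'-closed. -/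
theorem piPrimeClosed (hD : IsDPiGroup π G) (hhom : IsHom π G) :
    ∃ K : Subgroup G, ∀ x : G, x ∈ K ↔ ∀ p : ℕ, p.Prime → p ∣ orderOf x → p ∉ π := by
  obtain ⟨H, hH, -⟩ := exists_mx_ge (G := G) (π := π) (U := ⊥) fun p hp hd => by
    rw [Subgroup.card_bot] at hd; exact absurd (Nat.dvd_one.1 hd) hp.one_lt.ne'
  exact normal_pi_complement hH.1 (fun p hp hpπ => not_dvd_index hD hH hp hpπ)
    (fun U hU => conj_into hD hH hU) (fun x hx y hy hc => fusion hD hhom hH hx hy hc)
    (fun x hx p hp hpπ => centralizer_hall hD hhom hH hx hp hpπ)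

end Cfsg.Agent.Lib.GS.PiHom
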