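import Cfsg.Agent.Lib.GS.PiSupplement
import Cfsg.Prelude.Def_HallClasses

/-!
Fusion of π-elements in a π-homogeneous group with conjugate maximal π-subgroups.
-/

set_option autoImplicit false

namespace Cfsg.Agent.Lib.GS.PiHom

open Subgroup

universe u

variable {G : Type u} [Group G] [Finite G] {π : Set ℕ}

/-- π-homogeneity. -/
def IsHom (π : Set ℕ) (G : Type u) [Group G] : Prop :=
  ∀ H : Subgroup G, H ≠ ⊥ → (∀ p : ℕ, p.Prime → p ∣ Nat.card ↥H → p ∈ π) →
    ∀ p : ℕ, p.Prime → p ∣ (centralizer (H : Set G)).relIndex (normalizer (H : Set G)) → p ∈ π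

/-- The conjugate `g H g⁻¹`. -/
abbrev cj (g : G) (H : Subgroup G) : Subgroup G := H.map (MulAut.conj g).toMonoidHom

omit [Finite G] in
theorem mem_cj {g x : G} {H : Subgroup G} : x ∈ cj g H ↔ g⁻¹ * x * g ∈ H := by
  constructor
  · rintro ⟨y, hy, rfl⟩; simpa [mul_assoc] using hy
  · intro h; exact ⟨_, h, by simp [mul_assoc]⟩

omit [Finite G] in
theorem cj_cj (g h : G) (H : Subgroup G) : cj g (cj h H) = cj (g * h) H := by
  ext x; simp only [mem_cj, mul_inv_rev, mul_assoc]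

omit [Finite G] in
theorem cj_one (H : Subgroup G) : cj 1 H = H := by ext x; simp

omit [Finite G] in
theorem cj_eq_self {g : G} {H : Subgroup G} (hg : g ∈ H) : cj g H = H := by
  ext x
  rw [mem_cj]
  constructor
  · intro h
    have := mul_mem (mul_mem hg h) (inv_mem hg)
    simpa [mul_assoc] using this
  · exact fun h => mul_mem (mul_mem (inv_mem hg) h) hg

omit [Finite G] in
theorem cj_inv_eq {g : G} {H K : Subgroup G} (h : K = cj g H) : H = cj g⁻¹ K := by
  rw [h, cj_cj, inv_mul_cancel, cj_one]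

omit [Finite G] in
theorem card_cj (g : G) (H : Subgroup G) : Nat.card (cj g H) = Nat.card H :=
  card_map_of_injective (MulAut.conj g).injective

omit [Finite G] in
theorem cj_mono (g : G) {H K : Subgroup G} (h : H ≤ K) : cj g H ≤ cj g K := Subgroup.map_mono h

omit [Finite G] in
theorem cj_fix {g : G} {A : Subgroup G} (hg : g ∈ centralizer (A : Set G)) : cj g A = A := by
  ext x
  rw [mem_cj]
  constructor
  · intro h
    have e := mem_centralizer_iff.1 hg _ h
    have : x = g⁻¹ * x * g := by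
      calc x = g * (g⁻¹ * x * g) * g⁻¹ := by group
        _ = (g⁻¹ * x * g) * g * g⁻¹ := by rw [← e]
        _ = g⁻¹ * x * g := mul_inv_cancel_right _ _
    rw [this]; exact h
  · intro h
    rw [show g⁻¹ * x * g = x by rw [mul_assoc, mem_centralizer_iff.1 hg x h, inv_mul_cancel_left]]
    exact h

theorem exists_mx_ge {U : Subgroup G} (hU : IsPiSubgroup π U) :
    ∃ M : Subgroup G, Maximal (IsPiSubgroup π) M ∧ U ≤ M := by
  obtain ⟨M, hUM, hM⟩ := (Set.toFinite {V : Subgroup G | IsPiSubgroup π V}).exists_le_maximal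
    (show U ∈ {V : Subgroup G | IsPiSubgroup π V} from hU)
  exact ⟨M, hM, hUM⟩

omit [Finite G] in
theorem mx_cj {g : G} {H : Subgroup G} (h : Maximal (IsPiSubgroup π) H) :
    Maximal (IsPiSubgroup π) (cj g H) := by
  have hpi : ∀ (g : G) (K : Subgroup G), IsPiSubgroup π K → IsPiSubgroup π (cj g K) :=
    fun g K hK p hp hd => hK p hp (card_cj g K ▸ hd)
  refine ⟨hpi g H h.1, fun K hK hle => ?_⟩
  have h2 := h.2 (hpi g⁻¹ K hK) (by
    have := cj_mono g⁻¹ hle
    rwa [cj_cj, inv_mul_cancel, cj_one] at this)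
  have := cj_mono g h2
  rwa [cj_cj, mul_inv_cancel, cj_one] at this

theorem isPi_sup {U V : Subgroup G} (h : U ≤ normalizer (V : Set G)) (hU : IsPiSubgroup π U)
    (hV : IsPiSubgroup π V) : IsPiSubgroup π (U ⊔ V) := by
  intro p hp hd
  rw [← Fusion.card_mul_relIndex' (le_sup_right : V ≤ U ⊔ V),
    Fusion.relIndex_sup_of_normalizes h] at hd
  rcases hp.dvd_mul.1 hd with hd | hd
  · exact hV p hp hd
  · exact hU p hp (hd.trans (Subgroup.index_dvd_card _ |>.trans (dvd_refl _)))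

theorem isPi_of_pGroup {p : ℕ} [Fact p.Prime] (hp : p ∈ π) {Q : Subgroup G} (hQ : IsPGroup p Q) :
    IsPiSubgroup π Q := by
  intro r hr hd
  obtain ⟨j, hj⟩ := IsPGroup.iff_card.1 hQ
  rw [hj] at hd
  exact (Nat.prime_dvd_prime_iff_eq hr Fact.out).1 (hr.dvd_of_dvd_pow hd) ▸ hp

/-- All maximal π-subgroups containing `A` are conjugate under `C(A)`. -/
def ConjUnder (π : Set ℕ) (A : Subgroup G) : Prop :=
  ∀ H₁ H₂ : Subgroup G, Maximal (IsPiSubgroup π) H₁ → Maximal (IsPiSubgroup π) H₂ → A ≤ H₁ →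
    A ≤ H₂ → ∃ c ∈ centralizer (A : Set G), H₂ = cj c H₁

/-- A maximal π-subgroup through `A` absorbs the π-subgroups of `C(A)`. -/
theorem absorb {A : Subgroup G} (hA : IsPiSubgroup π A) (hE : ConjUnder π A) {H U : Subgroup G}
    (hH : Maximal (IsPiSubgroup π) H) (hAH : A ≤ H) (hU : IsPiSubgroup π U)
    (hUA : U ≤ centralizer (A : Set G)) : ∃ c ∈ centralizer (A : Set G), cj c U ≤ H := by
  obtain ⟨M, hM, hle⟩ := exists_mx_ge (isPi_sup (hUA.trans (centralizer_le_normalizer _)) hU hA)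
  obtain ⟨c, hc, he⟩ := hE M H hM hH (le_sup_right.trans hle) hAH
  exact ⟨c, hc, he ▸ cj_mono c (le_sup_left.trans hle)⟩

theorem conj_step (hhom : IsHom π G) {p : ℕ} [Fact p.Prime] (hp : p ∈ π) {A : Subgroup G}
    (hA : IsPiSubgroup π A) (hE : ConjUnder π A) :
    ∀ (k : ℕ) (Q : Subgroup G), Nat.card G - Nat.card Q = k → IsPGroup p Q →
      Q ≤ centralizer (A : Set G) → ∀ H₁ H₂ : Subgroup G, Maximal (IsPiSubgroup π) H₁ →
      Maximal (IsPiSubgroup π) H₂ → A ≤ H₁ → A ≤ H₂ → Q ≤ H₁ → Q ≤ H₂ →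
      ∃ c, c ∈ centralizer (A : Set G) ∧ c ∈ centralizer (Q : Set G) ∧ H₂ = cj c H₁ := by
  intro k
  induction k using Nat.strong_induction_on with
  | _ k ih =>
  intro Q hk hQ hQA
  set L := centralizer (A : Set G) with hL
  set N := L ⊓ normalizer (Q : Set G) with hN
  set D := L ⊓ centralizer (Q : Set G) with hD
  have hDN : D ≤ N := inf_le_inf_left L (centralizer_le_normalizer _)
  have hnorm : ∀ n ∈ N, ∀ d ∈ D, n * d * n⁻¹ ∈ D := by
    intro n hn d hd
    refine mem_inf.2 ⟨mul_mem (mul_mem hn.1 hd.1) (inv_mem hn.1),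
      mem_centralizer_iff.2 fun x hx => ?_⟩
    have hx' : n⁻¹ * x * n ∈ Q := by
      have := (Subgroup.mem_normalizer_iff.1 (inv_mem hn.2) x).1 hx
      simpa using this
    have e := mem_centralizer_iff.1 hd.2 _ hx'
    calc x * (n * d * n⁻¹) = n * ((n⁻¹ * x * n) * d) * n⁻¹ := by group
      _ = n * (d * (n⁻¹ * x * n)) * n⁻¹ := by rw [e]
      _ = n * d * n⁻¹ * x := by group
  have hπN : PiNat π (D.relIndex N) := by
    rcases eq_or_ne Q ⊥ with rfl | hQ0
    · have hle : N ≤ D := fun x hx => mem_inf.2 ⟨hx.1, mem_centralizer_iff.2 fun y hy => by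
        rw [Subgroup.mem_bot.1 hy, one_mul, mul_one]⟩
      rw [Subgroup.relIndex_eq_one.2 hle]
      exact fun q hq h => absurd (Nat.dvd_one.1 h) hq.one_lt.ne'
    · haveI : ((centralizer (Q : Set G)).subgroupOf (normalizer (Q : Set G))).Normal := by
        refine ⟨fun c hc n => ?_⟩
        rw [mem_subgroupOf, mem_centralizer_iff] at hc ⊢
        intro r hr
        have h1 := hc ((n : G)⁻¹ * r * n) ((mem_normalizer_iff''.mp n.2 r).mp hr)
        have h2 := congrArg (fun t => (n : G) * t * (n : G)⁻¹) h1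
        simpa [mul_assoc] using h2
      have h1 := piNat_quotient_of_le (π := π) (M' := N) inf_le_right
        (hhom Q hQ0 (isPi_of_pGroup hp hQ))
      have h2 : D.relIndex N = (centralizer (Q : Set G)).relIndex N := by
        rw [← Subgroup.inf_relIndex_right D, ← Subgroup.inf_relIndex_right (centralizer (Q : Set G))]
        congr 1
        rw [hD, hN]
        ext x
        simp only [mem_inf]
        exact ⟨fun h => ⟨h.1.2, h.2⟩, fun h => ⟨⟨h.2.1, h.1⟩, h.2⟩⟩
      rw [h2]; exact h1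
  -- a π-subgroup `W` with `N = W D` containing Sylow `p`-subgroups of `D` and `Q`
  obtain ⟨T₀⟩ : Nonempty (Sylow p D) := inferInstance
  set T := (T₀ : Subgroup D).map D.subtype with hT
  have hTD : T ≤ D := map_subtype_le _
  obtain ⟨U, hU, hUπ, hUdec⟩ := exists_pi_supplement (π := π) _
    (D ⊓ normalizer (T : Set G)) (N ⊓ normalizer (T : Set G)) rfl
    (fun m hm d hd => mem_inf.2 ⟨hnorm m hm.1 d hd.1, mul_mem (mul_mem hm.2 hd.2) (inv_mem hm.2)⟩)
    (by
      haveI : (D.subgroupOf N).Normal :=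
        ⟨fun x hx g => by rw [mem_subgroupOf] at hx ⊢; exact hnorm g g.2 x hx⟩
      have h1 := piNat_quotient_of_le (π := π) (M' := N ⊓ normalizer (T : Set G)) inf_le_left hπN
      have h2 : (D ⊓ normalizer (T : Set G)).relIndex (N ⊓ normalizer (T : Set G)) =
          D.relIndex (N ⊓ normalizer (T : Set G)) := by
        rw [← Subgroup.inf_relIndex_right (D ⊓ normalizer (T : Set G)),
          ← Subgroup.inf_relIndex_right D]
        congr 1
        ext x
        simp only [mem_inf]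
        exact ⟨fun h => ⟨h.1.1, h.2⟩, fun h => ⟨⟨h.1, h.2.2⟩, h.2⟩⟩
      rw [h2]; exact h1)
  set W := U ⊔ (T ⊔ Q) with hW
  have hTQ : T ≤ normalizer (Q : Set G) := fun x hx => (hDN (hTD hx)).2
  have hUTQ : U ≤ normalizer ((T ⊔ Q : Subgroup G) : Set G) := by
    intro x hx
    have h1 := (hU hx).2
    have h2 := (hU hx).1.2
    have hmapT : cj x T ≤ T := by
      rintro _ ⟨y, hy, rfl⟩; exact (Subgroup.mem_normalizer_iff.1 h1 y).1 hy
    have hmapQ : cj x Q ≤ Q := by
      rintro _ ⟨y, hy, rfl⟩; exact (Subgroup.mem_normalizer_iff.1 h2 y).1 hy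
    have he : cj x (T ⊔ Q) = T ⊔ Q := by
      refine eq_of_le_of_card_ge ?_ (card_cj _ _).ge
      rw [cj, Subgroup.map_sup]; exact sup_le_sup hmapT hmapQ
    refine Subgroup.mem_normalizer_iff.2 fun y => ⟨fun hy => he ▸ ⟨y, hy, rfl⟩, fun hy => ?_⟩
    rw [← he] at hy
    obtain ⟨z, hz, hze⟩ := hy
    exact (MulAut.conj x).injective hze ▸ hz
  have hWπ : IsPiSubgroup π W :=
    isPi_sup hUTQ hUπ (isPi_sup hTQ (isPi_of_pGroup hp (T₀.2.map _)) (isPi_of_pGroup hp hQ))
  have hWN : W ≤ N := sup_le (fun x hx => (hU hx).1) (sup_le (hTD.trans hDN)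
    (le_inf hQA Subgroup.le_normalizer))
  have hQW : Q ≤ W := le_sup_right.trans le_sup_right
  have hdec : ∀ n ∈ N, ∃ w ∈ W, ∃ d ∈ D, n = w * d := by
    intro n hn
    obtain ⟨d, hd, hdn⟩ := frattini hDN hnorm T₀ hn
    obtain ⟨u, hu, d', hd', he⟩ := hUdec _ hdn
    refine ⟨u, (le_sup_left : U ≤ W) hu, d' * ((d * n)⁻¹ * d⁻¹ * (d * n)),
      mul_mem hd'.1 ?_, ?_⟩
    · have := hnorm (d * n)⁻¹ (inv_mem hdn.1) d⁻¹ (inv_mem hd)
      simpa using this
    · rw [← mul_assoc, ← he]; group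
  -- every `p`-subgroup of `N` is conjugate into `W` under `D`
  have hinto : ∀ R : Subgroup G, IsPGroup p R → R ≤ N → ∃ d ∈ D, cj d R ≤ W := by
    intro R hR hRN
    obtain ⟨SW⟩ : Nonempty (Sylow p W) := inferInstance
    set S := (SW : Subgroup W).map W.subtype with hS
    have hSW : S ≤ W := map_subtype_le _
    have hidx : ¬ p ∣ S.relIndex N := by
      rw [← Subgroup.relIndex_mul_relIndex S W N hSW hWN]
      intro h
      rcases (Fact.out : p.Prime).dvd_mul.1 h with h | h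
      · refine SW.not_dvd_index ?_
        rwa [Subgroup.relIndex, hS, Subgroup.subgroupOf,
          Subgroup.comap_map_eq_self_of_injective W.subtype_injective] at h
      · have hsup : W ⊔ D = N := le_antisymm (sup_le hWN hDN) fun n hn => by
          obtain ⟨w, hw, d, hd, rfl⟩ := hdec n hn
          exact mul_mem ((le_sup_left : W ≤ W ⊔ D) hw) ((le_sup_right : D ≤ W ⊔ D) hd)
        have hWD : W ≤ normalizer (D : Set G) := by
          intro w hw
          refine Subgroup.mem_normalizer_iff.2 fun x => ⟨fun hx => hnorm w (hWN hw) x hx, fun hx => ?_⟩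
          have := hnorm w⁻¹ (inv_mem (hWN hw)) _ hx
          simpa [mul_assoc] using this
        -- compare orders
        have e1 := Fusion.card_mul_relIndex' (le_sup_right : D ≤ W ⊔ D)
        rw [Fusion.relIndex_sup_of_normalizes hWD, hsup] at e1
        have e2 := Fusion.card_mul_relIndex' hWN
        have e3 : Nat.card (D ⊓ W : Subgroup G) * D.relIndex W = Nat.card W := by
          rw [← Subgroup.inf_relIndex_right D]; exact Fusion.card_mul_relIndex' inf_le_right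
        have e4 := Fusion.card_mul_relIndex' (inf_le_left : D ⊓ W ≤ D)
        have e5 : W.relIndex N = (D ⊓ W).relIndex D := by
          have h0 : 0 < Nat.card (D ⊓ W : Subgroup G) := Nat.card_pos
          have h0' : 0 < D.relIndex W := Nat.pos_of_ne_zero (Fusion.relIndex_ne_zero _ _)
          apply Nat.eq_of_mul_eq_mul_left (Nat.mul_pos h0 h0')
          rw [e3, e2, ← e1, ← e4, ← e3]; ring
        rw [e5] at h
        refine T₀.not_dvd_index ?_
        have h6 : T.relIndex D = (T₀ : Subgroup D).index := by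
          rw [Subgroup.relIndex, hT, Subgroup.subgroupOf,
            Subgroup.comap_map_eq_self_of_injective D.subtype_injective]
        rw [← h6, ← Subgroup.relIndex_mul_relIndex T (D ⊓ W) D
          (le_inf hTD (le_sup_left.trans (le_sup_right : T ⊔ Q ≤ W))) inf_le_left]
        exact h.trans (dvd_mul_left _ _)
    -- Sylow's theorem in `N`
    obtain ⟨SN, hSN⟩ := ((SW.2.map W.subtype).comap_subtype (K := N) : IsPGroup p (S.subgroupOf N)).exists_le_sylow
    have hSeq : S.subgroupOf N = (SN : Subgroup N) := by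
      refine eq_of_le_of_card_ge hSN ?_
      obtain ⟨j, hj⟩ := IsPGroup.iff_card.1 SN.2
      have hd : Nat.card (SN : Subgroup N) ∣ Nat.card (S.subgroupOf N) := by
        have h1 : Nat.card (SN : Subgroup N) ∣ Nat.card (S.subgroupOf N) * (S.subgroupOf N).index := by
          rw [Subgroup.card_mul_index]; exact Subgroup.card_subgroup_dvd_card _
        refine Nat.Coprime.dvd_of_dvd_mul_right ?_ h1
        rw [hj]
        exact Nat.Coprime.pow_left _ ((Fact.out : p.Prime).coprime_iff_not_dvd.2 hidx)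
      exact Nat.le_of_dvd Nat.card_pos hd
    obtain ⟨RN, hRN'⟩ := (hR.comap_subtype (K := N) : IsPGroup p (R.subgroupOf N)).exists_le_sylow
    obtain ⟨n, hn⟩ := MulAction.exists_smul_eq N RN SN
    obtain ⟨w, hw, d, hd, hwd⟩ := hdec n n.2
    refine ⟨d, hd, ?_⟩
    rintro _ ⟨x, hx, rfl⟩
    have h1 : (n : N) * ⟨x, hRN hx⟩ * n⁻¹ ∈ S.subgroupOf N := by
      rw [hSeq, ← hn, Sylow.coe_subgroup_smul, mem_pointwise_smul_iff_inv_smul_mem]
      simpa [MulAut.smul_def, mul_assoc] using hRN' (mem_subgroupOf.2 hx : (⟨x, hRN hx⟩ : N) ∈ R.subgroupOf N)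
    have h2 : (n : G) * x * (n : G)⁻¹ ∈ W := hSW (mem_subgroupOf.1 h1)
    rw [hwd] at h2
    have h3 := mul_mem (mul_mem (inv_mem hw) h2) hw
    simpa [mul_assoc] using h3
  -- a reference maximal π-subgroup
  obtain ⟨H₀, hH₀, hle⟩ := exists_mx_ge (isPi_sup
    ((hWN.trans inf_le_left).trans (centralizer_le_normalizer _)) hWπ hA)
  have hAH₀ : A ≤ H₀ := le_sup_right.trans hle
  have hWH₀ : W ≤ H₀ := le_sup_left.trans hle
  have key : ∀ H₁ : Subgroup G, Maximal (IsPiSubgroup π) H₁ → A ≤ H₁ → Q ≤ H₁ →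
      ∃ c, c ∈ L ∧ c ∈ centralizer (Q : Set G) ∧ H₀ = cj c H₁ := by
    intro H₁ hH₁ hAH₁ hQH₁
    obtain ⟨P₀, hP₀⟩ :=
      (hQ.comap_subtype (K := H₁ ⊓ L) : IsPGroup p (Q.subgroupOf (H₁ ⊓ L))).exists_le_sylow
    set P₁ := (P₀ : Subgroup ↥(H₁ ⊓ L)).map (H₁ ⊓ L).subtype with hP₁
    have hP₁HL : P₁ ≤ H₁ ⊓ L := map_subtype_le _
    have hQP₁ : Q ≤ P₁ := fun x hx =>
      ⟨⟨x, hQH₁ hx, hQA hx⟩, hP₀ (mem_subgroupOf.2 hx), rfl⟩
    rcases hQP₁.lt_or_eq with hlt | heq
    · -- grow `Q`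
      set R := P₁ ⊓ normalizer (Q : Set G) with hR
      have hQR : Q < R := Fusion.lt_normalizer_inf (P₀.2.map _) hlt
      have hRp : IsPGroup p R := (P₀.2.map _).to_le inf_le_left
      have hRN : R ≤ N := fun x hx => ⟨(hP₁HL hx.1).2, hx.2⟩
      obtain ⟨d, hd, hdR⟩ := hinto R hRp hRN
      have hcard : Nat.card G - Nat.card (cj d R) < k := by
        rw [← hk, card_cj]
        have h1 : Nat.card Q < Nat.card R := Set.ncard_lt_ncard (SetLike.coe_ssubset_coe.mpr hQR) (Set.toFinite _)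
        have h2 := Subgroup.card_le_card_group R
        omega
      have hdA : cj d A = A := cj_fix hd.1
      have hdQ : cj d Q = Q := cj_fix hd.2
      obtain ⟨c, hcA, hcR, hc⟩ := ih _ hcard (cj d R) rfl (hRp.map _)
        (hdR.trans (hWN.trans inf_le_left)) (cj d H₁) H₀ (mx_cj hH₁) hH₀
        (hdA ▸ cj_mono d hAH₁) hAH₀ (cj_mono d (fun x hx => (hP₁HL hx.1).1)) (hdR.trans hWH₀)
      refine ⟨c * d, mul_mem hcA hd.1, mul_mem ?_ hd.2, by rw [hc, cj_cj]⟩
      exact centralizer_le (hdQ ▸ cj_mono d hQR.le : Q ≤ cj d R) hcR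
    · -- `Q` is a Sylow subgroup of `H₁ ∩ L`
      obtain ⟨l, hl, hle'⟩ := hE H₁ H₀ hH₁ hH₀ hAH₁ hAH₀
      set K := H₀ ⊓ L with hK
      have hlQK : cj l Q ≤ K := le_inf (hle' ▸ cj_mono l hQH₁) (by
        rintro _ ⟨x, hx, rfl⟩; exact mul_mem (mul_mem hl (hQA hx)) (inv_mem hl))
      have hQK : Q ≤ K := le_inf (hQW.trans hWH₀) hQA
      obtain ⟨S1, hS1⟩ := (hQ.comap_subtype (K := K) : IsPGroup p (Q.subgroupOf K)).exists_le_sylow
      obtain ⟨S2, hS2⟩ := ((hQ.map _).comap_subtype (K := K) : IsPGroup p ((cj l Q).subgroupOf K)).exists_le_sylow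
      -- `cj l Q` is a Sylow subgroup of `K`
      have hmax : (S2 : Subgroup K) = (cj l Q).subgroupOf K := by
        refine le_antisymm (fun x hx => ?_) hS2
        have hback : ∀ y ∈ (S2 : Subgroup K), l⁻¹ * (y : G) * l ∈ H₁ ⊓ L := fun y _ =>
          mem_inf.2 ⟨mem_cj.1 (hle' ▸ (mem_inf.1 y.2).1),
            L.mul_mem (L.mul_mem (L.inv_mem hl) (mem_inf.1 y.2).2) hl⟩
        set V := cj l⁻¹ ((S2 : Subgroup K).map K.subtype) with hV
        have hVle : V ≤ H₁ ⊓ L := by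
          rintro _ ⟨_, ⟨y, hy, rfl⟩, rfl⟩
          simpa using hback y hy
        have hP₀V : (P₀ : Subgroup ↥(H₁ ⊓ L)) ≤ V.subgroupOf (H₁ ⊓ L) := by
          intro y hy
          rw [mem_subgroupOf]
          have hyQ : (y : G) ∈ Q := heq ▸ (⟨y, hy, rfl⟩ : (y : G) ∈ P₁)
          refine mem_cj.2 ⟨⟨_, hlQK ⟨y, hyQ, rfl⟩⟩, hS2 (mem_subgroupOf.2 ⟨y, hyQ, rfl⟩), ?_⟩
          simp [mul_assoc]
        have he := P₀.is_maximal' (((S2.2.map K.subtype).map _).comap_subtype (K := H₁ ⊓ L)) hP₀V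
        have hxV : l⁻¹ * (x : G) * l ∈ V :=
          mem_cj.2 ⟨x, hx, by simp [mul_assoc]⟩
        have hxP : (⟨_, hback x hx⟩ : ↥(H₁ ⊓ L)) ∈ (P₀ : Subgroup ↥(H₁ ⊓ L)) :=
          he ▸ (mem_subgroupOf.2 hxV)
        refine mem_subgroupOf.2 (mem_cj.2 ?_)
        exact heq ▸ (⟨_, hxP, rfl⟩ : l⁻¹ * (x : G) * l ∈ P₁)
      have hS1eq : (S1 : Subgroup K) = Q.subgroupOf K := by
        refine (eq_of_le_of_card_ge hS1 ?_).symm
        rw [S1.card_eq_multiplicity, ← S2.card_eq_multiplicity, hmax,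
          Nat.card_congr (subgroupOfEquivOfLe hlQK).toEquiv, card_cj]
        exact (Nat.card_congr (subgroupOfEquivOfLe hQK).toEquiv).ge
      obtain ⟨h, hh⟩ := MulAction.exists_smul_eq K S2 S1
      set n := (h : G) * l with hn
      have hnQ : n ∈ normalizer (Q : Set G) := by
        have hle2 : cj n Q ≤ Q := by
          rintro _ ⟨x, hx, rfl⟩
          have h1 : (⟨_, hlQK ⟨x, hx, rfl⟩⟩ : K) ∈ (S2 : Subgroup K) := hS2 (mem_subgroupOf.2 ⟨x, hx, rfl⟩)
          have h2 : h * ⟨_, hlQK ⟨x, hx, rfl⟩⟩ * h⁻¹ ∈ (S1 : Subgroup K) := by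
            rw [← hh, Sylow.coe_subgroup_smul, mem_pointwise_smul_iff_inv_smul_mem]
            simpa [MulAut.smul_def, mul_assoc] using h1
          rw [hS1eq, mem_subgroupOf] at h2
          simpa [hn, mul_assoc] using h2
        have he : cj n Q = Q := eq_of_le_of_card_ge hle2 (card_cj _ _).ge
        refine Subgroup.mem_normalizer_iff.2 fun y => ⟨fun hy => he ▸ ⟨y, hy, rfl⟩, fun hy => ?_⟩
        rw [← he] at hy
        obtain ⟨z, hz, hze⟩ := hy
        exact (MulAut.conj n).injective hze ▸ hz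
      have hnN : n ∈ N := ⟨mul_mem h.2.2 hl, hnQ⟩
      obtain ⟨w, hw, d, hd, hwd⟩ := hdec n hnN
      refine ⟨d, hd.1, hd.2, ?_⟩
      have e1 : H₀ = cj n H₁ := by rw [hn, ← cj_cj, ← hle', cj_eq_self h.2.1]
      calc H₀ = cj w⁻¹ H₀ := (cj_eq_self (inv_mem (hWH₀ hw))).symm
        _ = cj d H₁ := by rw [e1, cj_cj, hwd, inv_mul_cancel_left]
  intro H₁ H₂ hH₁ hH₂ hA1 hA2 hQ1 hQ2
  obtain ⟨c₁, a1, b1, e1⟩ := key H₁ hH₁ hA1 hQ1
  obtain ⟨c₂, a2, b2, e2⟩ := key H₂ hH₂ hA2 hQ2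
  exact ⟨c₂⁻¹ * c₁, mul_mem (inv_mem a2) a1, mul_mem (inv_mem b2) b1,
    by rw [← cj_cj, ← e1]; exact cj_inv_eq e2⟩

theorem conjUnder_zpowers (hD : IsDPiGroup π G) (hhom : IsHom π G) :
    ∀ (k : ℕ) (x : G), orderOf x = k → PiNat π (orderOf x) → ConjUnder π (zpowers x) := by
  intro k
  induction k using Nat.strong_induction_on with
  | _ k ih =>
  intro x hk hx
  rcases eq_or_ne x 1 with rfl | hx1
  · intro H₁ H₂ h1 h2 _ _
    obtain ⟨g, hg⟩ := hD H₁ H₂ h1 h2
    refine ⟨g, mem_centralizer_iff.2 fun y hy => ?_, hg⟩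
    rw [zpowers_one_eq_bot] at hy
    rw [Subgroup.mem_bot.1 hy, one_mul, mul_one]
  obtain ⟨p, hp, hpd⟩ := Nat.exists_prime_and_dvd (fun h => hx1 (orderOf_eq_one_iff.1 h))
  haveI := Fact.mk hp
  set a := ordProj[p] (orderOf x) with ha
  set b := ordCompl[p] (orderOf x) with hb
  have hab : a * b = orderOf x := Nat.ordProj_mul_ordCompl_eq_self _ _
  have hcop : Nat.Coprime a b := (Nat.coprime_ordCompl hp (orderOf_pos x).ne').pow_left _
  set y := x ^ a with hy
  set z := x ^ b with hz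
  have hoy : orderOf y = b := by
    rw [hy, orderOf_pow, Nat.gcd_eq_right (hab ▸ dvd_mul_right a b)]
  have hlt : b < k := by
    rw [← hk, ← hab]
    refine lt_mul_of_one_lt_left (Nat.ordCompl_pos _ (orderOf_pos x).ne') ?_
    exact Nat.one_lt_pow ((hp.factorization_pos_of_dvd (orderOf_pos x).ne' hpd).ne') hp.one_lt
  have hyπ : PiNat π (orderOf y) := hx.of_dvd (orderOf_dvd_of_pow_eq_one (by
    rw [← pow_mul, mul_comm, pow_mul, pow_orderOf_eq_one, one_pow]))
  have hE := ih b hlt y hoy hyπ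
  have hA : IsPiSubgroup π (zpowers y) := fun r hr hd => hyπ r hr (Nat.card_zpowers y ▸ hd)
  have hQ : IsPGroup p (zpowers z) := by
    obtain ⟨j, -, hj⟩ := (Nat.dvd_prime_pow hp).1 (orderOf_dvd_of_pow_eq_one
      (show z ^ (p ^ (orderOf x).factorization p) = 1 by
        rw [hz, ← pow_mul, mul_comm, ← ha, hab, pow_orderOf_eq_one]))
    exact IsPGroup.of_card (n := j) (by rw [Nat.card_zpowers, hj])
  have hQA : zpowers z ≤ centralizer (zpowers y : Set G) := by
    refine zpowers_le.2 (mem_centralizer_iff.2 fun w hw => ?_)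
    obtain ⟨i, rfl⟩ := mem_zpowers_iff.1 hw
    exact (((Commute.refl x).pow_pow a b).zpow_left i).eq
  intro H₁ H₂ h1 h2 hx1' hx2'
  have hxm : ∀ {H : Subgroup G}, zpowers x ≤ H → zpowers y ≤ H ∧ zpowers z ≤ H := fun h =>
    ⟨zpowers_le.2 (pow_mem (h (mem_zpowers x)) _), zpowers_le.2 (pow_mem (h (mem_zpowers x)) _)⟩
  obtain ⟨c, hcA, hcQ, he⟩ := conj_step hhom (hx p hp hpd) hA hE _ (zpowers z) rfl hQ hQA H₁ H₂ h1 h2
    (hxm hx1').1 (hxm hx2').1 (hxm hx1').2 (hxm hx2').2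
  refine ⟨c, mem_centralizer_iff.2 fun w hw => ?_, he⟩
  have hcy : Commute y c := mem_centralizer_iff.1 hcA y (mem_zpowers y)
  have hcz : Commute z c := mem_centralizer_iff.1 hcQ z (mem_zpowers z)
  obtain ⟨i, rfl⟩ := mem_zpowers_iff.1 hw
  have : x = y ^ (Nat.gcdA a b) * z ^ (Nat.gcdB a b) := by
    have h := Nat.gcd_eq_gcd_ab a b
    rw [hcop] at h
    rw [hy, hz, ← zpow_natCast x a, ← zpow_natCast x b, ← zpow_mul, ← zpow_mul, ← zpow_add, ← h]
    simp
  rw [this]
  exact (((hcy.zpow_left _).mul_left (hcz.zpow_left _)).zpow_left i).eq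

variable {H : Subgroup G}

/-- A maximal π-subgroup is a Hall subgroup. -/
theorem not_dvd_index (hD : IsDPiGroup π G) (hH : Maximal (IsPiSubgroup π) H) {p : ℕ} (hp : p.Prime)
    (hpπ : p ∈ π) : ¬ p ∣ H.index := by
  haveI := Fact.mk hp
  obtain ⟨S⟩ : Nonempty (Sylow p G) := inferInstance
  obtain ⟨M, hM, hSM⟩ := exists_mx_ge (isPi_of_pGroup hpπ S.2)
  obtain ⟨g, hg⟩ := hD M H hM hH
  intro hd
  have e : M.index = H.index := by
    have h1 := H.card_mul_index
    rw [hg, show Nat.card (M.map (MulAut.conj g).toMonoidHom) = Nat.card M from card_cj g M,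
      ← M.card_mul_index, ← hg] at h1
    exact (Nat.eq_of_mul_eq_mul_left Nat.card_pos h1).symm
  exact S.not_dvd_index ((e ▸ hd).trans (index_dvd_of_le hSM))

theorem conj_into (hD : IsDPiGroup π G) (hH : Maximal (IsPiSubgroup π) H) {U : Subgroup G}
    (hU : IsPiSubgroup π U) : ∃ g : G, cj g U ≤ H := by
  obtain ⟨M, hM, hle⟩ := exists_mx_ge hU
  obtain ⟨g, hg⟩ := hD M H hM hH
  exact ⟨g, hg ▸ cj_mono g hle⟩

theorem centralizer_hall (hD : IsDPiGroup π G) (hhom : IsHom π G)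
    (hH : Maximal (IsPiSubgroup π) H) {x : G} (hx : x ∈ H) {p : ℕ} (hp : p.Prime) (hpπ : p ∈ π) :
    ¬ p ∣ (H ⊓ centralizer ({x} : Set G)).relIndex (centralizer ({x} : Set G)) := by
  haveI := Fact.mk hp
  set C := centralizer ({x} : Set G)
  obtain ⟨S⟩ : Nonempty (Sylow p C) := inferInstance
  set U := (S : Subgroup C).map C.subtype with hU
  have hxπ : PiNat π (orderOf x) :=
    (show PiNat π (Nat.card H) from hH.1).of_dvd (Subgroup.orderOf_dvd_natCard _ hx)
  have hA : IsPiSubgroup π (zpowers x) := fun r hr hd => hxπ r hr (Nat.card_zpowers x ▸ hd)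
  have hUA : U ≤ centralizer (zpowers x : Set G) := fun u hu => mem_centralizer_iff.2 fun w hw => by
    obtain ⟨i, rfl⟩ := mem_zpowers_iff.1 hw
    have : Commute x u := (mem_centralizer_singleton_iff.1 (map_subtype_le (S : Subgroup C) hu)).symm
    exact (this.zpow_left i).eq
  obtain ⟨c, hc, hle⟩ := absorb hA (conjUnder_zpowers hD hhom _ x rfl hxπ) hH (zpowers_le.2 hx)
    (isPi_of_pGroup hpπ (S.2.map _)) hUA
  have hcC : c ∈ C := mem_centralizer_singleton_iff.2 (mem_centralizer_iff.1 hc x (mem_zpowers x)).symm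
  have hle2 : cj c U ≤ H ⊓ C := le_inf hle (by
    rintro _ ⟨u, hu, rfl⟩
    exact mul_mem (mul_mem hcC (map_subtype_le (S : Subgroup C) hu)) (inv_mem hcC))
  intro hd
  have hUC : cj c U ≤ C := hle2.trans inf_le_right
  have h1 : p ∣ (cj c U).relIndex C := hd.trans (Dvd.intro_left _
    (Subgroup.relIndex_mul_relIndex (cj c U) (H ⊓ C) C hle2 inf_le_right))
  have e1 := Fusion.card_mul_relIndex' hUC
  rw [card_cj, hU, card_map_of_injective C.subtype_injective, ← (S : Subgroup C).card_mul_index] at e1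
  exact S.not_dvd_index (Nat.eq_of_mul_eq_mul_left Nat.card_pos e1 ▸ h1)

theorem fusion (hD : IsDPiGroup π G) (hhom : IsHom π G) (hH : Maximal (IsPiSubgroup π) H)
    {x y : G} (hx : x ∈ H) (hy : y ∈ H) (hc : IsConj x y) : ∃ h ∈ H, h * x * h⁻¹ = y := by
  rcases eq_or_ne x 1 with rfl | hx1
  · exact ⟨1, one_mem _, by rw [(isConj_one_right.1 hc : y = 1)]; simp⟩
  obtain ⟨g, hg⟩ := isConj_iff.1 hc
  have hxπ : PiNat π (orderOf x) :=
    (show PiNat π (Nat.card H) from hH.1).of_dvd (Subgroup.orderOf_dvd_natCard _ hx)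
  obtain ⟨c, hc, he⟩ := conjUnder_zpowers hD hhom _ x rfl hxπ H (cj g⁻¹ H) hH (mx_cj hH)
    (zpowers_le.2 hx) (zpowers_le.2 (mem_cj.2 (by rw [inv_inv, hg]; exact hy)))
  set n := g * c with hn
  have hnH : cj n H = H := by rw [hn, ← cj_cj, ← he, cj_cj, mul_inv_cancel, cj_one]
  have hnN : n ∈ normalizer (H : Set G) := by
    refine Subgroup.mem_normalizer_iff.2 fun z => ⟨fun hz => hnH ▸ ⟨z, hz, rfl⟩, fun hz => ?_⟩
    rw [← hnH] at hz
    obtain ⟨w, hw, hwe⟩ := hz
    exact (MulAut.conj n).injective hwe ▸ hw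
  -- `N(H) = H C(H)`
  set N := normalizer (H : Set G) with hN
  set C := centralizer (H : Set G) with hC
  set S := H ⊔ C with hS
  have hSN : S ≤ N := sup_le Subgroup.le_normalizer (centralizer_le_normalizer _)
  have hH0 : H ≠ ⊥ := fun e => hx1 (Subgroup.mem_bot.1 (e ▸ hx))
  have hone : S.relIndex N = 1 := by
    by_contra hne
    obtain ⟨r, hr, hrd⟩ := Nat.exists_prime_and_dvd hne
    have h1 : r ∣ C.relIndex N :=
      hrd.trans (Dvd.intro_left _ (Subgroup.relIndex_mul_relIndex C S N le_sup_right hSN))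
    have h2 : r ∣ H.relIndex N :=
      hrd.trans (Dvd.intro_left _ (Subgroup.relIndex_mul_relIndex H S N le_sup_left hSN))
    exact not_dvd_index hD hH hr (hhom H hH0 hH.1 r hr h1)
      (h2.trans (Subgroup.relIndex_dvd_index_of_le Subgroup.le_normalizer))
  have hnS : n ∈ S := Subgroup.relIndex_eq_one.1 hone hnN
  obtain ⟨h, hh, d, hd, hhd⟩ := Fusion.mem_sup_of_normalizes (N := C) (H := H) (fun z hz =>
    Subgroup.mem_normalizer_iff.2 fun w => by
      have key : ∀ z ∈ H, ∀ w ∈ C, z * w * z⁻¹ ∈ C := fun z hz w hw => by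
        rw [mem_centralizer_iff.1 hw z hz, mul_inv_cancel_right]; exact hw
      refine ⟨key z hz w, fun hw => ?_⟩
      have := key z⁻¹ (inv_mem hz) _ hw
      simpa [mul_assoc] using this) hnS
  refine ⟨h, hh, ?_⟩
  have hcx : c * x * c⁻¹ = x := by
    rw [← mem_centralizer_iff.1 hc x (mem_zpowers x), mul_inv_cancel_right]
  have hdx : d * x * d⁻¹ = x := by rw [← mem_centralizer_iff.1 hd x hx, mul_inv_cancel_right]
  calc h * x * h⁻¹ = h * (d * x * d⁻¹) * h⁻¹ := by rw [hdx]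
    _ = n * x * n⁻¹ := by rw [← hhd]; group
    _ = g * (c * x * c⁻¹) * g⁻¹ := by rw [hn]; group
    _ = y := by rw [hcx, hg]

end Cfsg.Agent.Lib.GS.PiHom
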