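import Cfsg.Agent.Lib.GS.PiClosed
import Cfsg.Agent.Lib.Fusion.Sylow
import Mathlib.GroupTheory.SchurZassenhaus

/-!
A normal subgroup with a π-number index has a π-subgroup as a supplement.
-/

set_option autoImplicit false

namespace Cfsg.Agent.Lib.GS.PiHom

open Subgroup

universe u

variable {G : Type u} [Group G] [Finite G] {π : Set ℕ}

/-- Frattini argument, in element form. -/
theorem frattini {p : ℕ} [Fact p.Prime] {D M : Subgroup G} (hDM : D ≤ M)
    (hn : ∀ m ∈ M, ∀ d ∈ D, m * d * m⁻¹ ∈ D) (T : Sylow p D) {m : G} (hm : m ∈ M) :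
    ∃ d ∈ D, d * m ∈ M ⊓ normalizer (((T : Subgroup D).map D.subtype : Subgroup G) : Set G) := by
  set T' := (T : Subgroup D).map D.subtype with hT'
  have hT'D : T' ≤ D := map_subtype_le _
  have hmT : T'.map (MulAut.conj m).toMonoidHom ≤ D := by
    rintro _ ⟨x, hx, rfl⟩; exact hn m hm x (hT'D hx)
  obtain ⟨U, hU⟩ := ((((T.2.map D.subtype).map (MulAut.conj m).toMonoidHom).comap_subtype
    (K := D)) : IsPGroup p ((T'.map (MulAut.conj m).toMonoidHom).subgroupOf D)).exists_le_sylow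
  obtain ⟨d, hd⟩ := MulAction.exists_smul_eq D U T
  refine ⟨d, d.2, mem_inf.2 ⟨mul_mem (hDM d.2) hm, ?_⟩⟩
  have hle : T'.map (MulAut.conj ((d : G) * m)).toMonoidHom ≤ T' := by
    rintro _ ⟨x, hx, rfl⟩
    have h1 : (⟨m * x * m⁻¹, hn m hm x (hT'D hx)⟩ : D) ∈ (U : Subgroup D) :=
      hU (mem_subgroupOf.2 ⟨x, hx, rfl⟩)
    have h2 : d * ⟨m * x * m⁻¹, hn m hm x (hT'D hx)⟩ * d⁻¹ ∈ (T : Subgroup D) := by
      rw [← hd, Sylow.coe_subgroup_smul, mem_pointwise_smul_iff_inv_smul_mem]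
      simpa [MulAut.smul_def, mul_assoc] using h1
    exact ⟨_, h2, by simp [mul_assoc]⟩
  have he : T'.map (MulAut.conj ((d : G) * m)).toMonoidHom = T' :=
    eq_of_le_of_card_ge hle (card_map_of_injective (MulAut.conj ((d : G) * m)).injective).ge
  refine Subgroup.mem_normalizer_iff.2 fun x => ⟨fun hx => he ▸ ⟨x, hx, rfl⟩, fun hx => ?_⟩
  rw [← he] at hx
  obtain ⟨y, hy, hye⟩ := hx
  exact (MulAut.conj ((d : G) * m)).injective hye ▸ hy

theorem piNat_quotient_of_le {D M M' : Subgroup G} (hM' : M' ≤ M)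
    [(D.subgroupOf M).Normal] (h : PiNat π (D.relIndex M)) : PiNat π (D.relIndex M') := by
  refine h.of_dvd ?_
  set φ : M' →* M ⧸ D.subgroupOf M := (QuotientGroup.mk' _).comp (Subgroup.inclusion hM') with hφ
  have hker : φ.ker = D.subgroupOf M' := by
    ext x
    exact QuotientGroup.eq_one_iff (Subgroup.inclusion hM' x)
  have := Subgroup.index_ker φ
  rw [hker] at this
  rw [Subgroup.relIndex, this, Subgroup.relIndex, Subgroup.index_eq_card]
  exact Subgroup.card_subgroup_dvd_card _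

theorem exists_pi_supplement : ∀ (k : ℕ) (D M : Subgroup G), Nat.card M = k →
    (∀ m ∈ M, ∀ d ∈ D, m * d * m⁻¹ ∈ D) → PiNat π (D.relIndex M) →
    ∃ U : Subgroup G, U ≤ M ∧ PiNat π (Nat.card U) ∧
      ∀ x ∈ M, ∃ u ∈ U, ∃ d ∈ D, x = u * d := by
  intro k
  induction k using Nat.strong_induction_on with
  | _ k ih =>
  intro D M hk hn hπ
  haveI hnorm : (D.subgroupOf M).Normal :=
    ⟨fun x hx g => by rw [mem_subgroupOf] at hx ⊢; exact hn g g.2 x hx⟩
  by_cases hall : PiNat π (Nat.card M)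
  · exact ⟨M, le_rfl, hall, fun x hx => ⟨x, hx, 1, one_mem _, (mul_one x).symm⟩⟩
  simp only [PiNat, not_forall] at hall
  obtain ⟨r, hr, hrM, hrπ⟩ := hall
  haveI := Fact.mk hr
  -- the passage to a smaller supplement
  have hstep : ∀ M' : Subgroup G, M' ≤ M → Nat.card M' < k →
      (∀ x ∈ M, ∃ m ∈ M', ∃ d ∈ D, x = m * d) →
      ∃ U : Subgroup G, U ≤ M ∧ PiNat π (Nat.card U) ∧ ∀ x ∈ M, ∃ u ∈ U, ∃ d ∈ D, x = u * d := by
    intro M' hM' hlt hdec
    obtain ⟨U, hU, hUπ, hUdec⟩ := ih _ hlt D M' rfl (fun m hm => hn m (hM' hm))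
      (piNat_quotient_of_le hM' hπ)
    refine ⟨U, hU.trans hM', hUπ, fun x hx => ?_⟩
    obtain ⟨m, hm, d, hd, rfl⟩ := hdec x hx
    obtain ⟨u, hu, d', hd', rfl⟩ := hUdec m hm
    exact ⟨u, hu, d' * d, mul_mem hd' hd, mul_assoc _ _ _⟩
  set E := D ⊓ M with hE
  have hnE : ∀ m ∈ M, ∀ d ∈ E, m * d * m⁻¹ ∈ E := fun m hm d hd =>
    mem_inf.2 ⟨hn m hm d hd.1, mul_mem (mul_mem hm hd.2) (inv_mem hm)⟩
  obtain ⟨RE⟩ : Nonempty (Sylow r E) := inferInstance
  set RG := (RE : Subgroup E).map E.subtype with hRG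
  have hRGE : RG ≤ E := map_subtype_le _
  -- `E` carries the whole `r`-part of `M`
  have hrE : ¬ r ∣ E.relIndex M := by
    rw [hE, Subgroup.inf_relIndex_right]; exact fun h => hrπ (hπ r hr h)
  by_cases hnormR : M ≤ normalizer (RG : Set G)
  · -- Schur-Zassenhaus
    haveI : (RG.subgroupOf M).Normal := normal_subgroupOf_iff_le_normalizer (hRGE.trans inf_le_right) |>.2 hnormR
    have hcard : Nat.card (RG.subgroupOf M) = Nat.card RG :=
      Nat.card_congr (subgroupOfEquivOfLe (hRGE.trans inf_le_right)).toEquiv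
    have hidx : ¬ r ∣ (RG.subgroupOf M).index := by
      rw [show (RG.subgroupOf M).index = RG.relIndex M from rfl,
        ← Subgroup.relIndex_mul_relIndex RG E M hRGE inf_le_right]
      intro h
      rcases hr.dvd_mul.1 h with h | h
      · refine RE.not_dvd_index ?_
        rwa [Subgroup.relIndex, hRG, Subgroup.subgroupOf,
          Subgroup.comap_map_eq_self_of_injective E.subtype_injective] at h
      · exact hrE h
    obtain ⟨j, hj⟩ := IsPGroup.iff_card.1 (RE.2.map E.subtype)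
    have hco : Nat.Coprime (Nat.card (RG.subgroupOf M)) (RG.subgroupOf M).index := by
      rw [hcard, hRG, hj]
      exact Nat.Coprime.pow_left _ (hr.coprime_iff_not_dvd.2 hidx)
    obtain ⟨V, hV⟩ := Subgroup.exists_right_complement'_of_coprime hco
    refine hstep (V.map M.subtype) (map_subtype_le _) ?_ fun x hx => ?_
    · rw [← hk, card_map_of_injective M.subtype_injective, ← hV.card_mul]
      refine lt_mul_of_one_lt_left Nat.card_pos ?_
      rcases Nat.eq_zero_or_pos j with rfl | hj0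
      · exfalso
        apply hidx
        have : Nat.card (RG.subgroupOf M) = 1 := by rw [hcard, hRG, hj, pow_zero]
        clear hV
        have h2 := (RG.subgroupOf M).card_mul_index
        rw [this, one_mul] at h2
        rw [h2]
        exact hrM
      · rw [hcard, hRG, hj]; exact Nat.one_lt_pow hj0.ne' hr.one_lt
    · obtain ⟨⟨a, b⟩, hab⟩ := hV.2 ⟨x, hx⟩
      refine ⟨(b : M), ⟨b, b.2, rfl⟩, ((b : M) : G)⁻¹ * (a : M) * (b : M), ?_, ?_⟩
      · have := hn ((b : M) : G)⁻¹ (inv_mem (b : M).2) _ (hRGE (mem_subgroupOf.1 a.2)).1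
        simpa using this
      · have := congrArg Subtype.val hab
        simp only [Subgroup.coe_mul] at this
        rw [← this]; group
  · refine hstep (M ⊓ normalizer (RG : Set G)) inf_le_left ?_ fun x hx => ?_
    · rw [← hk]
      by_contra hge
      push Not at hge
      exact hnormR (inf_eq_left.1 (eq_of_le_of_card_ge inf_le_left hge))
    · obtain ⟨d, hd, hdx⟩ := frattini (inf_le_right : E ≤ M) hnE RE hx
      refine ⟨d * x, hdx, x⁻¹ * d⁻¹ * x, ?_, by group⟩
      have := hn x⁻¹ (inv_mem hx) d⁻¹ (inv_mem hd.1)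
      simpa using this

end Cfsg.Agent.Lib.GS.PiHom
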