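import Mathlib
import Cfsg.Prelude.Def_G2

/-!
The involution of the split octonions fixing a quaternion subalgebra, and its centraliser.
-/

set_option autoImplicit false

namespace Cfsg.Agent.Lib.GS.Zorn

open Matrix Cfsg.Lie
open scoped MatrixGroups

variable {F : Type*} [Field F]

/-- Quaternion part. -/
def hP : (Fin 8 → F) →ₗ[F] Matrix (Fin 2) (Fin 2) F where
  toFun x := !![x 0, x 1; x 4, x 7]
  map_add' x y := by simp
  map_smul' c x := by simp

/-- Complementary part. -/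
def kP : (Fin 8 → F) →ₗ[F] Matrix (Fin 2) (Fin 2) F where
  toFun x := !![x 2, x 6; -x 3, x 5]
  map_add' x y := by simp [add_comm]
  map_smul' c x := by simp

/-- Reassembly. -/
def mk (X Y : Matrix (Fin 2) (Fin 2) F) : Fin 8 → F :=
  ![X 0 0, X 0 1, Y 0 0, -Y 1 0, X 1 0, Y 1 1, Y 0 1, X 1 1]

@[simp] theorem hP_mk (X Y : Matrix (Fin 2) (Fin 2) F) : hP (mk X Y) = X := by
  ext i j; fin_cases i <;> fin_cases j <;> simp [hP, mk]

@[simp] theorem kP_mk (X Y : Matrix (Fin 2) (Fin 2) F) : kP (mk X Y) = Y := by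
  ext i j; fin_cases i <;> fin_cases j <;> simp [kP, mk]

theorem mk_eta (x : Fin 8 → F) : mk (hP x) (kP x) = x := by
  ext i; fin_cases i <;> simp [hP, kP, mk]

theorem mk_inj {X Y X' Y' : Matrix (Fin 2) (Fin 2) F} (h : mk X Y = mk X' Y') : X = X' ∧ Y = Y' :=
  ⟨by simpa using congrArg hP h, by simpa using congrArg kP h⟩

theorem mk_add (X Y X' Y' : Matrix (Fin 2) (Fin 2) F) : mk X Y + mk X' Y' = mk (X + X') (Y + Y') := by
  ext i; fin_cases i <;> simp [mk, add_comm]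

theorem mk_smul (c : F) (X Y : Matrix (Fin 2) (Fin 2) F) : c • mk X Y = mk (c • X) (c • Y) := by
  ext i; fin_cases i <;> simp [mk]

theorem mk_zero : mk (0 : Matrix (Fin 2) (Fin 2) F) 0 = 0 := by
  ext i; fin_cases i <;> simp [mk]

/-- The Cayley-Dickson law. -/
theorem zornMul_mk (X Y X' Y' : Matrix (Fin 2) (Fin 2) F) :
    zornMul (mk X Y) (mk X' Y') = mk (X * X' + adjugate Y' * Y) (Y' * X + Y * adjugate X') := by
  ext i
  fin_cases i <;>
    simp [zornMul, zA, zB, mk, dot3, cross3, adjugate_fin_two, Matrix.mul_apply, Matrix.vecMul, dotProduct, Fin.sum_univ_two] <;> ring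

/-- Pairs of equal determinant. -/
def pairs (F : Type*) [Field F] : Subgroup (GL (Fin 2) F × GL (Fin 2) F) :=
  MonoidHom.ker ((GeneralLinearGroup.det.comp (MonoidHom.fst (GL (Fin 2) F) (GL (Fin 2) F))) /
    (GeneralLinearGroup.det.comp (MonoidHom.snd (GL (Fin 2) F) (GL (Fin 2) F))))

theorem mem_pairs {n : GL (Fin 2) F × GL (Fin 2) F} :
    n ∈ pairs F ↔ GeneralLinearGroup.det n.1 = GeneralLinearGroup.det n.2 := by
  rw [pairs, MonoidHom.mem_ker, MonoidHom.div_apply, div_eq_one]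
  rfl

theorem adjugate_unit (u : GL (Fin 2) F) :
    adjugate (u : Matrix (Fin 2) (Fin 2) F) =
      (GeneralLinearGroup.det u : F) • ((u⁻¹ : GL (Fin 2) F) : Matrix (Fin 2) (Fin 2) F) := by
  calc adjugate (u : Matrix (Fin 2) (Fin 2) F)
      = adjugate (u : Matrix (Fin 2) (Fin 2) F) * (u * (u⁻¹ : GL (Fin 2) F) : GL (Fin 2) F) := by simp
    _ = _ := by
      rw [Units.val_mul, ← Matrix.mul_assoc, adjugate_mul, Matrix.smul_mul, Matrix.one_mul]
      rfl

/-- The action of a pair. -/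
def act (n : GL (Fin 2) F × GL (Fin 2) F) : (Fin 8 → F) →ₗ[F] (Fin 8 → F) where
  toFun x := mk ((n.2 : Matrix (Fin 2) (Fin 2) F) * hP x * ((n.2⁻¹ : GL (Fin 2) F) : Matrix (Fin 2) (Fin 2) F))
    ((n.1 : Matrix (Fin 2) (Fin 2) F) * kP x * ((n.2⁻¹ : GL (Fin 2) F) : Matrix (Fin 2) (Fin 2) F))
  map_add' x y := by rw [map_add, map_add, mk_add]; simp only [Matrix.mul_add, Matrix.add_mul]
  map_smul' c x := by rw [map_smul, map_smul, RingHom.id_apply, mk_smul]; simp only [Matrix.mul_smul, Matrix.smul_mul]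

theorem act_mk (n : GL (Fin 2) F × GL (Fin 2) F) (X Y : Matrix (Fin 2) (Fin 2) F) :
    act n (mk X Y) =
      mk ((n.2 : Matrix (Fin 2) (Fin 2) F) * X * ((n.2⁻¹ : GL (Fin 2) F) : Matrix (Fin 2) (Fin 2) F))
        ((n.1 : Matrix (Fin 2) (Fin 2) F) * Y * ((n.2⁻¹ : GL (Fin 2) F) : Matrix (Fin 2) (Fin 2) F)) := by
  simp [act]

theorem act_zornMul {n : GL (Fin 2) F × GL (Fin 2) F} (hn : n ∈ pairs F) (x y : Fin 8 → F) :
    act n (zornMul x y) = zornMul (act n x) (act n y) := by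
  obtain ⟨d, g⟩ := n
  rw [mem_pairs] at hn
  dsimp only at hn
  rw [← mk_eta x, ← mk_eta y]
  simp only [zornMul_mk, act_mk, adjugate_mul_distrib, adjugate_unit, hn, map_inv, inv_inv,
    Matrix.smul_mul, Matrix.mul_smul, smul_smul, Units.mul_inv, Units.inv_mul, one_smul]
  congr 1 <;>
  · simp only [Matrix.mul_add, Matrix.add_mul, Matrix.mul_assoc]
    simp [← Matrix.mul_assoc ((g⁻¹ : GL (Fin 2) F) : Matrix (Fin 2) (Fin 2) F),
      ← Matrix.mul_assoc ((d⁻¹ : GL (Fin 2) F) : Matrix (Fin 2) (Fin 2) F), ← Units.val_mul]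

theorem act_one : act (1 : GL (Fin 2) F × GL (Fin 2) F) = LinearMap.id :=
  LinearMap.ext fun x => by simp [act, mk_eta]

theorem act_mul (n m : GL (Fin 2) F × GL (Fin 2) F) : act (n * m) = (act n).comp (act m) :=
  LinearMap.ext fun x => by
    simp [act, Matrix.mul_assoc]

/-- The matrix of a pair. -/
noncomputable def actGL (F : Type*) [Field F] : GL (Fin 2) F × GL (Fin 2) F →* GL (Fin 8) F :=
  MonoidHom.toHomUnits
    { toFun := fun n => LinearMap.toMatrix' (act n)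
      map_one' := by rw [act_one, LinearMap.toMatrix'_id]
      map_mul' := fun n m => by rw [act_mul, LinearMap.toMatrix'_comp] }

theorem actGL_mulVec (n : GL (Fin 2) F × GL (Fin 2) F) (x : Fin 8 → F) :
    (actGL F n : Matrix (Fin 8) (Fin 8) F) *ᵥ x = act n x :=
  LinearMap.toMatrix'_mulVec (act n) x

theorem actGL_mem {n : GL (Fin 2) F × GL (Fin 2) F} (hn : n ∈ pairs F) : actGL F n ∈ G2 F := fun x y => by
  rw [Units.coeHom_apply, actGL_mulVec, actGL_mulVec, actGL_mulVec, act_zornMul hn]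

/-- The homomorphism onto the centraliser of the involution. -/
noncomputable def theta (F : Type*) [Field F] : pairs F →* G2 F :=
  ((actGL F).comp (pairs F).subtype).codRestrict (G2 F) fun n => actGL_mem n.2

theorem theta_mulVec (n : pairs F) (x : Fin 8 → F) :
    (((theta F n : G2 F) : GL (Fin 8) F) : Matrix (Fin 8) (Fin 8) F) *ᵥ x = act n x :=
  actGL_mulVec _ x

theorem g2_ext {a b : G2 F} (h : ∀ x : Fin 8 → F,
    ((a : GL (Fin 8) F) : Matrix (Fin 8) (Fin 8) F) *ᵥ x = ((b : GL (Fin 8) F) : Matrix (Fin 8) (Fin 8) F) *ᵥ x) :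
    a = b :=
  Subtype.ext (Units.ext (Matrix.ext_of_mulVec_single fun i => h _))

theorem theta_eq_one {n : pairs F} (h : theta F n = 1) :
    (n : GL (Fin 2) F × GL (Fin 2) F).1 = (n : GL (Fin 2) F × GL (Fin 2) F).2 := by
  obtain ⟨⟨d, g⟩, hn⟩ := n
  have h1 : act (d, g) (mk (0 : Matrix (Fin 2) (Fin 2) F) 1) = mk 0 1 := by
    rw [← theta_mulVec ⟨(d, g), hn⟩, h]; simp
  rw [act_mk] at h1
  have h2 := (mk_inj h1).2
  rw [Matrix.mul_one, ← Units.val_mul] at h2
  exact mul_inv_eq_one.1 (Units.ext h2)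

theorem theta_scalar {u : GL (Fin 2) F} {n : pairs F} (h1 : (n : GL (Fin 2) F × GL (Fin 2) F) = (u, u))
    (hu : u ∈ Subgroup.center (GL (Fin 2) F)) : theta F n = 1 := by
  refine g2_ext fun x => ?_
  obtain ⟨r, hr⟩ := (GeneralLinearGroup.center_eq_range_scalar (n := Fin 2) (R := F) ▸ hu :
    u ∈ (GeneralLinearGroup.scalar (Fin 2)).range)
  rw [theta_mulVec, h1, ← mk_eta x, act_mk, ← hr]
  simp [GeneralLinearGroup.coe_scalar, ← map_inv, smul_smul, ← Matrix.smul_one_eq_diagonal]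

theorem exists_conj_of_algEquiv (ψ : Matrix (Fin 2) (Fin 2) F ≃ₐ[F] Matrix (Fin 2) (Fin 2) F) :
    ∃ g : GL (Fin 2) F, ∀ X, ψ X = (g : Matrix (Fin 2) (Fin 2) F) * X *
      ((g⁻¹ : GL (Fin 2) F) : Matrix (Fin 2) (Fin 2) F) := by
  let e : Matrix (Fin 2) (Fin 2) F ≃ₐ[F] Module.End F (Fin 2 → F) := Matrix.toLinAlgEquiv'
  obtain ⟨T, hT⟩ := ((e.symm.trans ψ).trans e).eq_linearEquivConjAlgEquiv
  let g : GL (Fin 2) F := ⟨LinearMap.toMatrix' T.toLinearMap, LinearMap.toMatrix' T.symm.toLinearMap,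
    by rw [← LinearMap.toMatrix'_comp]; simp,
    by rw [← LinearMap.toMatrix'_comp]; simp⟩
  refine ⟨g, fun X => ?_⟩
  have h := AlgEquiv.congr_fun hT (e X)
  rw [AlgEquiv.trans_apply, AlgEquiv.trans_apply, AlgEquiv.symm_apply_apply, LinearEquiv.conjAlgEquiv_apply] at h
  have h' := congrArg LinearMap.toMatrix' h
  rw [LinearMap.toMatrix'_comp, LinearMap.toMatrix'_comp] at h'
  have he : ∀ Y : Matrix (Fin 2) (Fin 2) F, LinearMap.toMatrix' (e Y) = Y := fun Y => LinearMap.toMatrix'_toLin' Y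
  rw [he, he] at h'
  simpa [g, Matrix.mul_assoc] using h'

theorem exists_theta_eq (h2 : (2 : F) ≠ 0) (φ : G2 F)
    (hφ : ∀ x, ((φ : GL (Fin 8) F) : Matrix (Fin 8) (Fin 8) F) *ᵥ mk (hP x) (-kP x) =
      mk (hP (((φ : GL (Fin 8) F) : Matrix (Fin 8) (Fin 8) F) *ᵥ x))
        (-kP (((φ : GL (Fin 8) F) : Matrix (Fin 8) (Fin 8) F) *ᵥ x))) :
    ∃ n : pairs F, theta F n = φ := by
  let f : (Fin 8 → F) →ₗ[F] (Fin 8 → F) := Matrix.toLin' ((φ : GL (Fin 8) F) : Matrix (Fin 8) (Fin 8) F)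
  have hf : ∀ x, f x = ((φ : GL (Fin 8) F) : Matrix (Fin 8) (Fin 8) F) *ᵥ x := fun x => Matrix.toLin'_apply _ x
  have hmul : ∀ x y, f (zornMul x y) = zornMul (f x) (f y) := fun x y => by
    simpa [hf] using φ.2 x y
  have hinj : Function.Injective f := fun x y h => by
    simp only [hf] at h
    have := congrArg (((φ : GL (Fin 8) F)⁻¹ : GL (Fin 8) F) : Matrix (Fin 8) (Fin 8) F).mulVec h
    simpa [mulVec_mulVec] using this
  have hneg : ∀ {M : Matrix (Fin 2) (Fin 2) F}, M = -M → M = 0 := fun {M} h => by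
    ext i j
    have := congrFun₂ h i j
    simp only [Matrix.neg_apply] at this
    exact (mul_eq_zero.1 (show (2 : F) * M i j = 0 by linear_combination this)).resolve_left h2
  have hH : ∀ X, f (mk X 0) = mk (hP (f (mk X 0))) 0 := by
    intro X
    have h := hφ (mk X 0)
    rw [hP_mk, kP_mk, neg_zero, ← hf, ← mk_eta (f (mk X 0)), hP_mk, kP_mk] at h
    conv_lhs => rw [← mk_eta (f (mk X 0)), hneg (mk_inj h).2]
  have hK : ∀ Y, f (mk 0 Y) = mk 0 (kP (f (mk 0 Y))) := by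
    intro Y
    have h := hφ (mk 0 Y)
    rw [hP_mk, kP_mk, ← hf, ← hf, show mk 0 (-Y) = (-1 : F) • mk 0 Y by rw [mk_smul]; simp, map_smul] at h
    have h' := congrArg hP h
    rw [map_smul, hP_mk, neg_one_smul] at h'
    conv_lhs => rw [← mk_eta (f (mk 0 Y)), hneg h'.symm]
  let ψl : Matrix (Fin 2) (Fin 2) F →ₗ[F] Matrix (Fin 2) (Fin 2) F :=
    { toFun := fun X => hP (f (mk X 0))
      map_add' := fun X X' => by rw [← map_add, ← map_add, mk_add, add_zero]
      map_smul' := fun c X => by rw [RingHom.id_apply, ← map_smul, ← map_smul, mk_smul, smul_zero] }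
  have hψ : ∀ X, f (mk X 0) = mk (ψl X) 0 := hH
  have hψinj : Function.Injective ψl := fun X X' h => (mk_inj (hinj (by rw [hψ, hψ, h]))).1
  have hψmul : ∀ X X', ψl (X * X') = ψl X * ψl X' := by
    intro X X'
    have h := hmul (mk X 0) (mk X' 0)
    simp only [zornMul_mk, hψ, adjugate_zero, Matrix.mul_zero, Matrix.zero_mul, add_zero] at h
    exact (mk_inj h).1
  let ψe := LinearEquiv.ofInjectiveEndo ψl hψinj
  have hψone : ψl 1 = 1 := by
    obtain ⟨Z, hZ⟩ := ψe.surjective 1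
    change ψl Z = 1 at hZ
    calc ψl 1 = ψl 1 * ψl Z := by rw [hZ, mul_one]
      _ = 1 := by rw [← hψmul, one_mul, hZ]
  obtain ⟨g, hg⟩ := exists_conj_of_algEquiv (AlgEquiv.ofLinearEquiv ψe hψone hψmul)
  replace hg : ∀ X, ψl X = (g : Matrix (Fin 2) (Fin 2) F) * X *
      ((g⁻¹ : GL (Fin 2) F) : Matrix (Fin 2) (Fin 2) F) := hg
  set c := kP (f (mk 0 1)) with hc
  have hdet : c.det = 1 := by
    have h := hmul (mk 0 1) (mk 0 1)
    rw [hK 1, ← hc] at h
    simp only [zornMul_mk, adjugate_one, Matrix.mul_zero, Matrix.zero_mul, adjugate_zero, add_zero,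
      zero_add, Matrix.mul_one, hψ, hψone] at h
    have h1 := (mk_inj h).1
    rw [adjugate_mul] at h1
    simpa using (congrFun₂ h1 0 0).symm
  have hY : ∀ Y, f (mk 0 Y) = mk 0 (c * ψl Y) := by
    intro Y
    have h := hmul (mk Y 0) (mk 0 1)
    rw [hK 1, ← hc] at h
    simpa [zornMul_mk, hψ] using h
  let cu : GL (Fin 2) F := GeneralLinearGroup.mkOfDetNeZero c (by rw [hdet]; exact one_ne_zero)
  have hcu : GeneralLinearGroup.det cu = 1 := Units.ext hdet
  refine ⟨⟨(cu * g, g), mem_pairs.2 (by rw [map_mul, hcu, one_mul])⟩, g2_ext fun x => ?_⟩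
  rw [theta_mulVec, ← hf]
  conv_rhs => rw [← mk_eta x, show mk (hP x) (kP x) = mk (hP x) 0 + mk 0 (kP x) by rw [mk_add, add_zero, zero_add],
    map_add, hψ, hY, mk_add, add_zero, zero_add, hg, hg]
  rw [← mk_eta x, act_mk, hP_mk, kP_mk]
  simp [cu, Matrix.mul_assoc]

theorem scalar_of_comm {d x y : Matrix (Fin 2) (Fin 2) F} (hx : d * x = x * d) (hy : d * y = y * d)
    (h : x * y ≠ y * x) : d = (d 0 0) • (1 : Matrix (Fin 2) (Fin 2) F) := by
  have key : d 0 1 = 0 ∧ d 1 0 = 0 ∧ d 1 1 = d 0 0 := by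
    by_contra hd
    apply h
    have a1 := congrFun₂ hx 0 0
    have a2 := congrFun₂ hx 0 1
    have a3 := congrFun₂ hx 1 0
    have b1 := congrFun₂ hy 0 0
    have b2 := congrFun₂ hy 0 1
    have b3 := congrFun₂ hy 1 0
    simp only [Matrix.mul_apply, Fin.sum_univ_two] at a1 a2 a3 b1 b2 b3
    ext i j
    fin_cases i <;> fin_cases j <;> simp [Matrix.mul_apply, Fin.sum_univ_two] <;> grind
  ext i j
  fin_cases i <;> fin_cases j <;> simp [key.1, key.2.1, key.2.2]

end Cfsg.Agent.Lib.GS.Zorn
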